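import Cfsg.Agent.StdX.Defs2

/-!
# Standard subgroups with two classes of involutions: multiplicativity of the family
-/

set_option autoImplicit false

namespace Cfsg.Lib.StdX

open Subgroup Cfsg.Lib.Gold Cfsg.Lib.Trans Cfsg.Lib.StdSz Cfsg.Lib.StdW
open Cfsg.Lib.StdM (Cl Tr)
open scoped commutatorElement

variable {G Ω : Type*} [Group G] [Group Ω] [Finite G] [Finite Ω] {Γ Γ0 T : Subgroup Ω} {z y : Ω} {n : ℕ}
  {A O B : Subgroup G} {ρ ρ' : G → Ω} {t : G}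

namespace Cal1

variable {ι v : Ω → G} (F : Fm Γ Γ0 z A ρ t ι v)
include F

omit [Finite G] [Finite Ω]

theorem par {x y : Ω} (hx : x ∈ Γ0) (hy : y ∈ Γ0) : ι x ≠ ι y * t := fun e =>
  F.tA ((mul_mem_cancel_left (F.ιA hy)).1 (e ▸ F.ιA hx))

/-- conjugation of the defects by `v a` -/
theorem cv {a k : Ω} (ha : Cl Γ0 z a) (hk : k ∈ Γ0) (c : Commute k a) :
    v a * ι k * v a = ι k ∧ v a * (ι k * t) * v a = ι (k * a) * t := by
  have h3 := (F.vc ha hk c).eq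
  refine ⟨by rw [h3, mul_assoc, F.sq ha, mul_one], ?_⟩
  rw [← mul_assoc (v a), h3, mul_assoc (ι k), mul_assoc (ι k), F.vt ha, (F.tι (F.mem ha)).eq,
    F.ι_mul hk (F.mem ha), mul_assoc]

theorem cg {g k : Ω} (hg : g ∈ Γ0) (hk : k ∈ Γ0) :
    ι g * (ι k * t) * (ι g)⁻¹ = ι (g * k * g⁻¹) * t := by
  rw [← conj_mul, conj_eq_of_commute (F.tι hg).symm, F.ι_conj hg hk]

theorem mt {g k : Ω} (hg : g ∈ Γ0) (hk : k ∈ Γ0) :
    ι g * t * ι k = ι (g * k) * t ∧ ι g * (ι k * t) = ι (g * k) * t ∧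
      ι g * t * (ι k * t) = ι (g * k) := by
  rw [F.ι_mul hg hk]
  refine ⟨by rw [mul_assoc, (F.tι hk).eq, mul_assoc], (mul_assoc ..).symm, ?_⟩
  rw [← (F.tι hk).eq, mul_assoc, ← mul_assoc t, F.s.tt, one_mul]

theorem tri (hle : Γ0 ≤ Γ) {a b f : Ω} (ha : Cl Γ0 z a) (h : Tr3 Γ Γ0 a b f) :
    Cl Γ0 z b ∧ Cl Γ0 z (a * b) ∧ ∃ k ∈ Γ0 ⊓ Cs (Γ0 ⊓ C1 a ⊓ C1 b), (k = 1 ∨ k = f) ∧
      (v a * v b = ι k * v (a * b) ∨ v a * v b = ι (k * b) * t * v (a * b)) := by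
  obtain ⟨c, g, hg, e1, e2, h1⟩ := h
  have hb : Cl Γ0 z b := e1 ▸ ha.conj hg
  have hab : Cl Γ0 z (a * b) := e2 ▸ hb.conj hg
  refine ⟨hb, hab, ?_⟩
  have e3 : g * (a * b) * g⁻¹ = a := by rw [← conj_mul, e1, e2, c.symm.left_comm, F.a2 hb, mul_one]
  have h0 : Commute (v a * v b * v (a * b)) t := by
    have := ((F.tr ha).mul' (F.tr hb) (F.vc ha (F.mem hb) c.symm)).mul' (F.tr hab)
      ((F.vc ha (F.mem hab) ((Commute.refl a).mul_left c.symm)).mul_left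
        (F.vc hb (F.mem hab) (c.mul_left (Commute.refl b))))
    rw [← F.ι_mul (F.mem ha) (F.mem hb), F.ι2 hab, Tr, mul_one] at this
    exact commute_of_conj_eq this
  have h2 := F.cent h0 (U := Γ0 ⊓ C1 a ⊓ C1 b) (inf_le_left.trans inf_le_left) fun x hx =>
    ((F.vc ha hx.1.1 (StdSz.mem_C1.1 hx.1.2)).mul_left
      (F.vc hb hx.1.1 (StdSz.mem_C1.1 hx.2))).mul_left
      (F.vc hab hx.1.1 ((StdSz.mem_C1.1 hx.1.2).mul_right (StdSz.mem_C1.1 hx.2)))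
  have h5 := F.dec h0 (h1 _ h2).1
  generalize ρ (v a * v b * v (a * b)) = k at h2 h5
  have hk := (h1 _ h2).1
  have h3 := cv F ha hk (StdSz.mem_Cs.1 h2.2 a ⟨⟨F.mem ha, StdSz.mem_C1.2 (Commute.refl a)⟩,
    StdSz.mem_C1.2 c⟩)
  have h4 : ι g * (v a * v b * v (a * b)) * (ι g)⁻¹ = v a * (v a * v b * v (a * b)) * v a := by
    rw [← conj_mul, ← conj_mul, ← F.eqv ha hg, ← F.eqv hb hg, ← F.eqv hab hg, e1, e2, e3,
      ← mul_assoc, ← mul_assoc, F.sq ha, one_mul]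
  have fin : ∀ w, v a * v b * v (a * b) = w → v a * v b = w * v (a * b) := fun w e => by
    rw [← e, mul_assoc, F.sq hab, mul_one]
  have hgk := mul_mem (mul_mem hg hk) (inv_mem hg)
  rcases h5 with e | e <;> rw [e] at h4
  · rw [h3.1, ← F.ι_conj hg hk] at h4
    exact ⟨k, ⟨hk, h2.2⟩, (h1 _ h2).2 (commute_of_conj_eq (F.ι_inj hgk hk h4)).symm,
      Or.inl (fin _ e)⟩
  · rw [h3.2, cg F hg hk, mul_left_inj] at h4
    have h6 := F.ι_inj hgk (mul_mem hk (F.mem ha)) h4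
    have h7 : k * b ∈ Cs (Γ0 ⊓ C1 a ⊓ C1 b) :=
      mul_mem h2.2 (StdSz.mem_Cs.2 fun x hx => (StdSz.mem_C1.1 hx.2).symm)
    have h8 := mul_mem hk (F.mem hb)
    refine ⟨k * b, ⟨h8, h7⟩, (h1 _ ⟨hle h8, h7⟩).2 (commute_of_conj_eq ?_).symm, Or.inr ?_⟩
    · rw [← conj_mul, h6, e2, mul_assoc, ← mul_assoc a, F.a2 ha, one_mul]
    · rw [mul_assoc k, F.a2 hb, mul_one]
      exact fin _ e

theorem two {a b c : Ω} (ha : Cl Γ0 z a) {e1 e2 e3 e4 : G} (h1 : v a * v b = e1 * v (a * b))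
    (h2 : v a * v (b * c) = e2 * v (a * (b * c))) (h3 : v (a * b) * v c = e3 * v (a * b * c))
    (h4 : v b * v c = e4 * v (b * c)) : e1 * e3 = v a * e4 * v a * e2 := by
  refine mul_right_cancel (b := v (a * b * c)) ?_
  calc _ = v a * v b * v c := by rw [mul_assoc, ← h3, ← mul_assoc, ← h1]
    _ = v a * e4 * (v a * v a) * v (b * c) := by rw [mul_assoc, h4, F.sq ha, mul_one, mul_assoc]
    _ = _ := by rw [mul_assoc a, mul_assoc _ e2, ← h2]; simp only [mul_assoc]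

theorem cube (hle : Γ0 ≤ Γ) {a b c : Ω} (ha : Cl Γ0 z a) (t1 : Tr3 Γ Γ0 a b 1)
    (t2 : Tr3 Γ Γ0 a (b * c) 1) (t3 : Tr3 Γ Γ0 (a * b) c a) (t4 : Tr3 Γ Γ0 b c a) (n1 : c ≠ a)
    (n2 : c ≠ b) (n3 : c ≠ a * b) : Mu Γ0 z v a b := by
  obtain ⟨hb, hab, k1, -, f1, e1⟩ := tri F hle ha t1
  obtain rfl : k1 = 1 := f1.elim id id
  refine ⟨ha, hb, hab, t1.1, ?_⟩
  rcases e1 with e1 | e1
  · rwa [F.ι_one, one_mul] at e1
  exfalso
  obtain ⟨-, -, k2, -, f2, e2⟩ := tri F hle ha t2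
  obtain rfl : k2 = 1 := f2.elim id id
  obtain ⟨hc, -, k3, ⟨m3, -⟩, f3, e3⟩ := tri F hle hab t3
  obtain ⟨-, -, k4, ⟨m4, -⟩, f4, e4⟩ := tri F hle hb t4
  have ma := F.mem ha
  have mb := F.mem hb
  have mc := F.mem hc
  have n0 := F.a1 hc
  have ca : Commute c a := by
    have := t3.1.symm.mul_right t4.1.symm
    rwa [mul_assoc, F.a2 hb, mul_one] at this
  have c4 : Commute k4 a := by
    rcases f4 with rfl | rfl
    exacts [Commute.one_left _, Commute.refl _]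
  have fin : ∀ x y : Ω, x ∈ Γ0 → y ∈ Γ0 → ι x = ι y → c = c * (x⁻¹ * y) := fun x y hx hy e => by
    rw [F.ι_inj hx hy e, inv_mul_cancel, mul_one]
  have m1 : (1 : Ω) ∈ Γ0 := one_mem _
  have key : c = c * ((1 * b * k3)⁻¹ * (k4 * (1 * (b * c)))) ∨
      c = c * ((1 * b * k3)⁻¹ * (k4 * c * a * 1)) ∨ c = c * ((1 * b * (k3 * c))⁻¹ * (k4 * 1)) ∨
      c = c * ((1 * b * (k3 * c))⁻¹ * (k4 * c * a * (1 * (b * c)))) := by
    have b1 := mul_mem m1 mb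
    have bc := mul_mem m1 (mul_mem mb mc)
    have c3 := mul_mem m3 mc
    have c5 := mul_mem m4 mc
    have c6 := mul_mem c5 ma
    have q1 := (cv F ha m4 c4).1
    have q2 := (cv F ha c5 (c4.mul_left ca)).2
    rcases e2 with e2 | e2 <;> rcases e3 with e3 | e3 <;> rcases e4 with e4 | e4 <;>
      have := two F ha e1 e2 e3 e4
    · rw [q1, (mt F b1 m3).1, ← F.ι_mul m4 m1] at this
      exact absurd this.symm (par F (mul_mem m4 m1) (mul_mem b1 m3))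
    · rw [q2, (mt F b1 m3).1, (mt F c6 m1).1, mul_left_inj] at this
      exact Or.inr (Or.inl (fin _ _ (mul_mem b1 m3) (mul_mem c6 m1) this))
    · rw [q1, (mt F b1 c3).2.2, ← F.ι_mul m4 m1] at this
      exact Or.inr (Or.inr (Or.inl (fin _ _ (mul_mem b1 c3) (mul_mem m4 m1) this)))
    · rw [q2, (mt F b1 c3).2.2, (mt F c6 m1).1] at this
      exact absurd this (par F (mul_mem b1 c3) (mul_mem c6 m1))
    · rw [q1, (mt F b1 m3).1, (mt F m4 bc).2.1, mul_left_inj] at this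
      exact Or.inl (fin _ _ (mul_mem b1 m3) (mul_mem m4 bc) this)
    · rw [q2, (mt F b1 m3).1, (mt F c6 bc).2.2] at this
      exact absurd this.symm (par F (mul_mem c6 bc) (mul_mem b1 m3))
    · rw [q1, (mt F b1 c3).2.2, (mt F m4 bc).2.1] at this
      exact absurd this (par F (mul_mem b1 c3) (mul_mem m4 bc))
    · rw [q2, (mt F b1 c3).2.2, (mt F c6 bc).2.2] at this
      exact Or.inr (Or.inr (Or.inr (fin _ _ (mul_mem b1 c3) (mul_mem c6 bc) this)))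
  have ia := DaP.inv2 (F.a2 ha)
  have ib := DaP.inv2 (F.a2 hb)
  have ic := DaP.inv2 (F.a2 hc)
  have sq : ∀ {a : Ω}, a * a = 1 → ∀ x, a * (a * x) = x := fun h x => by rw [← mul_assoc, h, one_mul]
  rcases f3 with f3 | f3 <;> rcases f4 with f4 | f4 <;> rw [f3, f4] at key <;>
    simp only [mul_inv_rev, inv_one, ia, ib, ic, mul_assoc, one_mul, mul_one, ca.eq, ca.left_comm,
      t1.1.symm.eq, t1.1.symm.left_comm, t4.1.symm.eq, t4.1.symm.left_comm, F.a2 ha, F.a2 hb, F.a2 hc,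
      sq (F.a2 ha), sq (F.a2 hb), sq (F.a2 hc), n0, n1, n2, n3, or_self] at key

theorem odd (hle : Γ0 ≤ Γ) {a b c f g₂ g₄ : Ω} (m : Mu Γ0 z v a b) (t1 : Tr3 Γ Γ0 b c f)
    (h2 : g₂ ∈ Γ0) (h4 : g₄ ∈ Γ0) (e1 : g₂ * b * g₂⁻¹ = a * b) (e2 : g₂ * c * g₂⁻¹ = c)
    (e3 : g₄ * b * g₄⁻¹ = a) (e4 : g₄ * c * g₄⁻¹ = b * c)
    (hf : g₂ * f * g₂⁻¹ ≠ f * (g₄ * f * g₄⁻¹)) : Mu Γ0 z v b c := by
  obtain ⟨hc, hbc, k, ⟨hk, ck⟩, f1, e⟩ := tri F hle m.r t1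
  refine ⟨m.r, hc, hbc, t1.1, ?_⟩
  have ac : Commute a c := by
    have := commute_conj t1.1 g₂
    rw [e1, e2] at this
    have := this.mul_left t1.1
    rwa [mul_assoc, F.a2 m.r, mul_one] at this
  have ka : Commute k a := StdSz.mem_Cs.1 ck a ⟨⟨F.mem m.l, StdSz.mem_C1.2 m.c⟩, StdSz.mem_C1.2 ac⟩
  have key : ∀ ε, v b * v c = ε * v (b * c) →
      ι g₂ * ε * (ι g₂)⁻¹ = v a * ε * v a * (ι g₄ * ε * (ι g₄)⁻¹) := fun ε e => by
    have k : ∀ g ∈ Γ0, v (g * b * g⁻¹) * v (g * c * g⁻¹) =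
        ι g * ε * (ι g)⁻¹ * v (g * b * g⁻¹ * (g * c * g⁻¹)) := fun g hg => by
      rw [conj_mul, F.eqv m.r hg, F.eqv hc hg, F.eqv hbc hg, conj_mul, conj_mul, e]
    have k2 := k g₂ h2
    have k4 := k g₄ h4
    rw [e1, e2] at k2
    rw [e3, e4] at k4
    exact (one_mul _).symm.trans (two F m.l (m.e.trans (one_mul _).symm) k4 k2 e)
  have cj : ∀ {g k}, g ∈ Γ0 → k ∈ Γ0 → g * k * g⁻¹ ∈ Γ0 := fun hg hk =>
    mul_mem (mul_mem hg hk) (inv_mem hg)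
  rcases e with e | e
  · rcases f1 with rfl | rfl
    · rwa [F.ι_one, one_mul] at e
    · have := key _ e
      rw [(cv F m.l hk ka).1, ← F.ι_conj h2 hk, ← F.ι_conj h4 hk, ← F.ι_mul hk (cj h4 hk)] at this
      exact absurd (F.ι_inj (cj h2 hk) (mul_mem hk (cj h4 hk)) this) hf
  · have := key _ e
    have kc := mul_mem hk (F.mem hc)
    have kca := mul_mem kc (F.mem m.l)
    rw [(cv F m.l kc (ka.mul_left ac.symm)).2, cg F h2 kc, cg F h4 kc, (mt F kca (cj h4 kc)).2.2] at this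
    exact absurd this.symm (par F (mul_mem kca (cj h4 kc)) (cj h2 kc))

end Cal1

theorem Fm.mu {ι v : Ω → G} (F : Fm Γ Γ0 z A ρ t ι v) (hle : Γ0 ≤ Γ) {a b : Ω} (d : MuD Γ Γ0 z a b) :
    Mu Γ0 z v a b := by
  induction d with
  | cube ha t1 t2 t3 t4 n1 n2 n3 => exact Cal1.cube F hle ha t1 t2 t3 t4 n1 n2 n3
  | odd _ t1 h2 h4 e1 e2 e3 e4 hf m => exact Cal1.odd F hle m t1 h2 h4 e1 e2 e3 e4 hf
  | conj _ hg m => exact F.cj m hg
  | symm _ m => exact F.symm m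
  | rot _ m => exact F.rot m
  | @three a b c h _ _ _ m1 m2 m3 =>
    refine ⟨m3.l, m2.l, m1.l, h, mul_right_cancel (b := v c) ?_⟩
    rw [mul_assoc, m2.e, m3.e, m1.e, mul_assoc]

end Cfsg.Lib.StdX
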