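import Cfsg.Agent.StdX.Defs2

/-!
# Standard subgroups with two classes of involutions: the defect of a dihedral pair
-/

set_option autoImplicit false

namespace Cfsg.Lib.StdX

open Subgroup Cfsg.Lib.Gold Cfsg.Lib.Trans Cfsg.Lib.StdSz Cfsg.Lib.StdW
open Cfsg.Lib.StdM (Cl Tr)
open scoped commutatorElement

variable {G Ω : Type*} [Group G] [Group Ω] [Finite G] [Finite Ω] {Γ Γ0 T : Subgroup Ω} {z y : Ω} {n : ℕ}
  {A O B : Subgroup G} {ρ ρ' : G → Ω} {t : G}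

omit [Finite G] in
/-- the words in `x = v a`, `y = v q`, `w = v p` -/
theorem Cal2.alg {x y w α β π t : G} (x2 : x * x = 1) (y2 : y * y = 1) (w2 : w * w = 1)
    (α2 : α * α = 1) (β2 : β * β = 1) (π2 : π * π = 1)
    (xt : x * t * x = t * α) (yt : y * t * y = t * β) (wt : w * t * w = t * π)
    (xα : Commute x α) (xπ : Commute x π) (yβ : Commute y β) (yπ : Commute y π)
    (xw : Commute x w) (yw : Commute y w) (wα : Commute w α) (wβ : Commute w β)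
    (e : β * α * β = α * π) (xβ : x * β * x = β * w) (yα : y * α * y = α * w) :
    Commute (x * y * x * y * w) t ∧ Commute (x * y * x * y * w) α ∧ Commute (x * y * x * y * w) β ∧
      (x * y * x * y * w)⁻¹ = y * x * y * x * w ∧
      x * (x * y * x * y * w) * x = (x * y * x * y * w)⁻¹ ∧
      y * (x * y * x * y * w) * y = (x * y * x * y * w)⁻¹ ∧
      x * (β * y) * x = x * y * x * y * w * (β * y) ∧
      y * (α * x) * y = (x * y * x * y * w)⁻¹ * (α * x) := by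
  have ix := DaP.inv2 x2
  have iy := DaP.inv2 y2
  have iw := DaP.inv2 w2
  have cj : ∀ {s u r : G}, s * s = 1 → s * u * s = r → MulAut.conj s u = r := fun h1 h2 => by
    rw [MulAut.conj_apply, DaP.inv2 h1, h2]
  have cc : ∀ {s u : G}, Commute s u → MulAut.conj s u = u := fun h => by
    rw [MulAut.conj_apply, conj_eq_of_commute h]
  have fin : ∀ {s u : G}, MulAut.conj s u = u → Commute s u := fun h =>
    commute_of_conj_eq (by rwa [MulAut.conj_apply] at h)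
  have cancel : ∀ {s : G} (r : G), s * s = 1 → s * (s * r) = r := fun r h => by
    rw [← mul_assoc, h, one_mul]
  have ci : (x * y * x * y * w)⁻¹ = y * x * y * x * w := by
    simp only [mul_inv_rev, ix, iy, iw, mul_assoc, yw.symm.left_comm, xw.symm.eq]
  have cα : Commute (x * y * x * y * w) α := fin (by
    simp only [map_mul, MulAut.mul_apply, cc wα, cj y2 yα, cc xα, cc xw, cc yw, mul_assoc, w2, mul_one])
  have cβ : Commute (x * y * x * y * w) β := fin (by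
    simp only [map_mul, MulAut.mul_apply, cc wβ, cj x2 xβ, cc yβ, cc xw, cc yw, mul_assoc, w2, mul_one])
  refine ⟨fin ?_, cα, cβ, ci, ?_, ?_, ?_, ?_⟩
  · simp only [map_mul, MulAut.mul_apply, cj w2 wt, cj y2 yt, cj x2 xt, cc xπ, cc yπ, cj y2 yα,
      cj x2 xβ, cc xα, cc yβ, cc xw, cc yw]
    calc _ = t * α * (β * (w * α * w) * β * (w * w) * π) := by group
      _ = _ := by
        rw [wα.eq, mul_assoc α w, w2, mul_one, mul_one, e, mul_assoc α π, π2, mul_one, mul_assoc, α2,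
          mul_one]
  · rw [ci]
    simp only [mul_assoc, cancel _ x2, xw.symm.eq]
  · rw [ci]
    simp only [mul_assoc, yw.symm.eq, cancel _ y2]
  · rw [← mul_assoc (x * y * x * y * w), cβ.eq]
    calc _ = x * β * x * x * y * x := by rw [mul_assoc _ x x, x2]; group
      _ = _ := by
        rw [xβ]
        simp only [mul_assoc, xw.symm.eq, yw.symm.eq, cancel _ y2]
  · rw [← mul_assoc (x * y * x * y * w)⁻¹, cα.inv_left.eq, ci]
    calc _ = y * α * y * y * x * y := by rw [mul_assoc _ y y, y2]; group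
      _ = _ := by
        rw [yα]
        simp only [mul_assoc, xw.symm.eq, yw.symm.eq, cancel _ x2]

omit [Finite G] [Finite Ω] in
/-- the defect of a pair generating a dihedral group of order eight -/
theorem Fm.defect {ι v : Ω → G} (F : Fm Γ Γ0 z A ρ t ι v) {a q p : Ω}
    (m1 : Mu Γ0 z v a p) (m2 : Mu Γ0 z v q p) (e : a * q * a⁻¹ = q * p)
    (hk : ∀ k ∈ Γ ⊓ Cs (Γ0 ⊓ C1 a ⊓ C1 q) ⊓ C1 a ⊓ C1 q, k ∈ Γ0) :
    ∃ k ∈ Γ ⊓ Cs (Γ0 ⊓ C1 a ⊓ C1 q) ⊓ C1 a ⊓ C1 q, k * k = 1 ∧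
      (∀ s ∈ Γ0, s * a * s⁻¹ = q → s * q * s⁻¹ = a → Commute k s) ∧
      v a * (t * v q * t⁻¹) * v a = ι k * (t * v q * t⁻¹) ∧
      v q * (t * v a * t⁻¹) * v q = ι k * (t * v a * t⁻¹) := by
  have a0 := F.mem m1.l
  have q0 := F.mem m2.l
  have p0 := F.mem m1.r
  have ia := DaP.inv2 (F.a2 m1.l)
  have iq := DaP.inv2 (F.a2 m2.l)
  have ip := DaP.inv2 (F.a2 m1.r)
  have pe : p = q⁻¹ * (a * q * a⁻¹) := by rw [e]; group
  have e' : q * a * q⁻¹ = a * p := by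
    calc _ = q * (a * q * a⁻¹) * a := by rw [iq]; group
      _ = _ := by rw [e, ← mul_assoc, F.a2 m2.l, one_mul, m1.c.eq]
  obtain ⟨ct, cα, cβ, ci, xc, yc, k1, k2⟩ := Cal2.alg (F.sq m1.l) (F.sq m2.l) (F.sq m1.r)
    (F.ι2 m1.l) (F.ι2 m2.l) (F.ι2 m1.r) (F.vt m1.l) (F.vt m2.l) (F.vt m1.r) (F.va m1.l)
    (F.vc m1.l p0 m1.c.symm) (F.va m2.l) (F.vc m2.l p0 m2.c.symm) (F.comm m1) (F.comm m2)
    (F.vc m1.r a0 m1.c) (F.vc m1.r q0 m2.c) (by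
      rw [← F.ι_mul a0 p0, ← e', F.ι_conj q0 a0, DaP.inv2 (F.ι2 m2.l)])
    (F.dih m1 m2.l e') (F.dih m2 m1.l e)
  generalize hc : v a * v q * v a * v q * v p = c at *
  have cN := F.s.cN (StdSz.mem_C1.2 ct)
  have hm : ρ c ∈ Γ ⊓ Cs (Γ0 ⊓ C1 a ⊓ C1 q) ⊓ C1 a ⊓ C1 q := by
    refine ⟨⟨F.cent ct (inf_le_left.trans inf_le_left) fun x hx => ?_,
      StdSz.mem_C1.2 (F.ρι a0 ▸ F.h.commute cN (F.N a0) cα)⟩,
      StdSz.mem_C1.2 (F.ρι q0 ▸ F.h.commute cN (F.N q0) cβ)⟩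
    have xa : Commute x a := StdSz.mem_C1.1 hx.1.2
    have xq : Commute x q := StdSz.mem_C1.1 hx.2
    have h1 := F.vc m1.l hx.1.1 xa
    have h2 := F.vc m2.l hx.1.1 xq
    have h3 := F.vc m1.r hx.1.1 (pe ▸ xq.inv_right.mul_right ((xa.mul_right xq).mul_right xa.inv_right))
    exact hc ▸ (((h1.mul_left h2).mul_left h1).mul_left h2).mul_left h3
  have k0 := hk _ hm
  have xk := F.vc m1.l k0 (StdSz.mem_C1.1 hm.1.2)
  have yk := F.vc m2.l k0 (StdSz.mem_C1.1 hm.2)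
  rcases F.dec ct k0 with d | d
  · have c2 : c⁻¹ = c := by
      rw [← xc, d, xk.eq, mul_assoc, F.sq m1.l, mul_one]
    refine ⟨ρ c, hm, F.ι_inj (mul_mem k0 k0) (one_mem _) ?_, fun s hs s1 s2 => ?_, ?_, ?_⟩
    · rw [F.ι_mul k0 k0, F.ι_one, ← d]
      nth_rewrite 1 [← c2]
      exact inv_mul_cancel c
    · have s3 : s * p * s⁻¹ = p := by
        calc s * p * s⁻¹ = (s * q * s⁻¹)⁻¹ * (s * a * s⁻¹ * (s * q * s⁻¹) * (s * a * s⁻¹)⁻¹) := by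
              rw [pe]; group
          _ = p := by rw [s1, s2, e', ← mul_assoc, inv_mul_cancel, one_mul]
      have : ι s * c * (ι s)⁻¹ = c := by
        nth_rewrite 2 [← c2]
        rw [ci, ← hc, ← conj_mul, ← conj_mul, ← conj_mul, ← conj_mul, ← F.eqv m1.l hs, ← F.eqv m2.l hs,
          ← F.eqv m1.r hs, s1, s2, s3]
      refine F.ι_inj (mul_mem k0 hs) (mul_mem hs k0) ?_
      rw [F.ι_mul k0 hs, F.ι_mul hs k0, ← d, (commute_of_conj_eq this).eq]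
    · rw [F.tvt m2.l, k1, ← d]
    · rw [F.tvt m1.l, k2, ← d, c2]
  · exfalso
    rw [← yc, d, ← mul_assoc, ← mul_assoc, xk.eq, yk.eq, mul_assoc, mul_assoc, mul_assoc, mul_assoc,
      mul_right_inj, ← mul_assoc, ← mul_assoc, F.vt m1.l, F.vt m2.l, mul_right_inj] at xc
    rw [F.ι_inj a0 q0 xc, mul_inv_cancel_right, left_eq_mul] at e
    exact F.a1 m1.r e

theorem Fm.trip {ι v : Ω → G} (F : Fm Γ Γ0 z A ρ t ι v) {a q p a₁ a₂ q₀ g₁ g₂ g₃ : Ω}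
    (mu : ∀ {a b}, MuD Γ Γ0 z a b → Mu Γ0 z v a b) (m1 : Mu Γ0 z v a p) (m2 : Mu Γ0 z v q p)
    (e : a * q * a⁻¹ = q * p) (m3 : Mu Γ0 z v a₁ a₂) (h1 : g₁ ∈ Γ0) (h2 : g₂ ∈ Γ0) (h3 : g₃ ∈ Γ0)
    (p1 : Mp g₁ a q a₁ q₀) (p2 : Mp g₂ a q a₂ q₀) (p3 : Mp g₃ a q (a₁ * a₂) q₀)
    (hk : ∀ k ∈ Γ ⊓ Cs (Γ0 ⊓ C1 a ⊓ C1 q) ⊓ C1 a ⊓ C1 q, k ∈ Γ0 ∧ (k * k = 1 →
      (∀ s ∈ Γ0, s * a * s⁻¹ = q → s * q * s⁻¹ = a → Commute k s) → k = 1 ∨
        Bad Γ Γ0 z a₁ a₂ (g₁ * k * g₁⁻¹) (g₂ * k * g₂⁻¹) (g₃ * k * g₃⁻¹))) : Rl Γ0 z t v a q := by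
  obtain ⟨k, hm, k2, ks, d1, d2⟩ := F.defect m1 m2 e fun k h => (hk k h).1
  obtain ⟨k0, hb⟩ := hk k hm
  rcases hb k2 ks with rfl | hb
  · refine ⟨m1.l, m2.l, commute_of_conj_eq ?_⟩
    rw [F.vi m1.l, d1, F.ι_one, one_mul]
  exfalso
  have cj : ∀ {g a q}, g ∈ Γ0 → Cl Γ0 z a → Cl Γ0 z q →
      v a * (t * v q * t⁻¹) * v a = ι k * (t * v q * t⁻¹) →
      v (g * a * g⁻¹) * (t * v (g * q * g⁻¹) * t⁻¹) * v (g * a * g⁻¹) =
        ι (g * k * g⁻¹) * (t * v (g * q * g⁻¹) * t⁻¹) := fun {g a q} hg ha hq d => by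
    have c : t * (ι g * v q * (ι g)⁻¹) * t⁻¹ = ι g * (t * v q * t⁻¹) * (ι g)⁻¹ := by
      rw [← conj_mul, ← conj_mul, conj_eq_of_commute (F.tι hg),
        conj_eq_of_commute (F.tι hg).inv_right]
    rw [F.eqv ha hg, F.eqv hq hg, F.ι_conj hg k0, c, conj_mul, conj_mul, d, conj_mul]
  have mp : ∀ {g b}, g ∈ Γ0 → Mp g a q b q₀ →
      v b * (t * v q₀ * t⁻¹) * v b = ι (g * k * g⁻¹) * (t * v q₀ * t⁻¹) := fun hg h => by
    rcases h with ⟨rfl, rfl⟩ | ⟨rfl, rfl⟩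
    exacts [cj hg m1.l m2.l d1, cj hg m2.l m1.l d2]
  have f1 := mp h1 p1
  have f2 := mp h2 p2
  have f3 := mp h3 p3
  have n1 := mul_mem (mul_mem h1 k0) (inv_mem h1)
  have n2 := mul_mem (mul_mem h2 k0) (inv_mem h2)
  have n3 := mul_mem (mul_mem h3 k0) (inv_mem h3)
  generalize g₁ * k * g₁⁻¹ = k₁ at *
  generalize g₂ * k * g₂⁻¹ = k₂ at *
  generalize g₃ * k * g₃⁻¹ = k₃ at *
  generalize t * v q₀ * t⁻¹ = U at *
  have key : ∀ {a₁ a₂ k₁ k₂}, Mu Γ0 z v a₁ a₂ → k₁ ∈ Γ0 → k₂ ∈ Γ0 → v a₁ * U * v a₁ = ι k₁ * U →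
      v a₂ * U * v a₂ = ι k₂ * U → v (a₁ * a₂) * U * v (a₁ * a₂) = ι k₃ * U →
      ¬ ((Commute a₁ k₂ ∧ k₂ * k₁ ≠ k₃) ∨ MuD Γ Γ0 z a₁ (a₁ * (k₂ * a₁ * k₂⁻¹))) := by
    intro a₁ a₂ k₁ k₂ m n1 n2 f1 f2 f3
    have r : ι k₃ = v a₁ * ι k₂ * v a₁ * ι k₁ := by
      rw [← mul_left_inj U, ← f3, ← m.e, mul_assoc _ (ι k₁), ← f1]
      nth_rewrite 2 [(F.comm m).eq]
      calc _ = v a₁ * (v a₂ * U * v a₂) * v a₁ := by group
        _ = v a₁ * ι k₂ * (v a₁ * v a₁) * U * v a₁ := by rw [f2, F.sq m.l]; group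
        _ = _ := by group
    rintro (⟨c, ne⟩ | d)
    · refine ne (F.ι_inj (mul_mem n2 n1) n3 ?_)
      rw [r, (F.vc m.l n2 c.symm).eq, mul_assoc (ι k₂) (v a₁), F.sq m.l, mul_one, F.ι_mul n2 n1]
    · have m' := mu d
      have e1 := m'.e
      rw [← mul_assoc a₁ a₁, F.a2 m.l, one_mul, F.eqv m.l n2] at e1
      have e2 : v (a₁ * (k₂ * a₁ * k₂⁻¹)) = ι k₃ * (ι k₁)⁻¹ * (ι k₂)⁻¹ := by
        rw [r, ← mul_right_inj (v a₁), e1]
        simp only [← mul_assoc, F.sq m.l, one_mul, mul_inv_cancel_right]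
      exact F.not_comm m'.r (e2 ▸ (((F.tι n3).mul_right (F.tι n1).inv_right).mul_right
        (F.tι n2).inv_right).symm)
  rcases hb with hb | hb | hb
  · exact key m3 n1 n2 f1 f2 f3 (Or.inl hb)
  · exact key m3 n1 n2 f1 f2 f3 (Or.inr hb)
  · exact key (F.symm m3) n2 n1 f2 f1 (m3.c.eq ▸ f3) hb

end Cfsg.Lib.StdX
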