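import Cfsg.Agent.StdX.Defs2

/-!
# Standard subgroups with two classes of involutions: the relation from a Pauli configuration
-/

set_option autoImplicit false

namespace Cfsg.Lib.StdX

open Subgroup Cfsg.Lib.Gold Cfsg.Lib.Trans Cfsg.Lib.StdSz Cfsg.Lib.StdW
open Cfsg.Lib.StdM (Cl Tr)
open scoped commutatorElement

variable {G Ω : Type*} [Group G] [Group Ω] [Finite G] [Finite Ω] {Γ Γ0 T : Subgroup Ω} {z y : Ω} {n : ℕ}
  {A O B : Subgroup G} {ρ ρ' : G → Ω} {t : G}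

namespace Cal3

omit [Finite G] [Finite Ω]

theorem sw {a q p : Ω} (ha : a * a = 1) (hq : q * q = 1) (c : Commute a p) (e : a * q * a⁻¹ = q * p) :
    q * a * q⁻¹ = a * p := by
  have e' : a * q = q * p * a := by rw [← e]; group
  rw [DaP.inv2 hq, mul_assoc, e', ← mul_assoc, ← mul_assoc, hq, one_mul, c.eq]

/-- an element of odd order whose commutator with `X` is a central 2-element centralises `X` -/
theorem odd_fix {ν X : G} {N : ℕ} (hN : Odd N) (h1 : ν ^ N = 1)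
    (h2 : Commute (ν * ν) (X⁻¹ * (ν * X * ν⁻¹))) (h3 : (X⁻¹ * (ν * X * ν⁻¹)) ^ 16 = 1) :
    Commute X ν := by
  generalize hδ : X⁻¹ * (ν * X * ν⁻¹) = δ at h2 h3
  have e : ν * X * ν⁻¹ = X * δ := by rw [← hδ]; group
  have c : Commute ν δ := by
    obtain ⟨k, rfl⟩ := hN
    have := h2.pow_left (k + 1)
    rwa [← sq, ← pow_mul, show 2 * (k + 1) = 2 * k + 1 + 1 by ring, pow_succ, h1, one_mul] at this
  have ind : ∀ j : ℕ, ν ^ j * X * (ν ^ j)⁻¹ = X * δ ^ j := fun j => by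
    induction j with
    | zero => simp
    | succ j ih =>
      calc _ = ν * (ν ^ j * X * (ν ^ j)⁻¹) * ν⁻¹ := by rw [pow_succ']; group
        _ = _ := by
          rw [ih, ← conj_mul, e, conj_eq_of_commute (c.pow_right j), mul_assoc, ← pow_succ']
  have h4 : δ ^ N = 1 := by simpa [h1] using (ind N).symm
  have h5 : δ = 1 := by
    have := pow_gcd_eq_one.2 ⟨h4, h3⟩
    rwa [show N.gcd 16 = 1 from (hN.coprime_two_right.pow_right 4), pow_one] at this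
  rw [h5, mul_one] at e
  exact (commute_of_conj_eq e).symm

variable {ι v : Ω → G} (F : Fm Γ Γ0 z A ρ t ι v)
include F

/-- the elements of `Γ0` whose lifts commute with `X` -/
def S (X : G) : Subgroup Ω where
  carrier := {k | k ∈ Γ0 ∧ Commute X (ι k)}
  one_mem' := ⟨one_mem _, by rw [F.ι_one]; exact Commute.one_right _⟩
  mul_mem' := fun h k => ⟨mul_mem h.1 k.1, by rw [F.ι_mul h.1 k.1]; exact h.2.mul_right k.2⟩
  inv_mem' := fun h => ⟨inv_mem h.1, by rw [F.ι_inv h.1]; exact h.2.inv_right⟩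

theorem ι_pow {g : Ω} (hg : g ∈ Γ0) (j : ℕ) : ι (g ^ j) = ι g ^ j := by
  induction j with
  | zero => simpa using F.ι_one
  | succ j ih => rw [pow_succ, F.ι_mul (pow_mem hg j) hg, ih, pow_succ]

theorem memΓ {g : Ω} (hg : g ∈ Γ0) : g ∈ Γ := F.ρι hg ▸ F.h.memΓ _ (F.N hg)

theorem sq1 {c : G} (h1 : Commute c t) (h2 : ρ c = 1) : c * c = 1 := by
  rcases F.ker h1 h2 with rfl | rfl
  · simp
  · exact F.s.tt

theorem fix {X : G} {H : Subgroup Ω} (hH : H ≤ S F X) (h8 : ∀ k ∈ Γ ⊓ Cs H, k ^ 8 = 1) {g : Ω}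
    (hg : g ∈ Γ0 ⊓ Ns H ⊓ Cs (Γ ⊓ Cs H)) (ho : Odd (orderOf g)) (c : Commute (ι g) (X * t * X⁻¹)) :
    g ∈ S F X := by
  obtain ⟨⟨g0, gN⟩, gC⟩ := hg
  have ct := (F.tι g0).symm
  obtain ⟨δ, hδ⟩ : ∃ δ, δ = X⁻¹ * (ι g * X * (ι g)⁻¹) := ⟨_, rfl⟩
  have d1 : Commute δ t := commute_of_conj_eq <| by
    calc δ * t * δ⁻¹ = X⁻¹ * (ι g * (X * ((ι g)⁻¹ * t * (ι g)⁻¹⁻¹) * X⁻¹) * (ι g)⁻¹) * X := by
          rw [hδ]; group
      _ = t := by rw [conj_eq_of_commute ct.inv_left, conj_eq_of_commute c]; group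
  have d2 : ρ δ ∈ Γ ⊓ Cs H := F.cent d1 (fun x hx => (hH hx).1) fun x hx => by
    have k := hH ((mem_normalizer_iff.1 (inv_mem gN) x).1 hx)
    have := commute_conj k.2 (ι g)
    rw [F.ι_conj (inv_mem g0) (hH hx).1, F.ι_inv g0] at this
    rw [hδ]
    exact (hH hx).2.inv_left.mul_left (by simpa [mul_assoc] using this)
  have dN := F.s.cN (StdSz.mem_C1.2 d1)
  have d3 : Commute (ι g * δ * (ι g)⁻¹ * δ⁻¹) t := ((ct.mul_left d1).mul_left ct.inv_left).mul_left d1.inv_left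
  have d4 : ρ (ι g * δ * (ι g)⁻¹ * δ⁻¹) = 1 := by
    rw [F.h.mul _ (mul_mem (mul_mem (F.N g0) dN) (inv_mem (F.N g0))) _ (inv_mem dN), F.h.inv dN,
      F.h.conj (F.N g0) dN, F.ρι g0, conj_eq_of_commute (StdSz.mem_Cs.1 gC _ d2), mul_inv_cancel]
  refine ⟨g0, odd_fix ho (by rw [← ι_pow F g0, pow_orderOf_eq_one, F.ι_one]) ?_ ?_⟩ <;> rw [← hδ]
  · have d5 := sq1 F d3 d4
    have d6 : Commute (ι g) (ι g * δ * (ι g)⁻¹ * δ⁻¹) := by
      rcases F.ker d3 d4 with e | e <;> rw [e]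
      exacts [Commute.one_right _, ct]
    generalize hc : ι g * δ * (ι g)⁻¹ * δ⁻¹ = c at d5 d6
    have e : ι g * δ * (ι g)⁻¹ = c * δ := by rw [← hc]; group
    refine commute_of_conj_eq ?_
    calc _ = ι g * (ι g * δ * (ι g)⁻¹) * (ι g)⁻¹ := by group
      _ = _ := by rw [e, ← conj_mul, e, conj_eq_of_commute d6, ← mul_assoc, d5, one_mul]
  · rw [show 16 = 8 + 8 from rfl, pow_add]
    exact sq1 F (d1.pow_left 8) (by rw [F.h.pow dN, h8 _ d2])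

end Cal3

open Cal3 in
theorem Fm.pauli {ι v : Ω → G} (F : Fm Γ Γ0 z A ρ t ι v) {a q r p m : Ω} {H : Subgroup Ω}
    (m1 : Mu Γ0 z v a p) (m2 : Mu Γ0 z v q p) (m3 : Mu Γ0 z v r p) (e1 : a * q * a⁻¹ = q * p)
    (e2 : a * r * a⁻¹ = r * p) (e3 : q * r * q⁻¹ = r * p)
    (hH : H ≤ closure {a, q} ⊔ Γ0 ⊓ C1 a ⊓ C1 q ⊓ C1 r) (hp : p ∈ Cs H) (hx : r * a * q ∈ Cs H)
    (h8 : ∀ k ∈ Γ ⊓ Cs H, k ^ 8 = 1)
    (hm : m ∈ closure {x | x ∈ Γ0 ⊓ Ns H ⊓ Cs (Γ ⊓ Cs H) ∧ Odd (orderOf x)})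
    (c1 : m * a * m⁻¹ = r) (c2 : m * r * m⁻¹ = a * p) (c3 : m * q * m⁻¹ = q) : Rl Γ0 z t v a r := by
  have a0 := F.mem m1.l
  have q0 := F.mem m2.l
  have r0 := F.mem m3.l
  have p0 := F.mem m1.r
  have x0 : r * a * q ∈ Γ0 := mul_mem (mul_mem r0 a0) q0
  have dih : ∀ {b c}, Mu Γ0 z v b p → Cl Γ0 z c → c * b * c⁻¹ = b * p →
      v b * ι c * (v b)⁻¹ = ι c * v p := fun h k e => by rw [F.vi h.l, F.dih h k e]
  have dqa := dih m2 m1.l e1
  have daq := dih m1 m2.l (sw (F.a2 m1.l) (F.a2 m2.l) m1.c e1)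
  have dra := dih m3 m1.l e2
  have dar := F.dih m1 m3.l (sw (F.a2 m1.l) (F.a2 m3.l) m1.c e2)
  have drq := dih m3 m2.l e3
  have fa := conj_eq_of_commute (F.comm m1)
  have fr := conj_eq_of_commute (F.comm m3)
  have pp := F.sq m1.r
  have cm : ∀ g x w : G, g * (x * w) * g⁻¹ = g * x * g⁻¹ * (g * w * g⁻¹) := fun g x w => by group
  have key : ∀ w, v r * v a * v q * w * (v r * v a * v q)⁻¹ =
      v r * (v a * (v q * w * (v q)⁻¹) * (v a)⁻¹) * (v r)⁻¹ := fun w => by group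
  have hS : H ≤ S F (v r * v a * v q) := by
    refine hH.trans (sup_le ((closure_le _).2 ?_) fun k hk => ⟨hk.1.1.1, ?_⟩)
    · rintro w (e | e) <;> rw [e]
      · refine ⟨a0, commute_of_conj_eq ?_⟩
        rw [key, dqa, cm (v a), conj_eq_of_commute (F.va m1.l), fa, cm, dra, fr, mul_assoc, pp, mul_one]
      · refine ⟨q0, commute_of_conj_eq ?_⟩
        rw [key, conj_eq_of_commute (F.va m2.l), daq, cm, drq, fr, mul_assoc, pp, mul_one]
    · exact ((F.vc m3.l hk.1.1.1 (StdSz.mem_C1.1 hk.2)).mul_left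
        (F.vc m1.l hk.1.1.1 (StdSz.mem_C1.1 hk.1.1.2))).mul_left (F.vc m2.l hk.1.1.1 (StdSz.mem_C1.1 hk.1.2))
  have hX : v r * v a * v q * t * (v r * v a * v q)⁻¹ = t * ι (r * a * q) * v p := by
    rw [key, F.tr m2.l, cm (v a), F.tr m1.l, daq, cm, cm, cm, F.tr m3.l, dra, drq,
      fr, mul_assoc (ι q), pp, mul_one, F.ι_mul (mul_mem r0 a0) q0, F.ι_mul r0 a0,
      mul_assoc (t * ι r), mul_assoc (ι a), (F.vc m1.r q0 m2.c).eq]
    simp only [mul_assoc]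
  have hm' : m ∈ S F (v r * v a * v q) := by
    refine (closure_le _).2 (fun g hg => fix F hS h8 hg.1 hg.2 ?_) hm
    have g0 := hg.1.1.1
    rw [hX]
    exact ((F.tι g0).symm.mul_right (F.ι_comm g0 x0 (StdSz.mem_Cs.1 hg.1.2 _ ⟨memΓ F x0, hx⟩))).mul_right
      (F.vc m1.r g0 (StdSz.mem_Cs.1 hg.1.2 _ ⟨memΓ F p0, hp⟩)).symm
  have e := conj_eq_of_commute hm'.2.symm
  rw [cm, cm, ← F.eqv m3.l hm'.1, ← F.eqv m1.l hm'.1, ← F.eqv m2.l hm'.1, c1, c2, c3,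
    ← m1.e, mul_left_inj] at e
  refine ⟨m1.l, m3.l, ?_⟩
  rw [F.tvt m3.l]
  show _ * _ = _ * _
  calc v a * (ι r * v r) = v a * ι r * v a * (v a * v r) := by
        rw [mul_assoc _ (v a), ← mul_assoc (v a) (v a), F.sq m1.l, one_mul, mul_assoc]
    _ = _ := by rw [dar, mul_assoc, ← mul_assoc (v p), ← (F.comm m1).eq, e, mul_assoc]

end Cfsg.Lib.StdX
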