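import Cfsg.Agent.StdX.Defs2
import Cfsg.Agent.StdX.Cal1
import Cfsg.Agent.StdX.Cal2
import Cfsg.Agent.StdX.Cal3

/-!
# Standard subgroups with two classes of involutions: the doubled group
-/

set_option autoImplicit false

namespace Cfsg.Lib.StdX

open Subgroup Cfsg.Lib.Gold Cfsg.Lib.Trans Cfsg.Lib.StdSz Cfsg.Lib.StdW
open Cfsg.Lib.StdM (Cl Tr)
open scoped commutatorElement

variable {G Ω : Type*} [Group G] [Group Ω] [Finite G] [Finite Ω] {Γ Γ0 : Subgroup Ω} {z : Ω}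
  {A : Subgroup G} {ρ : G → Ω} {t : G}

omit [Finite G] [Finite Ω] in
theorem Fm.rl_symm {ι v : Ω → G} (F : Fm Γ Γ0 z A ρ t ι v) {a b : Ω} (h : Rl Γ0 z t v a b) :
    Rl Γ0 z t v b a := by
  have := commute_conj h.e t
  rw [show t * (t * v b * t⁻¹) * t⁻¹ = t * t * v b * (t * t)⁻¹ by group, F.s.tt, one_mul, inv_one,
    mul_one] at this
  exact ⟨h.r, h.l, this.symm⟩

theorem Fm.rl {ι v : Ω → G} (F : Fm Γ Γ0 z A ρ t ι v) (hle : Γ0 ≤ Γ) {a b : Ω} (d : RlD Γ Γ0 z a b) :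
    Rl Γ0 z t v a b := by
  induction d with
  | refl h => exact ⟨h, h, by rw [F.tvt h]; exact (F.va h).mul_right (Commute.refl _)⟩
  | mu d =>
    have m := F.mu hle d
    exact ⟨m.l, m.r, by
      rw [F.tvt m.r]; exact (F.vc m.l (F.mem m.r) m.c.symm).mul_right (F.comm m)⟩
  | symm _ ih => exact F.rl_symm ih
  | @conj a b g _ hg ih =>
    refine ⟨ih.l.conj hg, ih.r.conj hg, ?_⟩
    rw [F.eqv ih.l hg, F.eqv ih.r hg,
      show t * (ι g * v b * (ι g)⁻¹) * t⁻¹ = t * ι g * v b * (t * ι g)⁻¹ by group, (F.tι hg).eq,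
      show ι g * t * v b * (ι g * t)⁻¹ = ι g * (t * v b * t⁻¹) * (ι g)⁻¹ by group]
    exact commute_conj ih.e _
  | @tri a x y _ _ _ h1 h2 h3 =>
    have e : x * y * x = x * y * x⁻¹ := by rw [DaP.inv2 (F.a2 h1.r)]
    refine ⟨h1.l, e ▸ h2.r.conj (F.mem h1.r), ?_⟩
    rw [e, F.eqv h2.r (F.mem h1.r), ← F.dg_v h1.r, dg_def,
      show v x * (t * v x * t⁻¹) * v y * (v x * (t * v x * t⁻¹))⁻¹ =
        v x * (t * v x * t⁻¹ * v y * (t * v x * t⁻¹)⁻¹) * (v x)⁻¹ by group,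
      conj_eq_of_commute (F.rl_symm h3).e.symm,
      show t * (v x * v y * (v x)⁻¹) * t⁻¹ =
        t * v x * t⁻¹ * (t * v y * t⁻¹) * (t * v x * t⁻¹)⁻¹ by group]
    exact (h1.e.mul_right h2.e).mul_right h1.e.inv_right
  | mul _ _ d h1 h2 =>
    have m := F.mu hle d
    exact ⟨h1.l, m.m, by rw [← m.e, ← conj_mul]; exact h1.e.mul_right h2.e⟩
  | trip d1 d2 e d3 h1 h2 h3 p1 p2 p3 hk =>
    exact F.trip (fun d => F.mu hle d) (F.mu hle d1) (F.mu hle d2) e (F.mu hle d3) h1 h2 h3 p1 p2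
      p3 hk
  | pauli d1 d2 d3 e1 e2 e3 hH hp hx h8 hm c1 c2 c3 =>
    exact F.pauli (F.mu hle d1) (F.mu hle d2) (F.mu hle d3) e1 e2 e3 hH hp hx h8 hm c1 c2 c3

theorem Fm.dbl {ι v : Ω → G} (F : Fm Γ Γ0 z A ρ t ι v) (hle : Γ0 ≤ Γ) (c : Clq Γ Γ0 z) :
    ∃ B, Sw B t ∧ (∀ x ∈ B, dg t x ∈ A) ∧ ∀ a ∈ A, ∃ x ∈ B, dg t x = a := by
  obtain ⟨I, gen, rel⟩ := c
  have r := fun i hi j hj => F.rl hle (rel i hi j hj)
  have w : Sw (closure (v '' I)) t := ⟨F.s.tt, (closure_le _).2 (by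
    rintro _ ⟨i, hi, rfl⟩
    refine StdSz.mem_Cs.2 fun x hx =>
      (StdSz.mem_C1.1 (cj_le_iff_le_cj_inv.2 ((closure_le _).2 ?_) hx)).symm
    rintro _ ⟨j, hj, rfl⟩
    exact mem_cj_inv.2 (StdSz.mem_C1.2 (r i hi j hj).e.symm))⟩
  refine ⟨_, w, fun x hx => (w.mem_pre.1 ((closure_le (w.pre A)).2 ?_ hx)).2, fun a ha => ?_⟩
  · rintro _ ⟨i, hi, rfl⟩
    exact w.mem_pre.2 ⟨subset_closure ⟨i, hi, rfl⟩,
      (F.dg_v (r i hi i hi).l).symm ▸ F.ιA (F.mem (r i hi i hi).l)⟩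
  · have h1 : ∀ γ ∈ closure I, γ ∈ Γ0 ∧ ι γ ∈ w.hom.range := fun γ hγ => by
      induction hγ using closure_induction with
      | mem i hi => exact ⟨F.mem (r i hi i hi).l,
          w.mem_range.2 ⟨_, subset_closure ⟨i, hi, rfl⟩, F.dg_v (r i hi i hi).l⟩⟩
      | one => exact ⟨one_mem _, F.ι_one.symm ▸ one_mem _⟩
      | mul x y _ _ hx hy =>
        exact ⟨mul_mem hx.1 hy.1, (F.ι_mul hx.1 hy.1).symm ▸ mul_mem hx.2 hy.2⟩
      | inv x _ hx => exact ⟨inv_mem hx.1, (F.ι_inv hx.1).symm ▸ inv_mem hx.2⟩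
    exact w.mem_range.1 (F.ι_ρ ha ▸ (h1 _ (gen (F.h.mem a ha))).2)

end Cfsg.Lib.StdX
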