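import Cfsg.Agent.StdX.Defs3

/-!
# Tools for the derivations of relations between involutions
-/

set_option autoImplicit false

namespace Cfsg.Lib.StdX

open Subgroup Cfsg.Lib.Gold Cfsg.Lib.Trans Cfsg.Lib.StdSz Cfsg.Lib.StdW
open Cfsg.Lib.StdM (Cl)
open scoped commutatorElement

variable {Ω : Type*} [Group Ω] {H : Subgroup Ω} {z a b f a' b' f' c : Ω}

/-- an element of `H` commuting with `a` and `b` -/
def In2 (H : Subgroup Ω) (a b u : Ω) : Prop := u ∈ H ∧ Commute u a ∧ Commute u b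

theorem In2.mem {u : Ω} (h : In2 H a b u) : u ∈ H ⊓ C1 a ⊓ C1 b :=
  ⟨⟨h.1, StdSz.mem_C1.2 h.2.1⟩, StdSz.mem_C1.2 h.2.2⟩

theorem conj_comm {x y : Ω} (c : Ω) (h : Commute x y) : Commute (c * x * c⁻¹) (c * y * c⁻¹) :=
  h.map (MulAut.conj c)

theorem Tr3.cj (h : Tr3 ⊤ H a b f) (hc : c ∈ H) (e1 : c * a * c⁻¹ = a') (e2 : c * b * c⁻¹ = b')
    (e3 : c * f * c⁻¹ = f' ∨ f = 1) : Tr3 ⊤ H a' b' f' := by
  obtain ⟨h1, g, hg, g1, g2, k⟩ := h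
  subst e1 e2
  refine ⟨conj_comm c h1, c * g * c⁻¹, H.mul_mem (H.mul_mem hc hg) (H.inv_mem hc), ?_, ?_, fun d hd => ?_⟩
  · rw [← g1]; group
  · rw [conj_mul (a := a), ← g2]; group
  · obtain ⟨k1, k2⟩ := k (c⁻¹ * d * c⁻¹⁻¹) ⟨trivial, StdSz.mem_Cs.2 fun u hu => by
      have := conj_comm c⁻¹ (StdSz.mem_Cs.1 hd.2 (c * u * c⁻¹) (In2.mem
        ⟨H.mul_mem (H.mul_mem hc hu.1.1) (H.inv_mem hc), conj_comm c (StdSz.mem_C1.1 hu.1.2),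
          conj_comm c (StdSz.mem_C1.1 hu.2)⟩))
      rwa [show c⁻¹ * (c * u * c⁻¹) * c⁻¹⁻¹ = u by group] at this⟩
    have e : d = c * (c⁻¹ * d * c⁻¹⁻¹) * c⁻¹ := by group
    refine ⟨e ▸ H.mul_mem (H.mul_mem hc k1) (H.inv_mem hc), fun k3 => ?_⟩
    have k4 := conj_comm c⁻¹ k3
    rw [show c⁻¹ * (c * g * c⁻¹) * c⁻¹⁻¹ = g by group] at k4
    rcases k2 k4 with k5 | k5
    · exact Or.inl (by rw [e, k5]; group)
    · rcases e3 with e3 | e3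
      · exact Or.inr (by rw [e, k5, e3])
      · exact Or.inl (by rw [e, k5, e3]; group)

theorem tr3_of {g x u₁ u₂ u₃ u₄ : Ω} (ha : a ∈ H) (hab : Commute a b) (hg : g ∈ H) (g1 : g * a * g⁻¹ = b)
    (g2 : g * b * g⁻¹ = a * b) (hx : In2 H a b x) (h1 : In2 H a b u₁) (h2 : In2 H a b u₂)
    (h3 : In2 H a b u₃) (h4 : In2 H a b u₄)
    (k : ∀ d, Commute d a → Commute d x → ¬ Commute d u₁ ∨ ¬ Commute d u₂ ∨ ¬ Commute d u₃ ∨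
      ¬ Commute d u₄ ∨ d ∈ H ∧ (¬ Commute d g ∨ d = 1 ∨ d = f)) : Tr3 ⊤ H a b f :=
  ⟨hab, g, hg, g1, g2, fun d hd => by
    have c := fun {u} (hu : In2 H a b u) => StdSz.mem_Cs.1 hd.2 u hu.mem
    rcases k d (c ⟨ha, .refl a, hab⟩) (c hx) with k | k | k | k | ⟨k, l⟩
    exacts [absurd (c h1) k, absurd (c h2) k, absurd (c h3) k, absurd (c h4) k,
      ⟨k, fun m => l.resolve_left (not_not.2 m)⟩]⟩

theorem MuD.cj (h : MuD ⊤ H z a b) (hc : c ∈ H) (e1 : c * a * c⁻¹ = a') (e2 : c * b * c⁻¹ = b') :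
    MuD ⊤ H z a' b' := e1 ▸ e2 ▸ h.conj hc

theorem RlD.cj (h : RlD ⊤ H z a b) (hc : c ∈ H) (e1 : c * a * c⁻¹ = a') (e2 : c * b * c⁻¹ = b') :
    RlD ⊤ H z a' b' := e1 ▸ e2 ▸ h.conj hc

theorem trip_of {q p a₁ a₂ q₀ g₁ g₂ g₃ s x u₁ u₂ u₃ u₄ : Ω} (B : Ω → Prop) (m1 : MuD ⊤ H z a p)
    (m2 : MuD ⊤ H z q p) (e : a * q * a⁻¹ = q * p) (m3 : MuD ⊤ H z a₁ a₂) (h₁ : g₁ ∈ H) (h₂ : g₂ ∈ H)
    (h₃ : g₃ ∈ H) (p1 : Mp g₁ a q a₁ q₀) (p2 : Mp g₂ a q a₂ q₀) (p3 : Mp g₃ a q (a₁ * a₂) q₀)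
    (hs : s = 1 ∨ s ∈ H ∧ s * a * s⁻¹ = q ∧ s * q * s⁻¹ = a) (hp : In2 H a q p) (hx : In2 H a q x)
    (h1 : In2 H a q u₁) (h2 : In2 H a q u₂) (h3 : In2 H a q u₃) (h4 : In2 H a q u₄)
    (k : ∀ d, Commute d p → Commute d x → ¬ Commute d a ∨ ¬ Commute d q ∨ ¬ Commute d u₁ ∨
      ¬ Commute d u₂ ∨ ¬ Commute d u₃ ∨ ¬ Commute d u₄ ∨
        d ∈ H ∧ (d * d ≠ 1 ∨ ¬ Commute d s ∨ d = 1 ∨ B d))
    (hB : ∀ d, B d → Bad ⊤ H z a₁ a₂ (g₁ * d * g₁⁻¹) (g₂ * d * g₂⁻¹) (g₃ * d * g₃⁻¹)) :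
    RlD ⊤ H z a q :=
  .trip m1 m2 e m3 h₁ h₂ h₃ p1 p2 p3 fun d hd => by
    have c := fun {u} (hu : In2 H a q u) => StdSz.mem_Cs.1 hd.1.1.2 u hu.mem
    rcases k d (c hp) (c hx) with k | k | k | k | k | k | ⟨k, l⟩
    exacts [absurd (StdSz.mem_C1.1 hd.1.2) k, absurd (StdSz.mem_C1.1 hd.2) k, absurd (c h1) k,
      absurd (c h2) k, absurd (c h3) k, absurd (c h4) k, ⟨k, fun d2 m => by
        rcases l with l | l | l | l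
        · exact absurd d2 l
        · rcases hs with rfl | ⟨s1, s2, s3⟩
          exacts [absurd (.one_right d) l, absurd (m s s1 s2 s3) l]
        exacts [Or.inl l, Or.inr (hB d l)]⟩]

theorem mem_Ns_of_gen [Finite Ω] {I : Set Ω} {x : Ω} (h : ∀ i ∈ I, x * i * x⁻¹ ∈ closure I) :
    x ∈ Ns (closure I) := by
  refine mem_normalizer_fintype fun y hy => ?_
  induction hy using closure_induction with
  | mem i hi => exact h i hi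
  | one => simp
  | mul u v _ _ hu hv => rw [← conj_mul]; exact mul_mem hu hv
  | inv u _ hu => rw [← conj_inv]; exact inv_mem hu

theorem mem_Cs_of_gen {I : Set Ω} {x : Ω} (h : ∀ i ∈ I, Commute x i) : x ∈ Cs (closure I) :=
  StdSz.mem_Cs.2 fun _ hy => StdSz.mem_C1.1 (((closure_le (C1 x)).2 fun i hi =>
    StdSz.mem_C1.2 (h i hi).symm) hy) |>.symm

theorem odd_orderOf {x : Ω} {k : ℕ} (h : x ^ k = 1) (hk : Odd k) : Odd (orderOf x) :=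
  hk.of_dvd_nat (orderOf_dvd_of_pow_eq_one h)

theorem clq_of (L : List Ω) (hL : H ≤ closure {x | x ∈ L}) (h1 : ∀ i ∈ L, Cl H z i)
    (h2 : L.Pairwise (RlD ⊤ H z)) : Clq ⊤ H z :=
  ⟨_, hL, fun i hi j hj => by
    by_cases e : i = j
    · exact e ▸ .refl (h1 i hi)
    · exact haveI : Std.Symm (RlD ⊤ H z) := ⟨fun _ _ => RlD.symm⟩; h2.forall hi hj e⟩

end Cfsg.Lib.StdX
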