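import Cfsg.Agent.StdX.ClqK
import Cfsg.Agent.StdX.Tm

/-!
# Tools for the derivations of relations between involutions, in the form of certificates
-/

set_option autoImplicit false

namespace Cfsg.Lib.StdX

open Subgroup Cfsg.Lib.Gold
open Cfsg.Lib.StdM (Cl)

variable {Ω : Type*} [Group Ω] {H : Subgroup Ω} {z a b f a' b' f' c : Ω}

theorem Tr3.cj2 (h : Tr3 ⊤ H a b 1) (k : c ∈ H ∧ c * a * c⁻¹ = a' ∧ c * b * c⁻¹ = b') :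
    Tr3 ⊤ H a' b' f' := h.cj k.1 k.2.1 k.2.2 (.inr rfl)

theorem Tr3.cj3 (h : Tr3 ⊤ H a b f)
    (k : c ∈ H ∧ c * a * c⁻¹ = a' ∧ c * b * c⁻¹ = b' ∧ c * f * c⁻¹ = f') : Tr3 ⊤ H a' b' f' :=
  h.cj k.1 k.2.1 k.2.2.1 (.inl k.2.2.2)

theorem MuD.cj2 (h : MuD ⊤ H z a b) (k : c ∈ H ∧ c * a * c⁻¹ = a' ∧ c * b * c⁻¹ = b') :
    MuD ⊤ H z a' b' := h.cj k.1 k.2.1 k.2.2

theorem RlD.cj2 (h : RlD ⊤ H z a b) (k : c ∈ H ∧ c * a * c⁻¹ = a' ∧ c * b * c⁻¹ = b') :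
    RlD ⊤ H z a' b' := h.cj k.1 k.2.1 k.2.2

theorem mem_Cs_gn {g : ℕ → Ω} {I : List ℕ} (h : ∀ l ∈ I, Commute a (g l)) : a ∈ Cs (gn g I) :=
  mem_Cs_of_gen fun _ ⟨l, hl, e⟩ => e ▸ h l hl

theorem clq_gn (g : ℕ → Ω) (I : List ℕ) (hI : H ≤ gn g I) (h1 : ∀ i ∈ I, Cl H z (g i))
    (h2 : I.Pairwise fun i j => RlD ⊤ H z (g i) (g j)) : Clq ⊤ H z :=
  clq_of (I.map g) (hI.trans (gn_le fun _ h => subset_closure (List.mem_map_of_mem h)))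
    (List.forall_mem_map.2 h1) (List.pairwise_map.2 h2)

end Cfsg.Lib.StdX
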