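import Cfsg.Agent.StdX.Defs2
import Cfsg.Agent.StdW.EndA

/-!
# Standard subgroups with two classes of involutions: `t` swaps only one pair
-/

set_option autoImplicit false
set_option linter.unusedSectionVars false

namespace Cfsg.Lib.StdX

open Subgroup Cfsg.Lib.Gold Cfsg.Lib.Trans Cfsg.Lib.StdSz Cfsg.Lib.StdW
open Cfsg.Lib.StdM (Cl Tr)
open scoped commutatorElement

variable {G Ω : Type*} [Group G] [Group Ω] [Finite G] [Finite Ω] {Γ Γ0 T : Subgroup Ω} {z y : Ω} {n : ℕ}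
  {A O B : Subgroup G} {ρ ρ' : G → Ω} {t : G}

theorem swap_aux (b : Bas Γ Γ0 T z y n) (h : Mdl Γ Γ0 A ρ) (s : St A O t) (D : Db Γ0 z A O B ρ ρ' t)
    {B' : Subgroup G} {σ : G → Ω} (m : Mdl Γ Γ0 B' σ) (hc : B' ≤ Cs (cj t B')) :
    B' ≤ B ∨ B' ≤ cj t B := by
  have w : Sw B' t := ⟨s.tt, hc⟩
  have w0 : Sw B t := ⟨s.tt, D.comm⟩
  have hN : ∀ x ∈ B', dg t x ∈ Ns A := fun x hx => s.cN (w.memC hx)
  -- the images act as inner automorphisms
  have h1 : ∀ x ∈ B', ρ (dg t x) ∈ Γ0 := by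
    intro x hx
    have : dg t x ∈ (Γ0.comap h.hom).map (Ns A).subtype := by
      refine w.of_perf m.perf (fun x hx y hy => ?_) hx
      have hm : ⁅dg t x, dg t y⁆ ∈ Ns A := by
        rw [commutatorElement_def]
        exact mul_mem (mul_mem (mul_mem (hN x hx) (hN y hy)) (inv_mem (hN x hx))) (inv_mem (hN y hy))
      refine ⟨⟨_, hm⟩, ?_, rfl⟩
      show ρ ⁅dg t x, dg t y⁆ ∈ Γ0
      rw [h.comm (hN x hx) (hN y hy)]
      exact b.cmm_mem (h.memΓ _ (hN x hx)) (h.memΓ _ (hN y hy))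
    obtain ⟨u, hu, e⟩ := this
    rw [← e]
    exact hu
  have h2 : ∀ x ∈ B', dg t x ∈ A ⊔ zpowers t := by
    have : B' ≤ w.pre (A ⊔ zpowers t) := b.gen_inv m fun a ha a2 =>
      w.mem_pre.2 ⟨ha, s.invol_mem h (w.memC ha) (w.sq ha a2) (h1 a ha)⟩
    exact fun x hx => (w.mem_pre.1 (this hx)).2
  have h3 : ∀ x ∈ B', dg t x ∈ A := fun x hx =>
    w.of_perf m.perf (fun x hx y hy => cmm_mem_of_cent s.tA (h2 x hx) (h2 y hy)) hx
  obtain ⟨y, hy, y2, yz⟩ := m.lift_inv b.z0 b.z2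
  have y1 : σ y ≠ 1 := yz ▸ b.z1
  have ha1 : dg t y ≠ 1 := fun e => y1 ((m.ker y (le_normalizer hy)).2 (w.cent hy e))
  have h4 : ∀ x ∈ B', dg t x ∈ Cs A → σ x = 1 := by
    intro x hx hxA
    by_contra hne
    have hJ : B' ≤ w.pre (Cs A) := by
      refine b.le_of_normal m (fun g hg => ?_) hx (w.mem_pre.2 ⟨hx, hxA⟩) hne
      refine mem_normalizer_of_cj_le (cj_le_iff.2 fun u hu => ?_)
      obtain ⟨hu1, hu2⟩ := w.mem_pre.1 hu
      refine w.mem_pre.2 ⟨mul_mem (mul_mem hg hu1) (inv_mem hg), ?_⟩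
      rw [w.conjm hg hu1, ← (mem_Cs.1 hu2 _ (h3 g hg)).eq, mul_inv_cancel_right]
      exact hu2
    exact ha1 (h.eq_one (h3 y hy) (k := 1) (by rw [pow_one, pow_two, w.sq hy y2])
      (w.mem_pre.1 (hJ hy)).2)
  have h5 : A ≤ w.hom.range := by
    refine h.le_of_surj fun γ hγ => ?_
    choose f hf1 hf2 using m.surj
    let F : Γ0 → Γ0 := fun δ => ⟨ρ (dg t (f δ δ.2)), h1 _ (hf1 δ δ.2)⟩
    have hF : Function.Injective F := by
      intro δ δ' e
      have e1 : ρ (dg t (f δ δ.2)) = ρ (dg t (f δ' δ'.2)) := congrArg Subtype.val e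
      have m1 := hf1 δ δ.2
      have m2 := hf1 δ' δ'.2
      have m3 : (f δ δ.2)⁻¹ * f δ' δ'.2 ∈ B' := mul_mem (inv_mem m1) m2
      have e2 : ρ (dg t ((f δ δ.2)⁻¹ * f δ' δ'.2)) = 1 := by
        rw [w.mul (inv_mem m1) m2, w.inv m1, h.mul _ (inv_mem (hN _ m1)) _ (hN _ m2),
          h.inv (hN _ m1), e1, inv_mul_cancel]
      have e3 := h4 _ m3 ((h.ker _ (hN _ m3)).1 e2)
      rw [m.mul _ (le_normalizer (inv_mem m1)) _ (le_normalizer m2), m.inv (le_normalizer m1),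
        hf2, hf2] at e3
      exact Subtype.ext (inv_mul_eq_one.1 e3)
    obtain ⟨δ, hδ⟩ := Finite.surjective_of_injective hF ⟨γ, hγ⟩
    exact ⟨_, h3 _ (hf1 δ δ.2), w.mem_range.2 ⟨_, hf1 δ δ.2, rfl⟩, congrArg Subtype.val hδ⟩
  have h6 : y ∈ Cs (A ⊓ C1 (dg t y)) := by
    refine mem_Cs.2 fun n hn => ?_
    obtain ⟨x, hx, rfl⟩ := w.mem_range.1 (h5 hn.1)
    have hxy : x * y * x⁻¹ ∈ B' := mul_mem (mul_mem hx hy) (inv_mem hx)
    have e1 : dg t (x * y * x⁻¹) = dg t y := by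
      rw [w.conjm hx hy, (mem_C1.1 hn.2).eq, mul_inv_cancel_right]
    have e2 : dg t ((x * y * x⁻¹)⁻¹ * y) = 1 := by
      rw [w.mul (inv_mem hxy) hy, w.inv hxy, e1, inv_mul_cancel]
    have e3 := (m.ker _ (le_normalizer (mul_mem (inv_mem hxy) hy))).2
      (w.cent (mul_mem (inv_mem hxy) hy) e2)
    rw [m.mul _ (le_normalizer (inv_mem hxy)) _ (le_normalizer hy), m.inv (le_normalizer hxy)] at e3
    have e4 : x * y * x⁻¹ = y := by
      refine m.eq_of_two hxy hy (k := 1) (l := 1) ?_ (by rw [pow_one, pow_two, y2])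
        (inv_mul_eq_one.1 e3)
      rw [pow_one, conj_pow, pow_two, y2, mul_one, mul_inv_cancel]
    have e5 := w.act hx hy
    rw [e4] at e5
    show y * dg t x = dg t x * y
    calc y * dg t x = dg t x * y * (dg t x)⁻¹ * dg t x := by rw [e5]
      _ = dg t x * y := by group
  have hAB : A ≤ Ns B := by
    intro a ha
    obtain ⟨x, hx, rfl⟩ := D.onto a ha
    exact w0.memN hx
  have fin : ∀ J : Subgroup G, A ≤ Ns J → y ∈ J → B' ≤ J := by
    intro J hJ hyJ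
    have : B' ≤ B' ⊓ J := by
      refine b.le_of_normal m (fun g hg => ?_) hy ⟨hy, hyJ⟩ y1
      refine mem_normalizer_of_cj_le (cj_le_iff.2 fun u hu => ?_)
      refine ⟨B'.mul_mem (B'.mul_mem hg hu.1) (B'.inv_mem hg), ?_⟩
      rw [← w.act hg hu.1]
      exact mem_normalizer_conj (hJ (h3 g hg)) hu.2
    exact this.trans inf_le_right
  have h7 : Cl Γ0 z (ρ (dg t y)) := by
    obtain ⟨P, hP, -, pc, pm, -⟩ := m.lift_sub b.T0 b.twoT
    let f : P →* Ω := MonoidHom.mk' (fun x => ρ (dg t x)) fun x x' => by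
      show ρ (dg t ((x : G) * x')) = _
      rw [w.mul (hP x.2) (hP x'.2), h.mul _ (hN _ (hP x.2)) _ (hN _ (hP x'.2))]
    have hf : Function.Injective f := (injective_iff_map_eq_one f).2 fun x e => by
      obtain ⟨x1, -, k, hk⟩ := (pm x).1 x.2
      exact Subtype.ext (m.eq_one x1 hk ((m.ker _ (le_normalizer x1)).1
        (h4 _ x1 ((h.ker _ (hN _ x1)).1 e))))
    refine b.cl_of_big (Q := f.range) (fun γ ⟨x, e⟩ => e ▸ h1 _ (hP x.2)) ?_ (h.memΓ _ (hN y hy))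
      (fun e => y1 (h4 y hy ((h.ker _ (hN y hy)).1 e))) (mem_Cs.2 fun γ ⟨x, e⟩ => ?_)
    · rw [← Nat.card_congr (MonoidHom.ofInjective hf).toEquiv, pc, b.cardT]
    · obtain ⟨x1, x2, k, hk⟩ := (pm x).1 x.2
      have c : Commute y x := m.comm_of (le_normalizer hy) x1 hk (yz ▸ mem_Cs.1 b.zc _ x2)
      rw [← e]
      refine h.commute (hN y hy) (hN _ x1) ?_
      show dg t y * dg t x = dg t x * dg t y
      rw [← w.mul hy x1, c.eq, w.mul x1 hy]
  rcases D.uniq y _ (h3 y hy) h7 (w.sq hy y2) y2 (w.ytyt hy) h6 with e | e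
  · exact Or.inl (fin B hAB e)
  · refine Or.inr (fin _ (fun a ha => ?_) e)
    rw [← StdJ4.cj_Ns, mem_cj, conj_eq_of_mem_centralizer' s.tA ha]
    exact hAB ha

/-- StdX/EndS.lean: `t` swaps only one pair -/
theorem swap_eq (b : Bas Γ Γ0 T z y n) (h : Mdl Γ Γ0 A ρ) (s : St A O t) (D : Db Γ0 z A O B ρ ρ' t) (g : G)
    (m : Mdl Γ Γ0 B ρ') (hc : cj g B ≤ Cs (cj t (cj g B))) : cj g B = B ∨ cj g B = cj t B := by
  rcases swap_aux b h s D (m.cjg g) hc with e | e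
  · exact Or.inl (Solv.PG.eq_of_le_of_card_eq e (card_cj g B))
  · exact Or.inr (Solv.PG.eq_of_le_of_card_eq e (by rw [card_cj, card_cj]))
end Cfsg.Lib.StdX
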