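import Cfsg.Agent.StdX.OutK
import Cfsg.Agent.Spor.HeCen

/-!
# Elements of order five in an extension of the Held group
-/

set_option autoImplicit false
set_option maxRecDepth 100000

namespace Cfsg.Lib.StdX.He5

open Subgroup Cfsg.Lib.Gold Cfsg.Lib.Spor.HeP Cfsg.Lib.Spor.WM Cfsg.Lib.Known Cfsg.Lib.StdX.OutK
open Cfsg.Lib.Known.PC (nth)

/-- two commuting elements of order five, an element of order three, conjugating elements -/
def E : List ℕ := [34787, 36, 541955612, 229804938655, 14707330999966, 14707331036508, 229804938659, 0,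
  32923428939740, 32923210327899, 35, 229803366298, 120539, 1628, 32923428185756, 229803640328,
  514428835477, 120541, 32923210254171, 3590681880, 32923431007957, 104541, 8, 229807289943, 31,
  514425168855, 32923512796707]

theorem E_eq_1' : type_of% @E.eq_1 := @E.eq_1

/-- the atoms -/
noncomputable def g (i : ℕ) : Cfsg.Spor.He := c_good.V (nth 0 E i)

theorem g_eq_1' : type_of% @g.eq_1 := @g.eq_1

theorem cen : Nat.card (centralizer {g 0}) ≤ 300 :=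
  card_cen_of_cenO (c_good.has c_inv) (c_good.in_top [9,11,13,15,17,19,21,23,25,27,29,31,33,35,36]) card.le
    (ls := [⟨1746, 0, 0, 9, [0,1,2]⟩, ⟨667, 0, 0, 6, [3,4,5]⟩, ⟨492, 0, 0, 5, [6,7,8]⟩,
      ⟨1288, 493, 0, 3, [9,10,11]⟩, ⟨481, 0, 0, 2, [12,13,14]⟩, ⟨1588, 1289, 0, 0, []⟩, ⟨912, 482, 0, 0, []⟩])
    (cz := 34787) (c_good.R_V _) (by decide +kernel)

theorem top (c : ℕ) : c_good.V c ∈ (⊤ : Subgroup Cfsg.Spor.He) ↔ appF c_T 6 63 c 0 < 2058 :=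
  iff_of_true trivial (c_good.acts_appF c ⟨0, by decide⟩ ▸ Fin.is_lt _)

theorem facts : (Commute (g 0) (g 1) ∧ g 0 ^ 5 = 1 ∧ g 1 ^ 5 = 1 ∧ g 1 ≠ 1) ∧
    (Commute (g 2) (g 0) ∧ g 2 ^ 3 = 1 ∧ g 2 ≠ 1) ∧ (∀ i < 5, g 0 ≠ g 1 ^ i) ∧
    ∀ i < 5, ∀ j < 5, (i = 0 ∧ j = 0) ∨ ∃ c, c * g 0 * c⁻¹ = g 0 ^ i * g 1 ^ j := by
  have h := holds c_good c_inv top (by decide) E
    (.and (.and (.com (.c 0) (.c 1)) (.and (.eq (.pw (.c 0) 5) .one) (.and (.eq (.pw (.c 1) 5) .one)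
      (.ne (.c 1) .one)))) (.and (.and (.com (.c 2) (.c 0)) (.and (.eq (.pw (.c 2) 3) .one) (.ne (.c 2) .one)))
      (.and (allP (fun i => .ne (.c 0) (.pw (.c 1) i)) (List.range 5))
        (allP (fun k => .eq (.cj (.c (k + 3)) (.c 0)) (.mul (.pw (.c 0) ((k + 1) / 5)) (.pw (.c 1) ((k + 1) % 5))))
          (List.range 24))))) (by decide +kernel)
  refine ⟨h.1, h.2.1, fun i hi => allP_sem (H := ⊤) (g := g) (f := fun i => .ne (.c 0) (.pw (.c 1) i))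
    (I := List.range 5) h.2.2.1 i (List.mem_range.2 hi), fun i hi j hj => or_iff_not_imp_left.2 fun e => ⟨g (5 * i + j - 1 + 3), ?_⟩⟩
  have k : g (5 * i + j - 1 + 3) * g 0 * (g (5 * i + j - 1 + 3))⁻¹ =
      g 0 ^ ((5 * i + j - 1 + 1) / 5) * g 1 ^ ((5 * i + j - 1 + 1) % 5) :=
    allP_sem (H := ⊤) (g := g) (f := fun k => .eq (.cj (.c (k + 3)) (.c 0))
      (.mul (.pw (.c 0) ((k + 1) / 5)) (.pw (.c 1) ((k + 1) % 5)))) (I := List.range 24) h.2.2.2 _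
      (List.mem_range.2 (by omega))
  rwa [show (5 * i + j - 1 + 1) / 5 = i by omega, show (5 * i + j - 1 + 1) % 5 = j by omega] at k

theorem ind {σ : Cfsg.Spor.He →* Cfsg.Spor.He} (hσ : ∀ x, σ (σ x) = x) :
    ∀ x ∈ (⊤ : Subgroup (Dbl.Om ρ σ)), x ≠ 1 → x ^ 5 = 1 → ∀ Q ≤ ⊤ ⊓ C1 x, IsPGroup 2 Q →
      Nat.card Q < 2 ^ 4 := by
  obtain ⟨⟨c01, p0, p1, n1⟩, ⟨c20, p2, n2⟩, h1, h2⟩ := facts
  have hi : Function.Injective ρ := Cfsg.Lib.Spor.HeP.injective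
  have ii := Dbl.io_inj (σ := σ) hi
  obtain ⟨k1, k2⟩ := sq_group (by decide : Nat.Prime 5) c01 p0 p1 n1 h1
  have k3 : Nat.card ((zpowers (g 0) ⊔ zpowers (g 1)).map (Dbl.io ρ σ)) = 5 ^ 2 :=
    (card_map_of_injective ii).trans k1
  have hb : ∀ Q ≤ C1 (Dbl.io ρ σ (g 0)), IsPGroup 2 Q → Nat.card Q < 2 ^ 4 := by
    refine bound_card (m := 25 * 3) (M := 600) (by decide) (Nat.Coprime.mul_dvd_of_dvd_of_dvd (by decide) ?_ ?_)
      ((Dbl.card_cen_le hσ (by decide) hi _).trans (Nat.mul_le_mul_left 2 cen)) (by decide)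
    · refine (show 25 = _ from k3.symm).dvd.trans <| card_dvd_of_le
        (map_le_iff_le_comap.2 (sup_le (zpowers_le.2 ?_) (zpowers_le.2 ?_)))
      · exact mem_centralizer_singleton_iff.2 rfl
      · exact mem_centralizer_singleton_iff.2 (c01.symm.map _)
    · have : Fact (Nat.Prime 3) := ⟨by decide⟩
      rw [← orderOf_eq_prime p2 n2, ← orderOf_injective _ ii]
      exact orderOf_dvd_natCard _ (mem_centralizer_singleton_iff.2 (c20.map _))
  refine bound_syl (by decide) k3 (by rw [Dbl.card hσ (by decide) hi, card]; decide) ?_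
  rintro _ ⟨t, ht, rfl⟩ t1
  obtain ⟨i, hi, j, hj, rfl⟩ := k2 t ht
  obtain ⟨rfl, rfl⟩ | ⟨c, e⟩ := h2 i hi j hj
  · exact absurd (by simp) t1
  · exact bound_conj (c := Dbl.io ρ σ c) (m := 1) (by rw [pow_one, ← e, map_mul, map_mul, map_inv]) hb

end Cfsg.Lib.StdX.He5
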