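import Cfsg.Agent.StdX.HeD
import Cfsg.Agent.StdX.HeO5

/-!
# Outer involutions of the automorphism group of the group of degree 2058
-/

set_option autoImplicit false
set_option maxRecDepth 100000

namespace Cfsg.Lib.StdX.He

open Subgroup Cfsg.Lib.Gold Cfsg.Lib.StdX.OutK
open Cfsg.Lib.StdM (Cl)

theorem of_so : OF G0 4 so :=
  ofP_sem (holds [8, 237536136, 10, 649, 204260041, 204260041, 649, 7173594, 524432006415401095,
    115192535299215] (ofP 0 [1, 2, 3, 4] [[[], [0], [2], [2, 4]], [[], [0], [2]], [[], [0]], [[]]] 5 6 7 8 9)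
    (by decide +kernel))

theorem dih_so : Dih G0 5 so :=
  dihP_sem (holds [8, 63183433012562, 966755209420, 3981423965676943, 206099402] (dihP 5 0 1 2 3 4)
    (by decide +kernel))

theorem out_so (ocl : ∀ x, x ∉ G0 → x * x = 1 → Cl G0 so x)
    (up : ∀ Q ≤ ⊤ ⊓ C1 so, IsPGroup 2 Q → Nat.card Q ≤ 2 ^ 5) : Out ⊤ G0 so so 10 4 5 where
  σΓ := trivial
  σ0 := so_not
  σ2 := so_eq ▸ Dbl.so_so
  ocl := fun x _ h h2 => Or.inl (ocl x h h2)
  of := of_so
  of' := of_so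
  up := up
  ind := Or.inr ⟨5, by decide, by decide, dih_so, dih_so, He5.ind hσ⟩
  n1 := by decide
  n2 := by decide
  n3 := by decide

theorem out_of (ocl : ∀ x, x ∉ G0 → x * x = 1 → Cl G0 so x)
    (up : ∀ Q ≤ ⊤ ⊓ C1 so, IsPGroup 2 Q → Nat.card Q ≤ 2 ^ 5) : ∃ σ σ' l u, Out ⊤ G0 σ σ' 10 l u :=
  ⟨_, _, _, _, out_so ocl up⟩

end Cfsg.Lib.StdX.He
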