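import Cfsg.Agent.StdX.VGen
import Cfsg.Agent.StdX.HeD

/-! The derived group of the centraliser of the central involution. -/

set_option autoImplicit false
set_option maxRecDepth 100000

namespace Cfsg.Lib.StdX.He

open Subgroup Cfsg.Lib.Spor Cfsg.Lib.Spor.WM Cfsg.Lib.Known Cfsg.Lib.Gold
open Cfsg.Lib.Spor.HeP (base)

namespace V

theorem D0 : gn gd.V [74644, 3740306, 3220749, 15] ≤ G0 ⊓ C1 (gd.V 9) := gn_le_inf gd V_mem (by decide +kernel)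

variable (hN : Nat.card (C1 (gd.V 9)) = 43008)
include hN

theorem D1 : G0 ⊓ C1 (gd.V 9) ≤ gn gd.V [74644, 3740306, 3220749, 15] := by
  have k := of_memB gd hι (xs := [74644, 3740306, 3220749, 15]) (L := [(18, [0, 7, 4, 2, 0, 6, 2]), (16, [7]), (20, [6, 6,
      3, 6, 2, 6, 4, 0, 7, 0]), (10, [7, 3, 7, 2, 7, 5, 2, 7, 4]), (12, [7, 7, 3, 7, 4, 2, 7, 2, 7, 0]), (19, [2, 7, 0, 6,
      2, 6, 4, 2, 6, 0]), (14, [4, 7, 4, 3, 7, 2, 7, 2, 7, 4]), (33672, [7, 5, 3, 7, 2, 7, 5, 2, 6, 5]), (45963, [7, 7, 3,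
      6, 2, 6, 2]), (50060, [7, 4, 3, 7, 2, 7, 2, 7, 5]), (9, [0, 0])]) (by decide +kernel)
  have a := card_two (K := C1 (gd.V 9)) (x := gd.V 8) (C1_of_comB gd (cs := [8]) (by decide +kernel) 8 (by simp)) so_not
  exact le_of_build gd hι (fun c hc => D0 (k c hc)) k (N := 21504) (Nat.le_of_mul_le_mul_left (a.symm.trans hN).le two_pos)
    (ls := [⟨1506, 0, 0, 5, [0, 1, 2]⟩, ⟨1839, 0, 0, 5, [3, 4, 5]⟩, ⟨3359, 0, 0, 1, [6]⟩, ⟨3372, 0, 0, 1, [7]⟩, ⟨97, 0, 0,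
      1, [8]⟩, ⟨1428, 0, 0, 1, [9]⟩, ⟨441, 0, 0, 1, [10]⟩]) (by decide +kernel)

theorem r1 : Rig gd.V G0 (C1 (gd.V 9)) (gn gd.V [74644, 3740306, 3220749, 15]) [15] :=
  Rig.of_sylB gd hb (D0.trans inf_le_right) (p := 7) (by decide) (by rw [hN]; decide) (mem_gn _ (by simp))
    (Q := [0, 0, 3220749, 3704017, 5297228, 4796942, 8]) (by decide +kernel)

theorem r2 : Rig gd.V G0 (C1 (gd.V 9)) (gn gd.V [74644, 3740306, 3220749, 15]) [3220749, 15] :=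
  have := normal
  Rig.of_stepB gd hι hb V_mem hN.le (r1 hN) (fun _ hc => mem_gn _ (by simp at hc ⊢; tauto))
    ⟨.c 0, .pw (.c 0) 2, [.pw (.c 0) 3], [],
    [0, 15, 16, 1040, 975, 62415, 66576],
    [17, 8, 19, 15, 10, 20, 46347, 45963, 5321610, 13, 4236234, 4248522, 9],
    [⟨1937, 0, 0, 4, [0, 1, 2, 3]⟩, ⟨313, 1938, 0, 3, [4, 5, 6]⟩, ⟨935, 314, 0, 2, [7, 8]⟩, ⟨141, 936, 0, 1, [9]⟩, ⟨1853,
      142, 0, 1, [10]⟩, ⟨987, 1854, 0, 1, [11]⟩, ⟨673, 988, 0, 0, []⟩, ⟨1951, 0, 0, 1, [12]⟩]⟩ (by decide +kernel)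

theorem r3 : Rig gd.V G0 (C1 (gd.V 9)) (gn gd.V [74644, 3740306, 3220749, 15]) [3740306, 3220749, 15] :=
  have := normal
  Rig.of_stepB gd hι hb V_mem hN.le (r2 hN) (fun _ hc => mem_gn _ (by simp at hc ⊢; tauto))
    ⟨.c 0, .c 0, [.pw (.c 0) 4], [.pw (.c 0) 2, .pw (.mul (.c 0) (.c 2)) 7],
    [0],
    [15, 12, 11, 10, 8, 13, 1297, 45963, 14, 3720012, 9],
    [⟨1400, 0, 0, 5, [0, 1, 2, 3, 4]⟩, ⟨313, 1401, 0, 5, [2, 5, 6]⟩, ⟨248, 314, 0, 1, [7]⟩, ⟨1687, 0, 0, 1, [5]⟩, ⟨673,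
      1688, 0, 1, [8]⟩, ⟨1839, 674, 0, 1, [9]⟩, ⟨2778, 0, 0, 1, [10]⟩]⟩ (by decide +kernel)

theorem r4 : Rig gd.V G0 (C1 (gd.V 9)) (gn gd.V [74644, 3740306, 3220749, 15]) [74644, 3740306, 3220749, 15] :=
  have := normal
  Rig.of_stepB gd hι hb V_mem hN.le (r3 hN) (fun _ hc => mem_gn _ (by simp at hc ⊢; tauto))
    ⟨.c 1, .inv (.c 1), [.pw (.mul (.c 0) (.c 3)) 3], [.pw (.c 0) 2],
    [0],
    [12, 18, 20, 8, 13, 16, 11, 1298, 10, 70354, 45899, 4248207, 3986446, 9],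
    [⟨3085, 0, 0, 4, [0, 1, 2, 3, 4, 5]⟩, ⟨3600, 3086, 0, 3, [6, 4, 7]⟩, ⟨3372, 3601, 0, 2, [8, 9]⟩, ⟨3756, 0, 0, 1, [10]⟩,
      ⟨3409, 3757, 0, 1, [11]⟩, ⟨2884, 3410, 0, 1, [12]⟩, ⟨2983, 0, 0, 1, [13]⟩]⟩ (by decide +kernel)

end V

/-- the facts on `D`, given the order of the centraliser -/
theorem vf0 (hN : Nat.card (centralizer {z}) = 43008) :
    ∃ D V γ m k, VG ⊤ G0 D V z γ m k ∧ Fn ⊤ G0 D z :=
  vf_of gd hι hb index V_mem hN.le V.D0 (V.D1 hN) (V.r4 hN) (vs := [12, 10, 9, 54029, 33480, 75025]) (by decide +kernel)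
    (P := [([4], [6]), ([0], [4]), ([0], [6]), ([2], [6])]) (L := [[0, 4, 0, 0], [4, 0, 6, 1, 5], [2], [0]]) (by decide +kernel)
    (γ := 8) (p := 54106042480332) (q := 692633846161) (Lz := [4])
    (Lp := [[10, 8, 6, 4], [10, 8], [0], [10, 0], [10, 4, 2, 0], [2, 0]])
    (Lq := [[10, 6, 4, 2], [10, 2], [4, 0], [10, 6, 0], [10, 8, 0], [8, 6, 0]]) (by decide +kernel)
    (Lx := [0]) (cs := [10, 18, 16, 11, 20, 8, 13, 778, 1167, 49996, 909, 138982472, 3703688, 66383, 9])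
    (ls := [⟨1471, 0, 0, 4, [0, 1, 2, 3, 4, 5]⟩, ⟨248, 1472, 0, 0, []⟩, ⟨671, 0, 0, 3, [6, 7, 8]⟩, ⟨1463, 672, 0, 1, [9]⟩,
      ⟨1839, 0, 0, 2, [10, 11]⟩, ⟨1301, 1840, 0, 1, [12]⟩, ⟨2470, 0, 0, 1, [13]⟩, ⟨3521, 2471, 0, 0, []⟩, ⟨1380, 0, 0, 1,
      [14]⟩]) (by decide +kernel)

end Cfsg.Lib.StdX.He
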