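import Cfsg.Agent.StdX.HeY0
import Cfsg.Agent.StdX.HeD2

/-! The facts on the second class of involutions. -/

set_option autoImplicit false

namespace Cfsg.Lib.StdX.He

theorem yd {T : Subgroup Om} {j : ℕ} (b : Bas ⊤ G0 T z y j) : YD2 ⊤ G0 z y := yd0 b cy_le card_cz

end Cfsg.Lib.StdX.He
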