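import Cfsg.Agent.StdX.HeS
import Cfsg.Agent.StdX.HeY
import Cfsg.Agent.StdX.HeO
import Cfsg.Agent.StdX.HeV
import Cfsg.Agent.StdX.HeC

/-! All facts on the automorphism group of the Held group. -/

set_option autoImplicit false

namespace Cfsg.Lib.StdX.He

theorem mod : Mod3 ⊤ G0 :=
  let ⟨T, b⟩ := bas
  ⟨T, z, y, 10, b, yd b, out_of ocl up, vf0 card_cz, clq⟩

end Cfsg.Lib.StdX.He
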