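import Cfsg.Agent.StdX.Defs2
import Cfsg.Agent.StdM.Lift

/-!
# Standard subgroups with two classes of involutions: lifting through a subgroup of odd order
-/

set_option autoImplicit false

namespace Cfsg.Lib.StdX

open Subgroup Cfsg.Lib.Gold Cfsg.Lib.Trans Cfsg.Lib.StdSz Cfsg.Lib.StdW
open Cfsg.Lib.StdM (Cl Tr)
open scoped commutatorElement

universe u

variable {G Ω : Type*} [Group G] [Group Ω] [Finite G] [Finite Ω] {Γ Γ0 T : Subgroup Ω} {z y : Ω} {n : ℕ}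
  {A O B : Subgroup G} {ρ ρ' : G → Ω} {t : G}

namespace Lft

omit [Finite Ω] in
/-- The centre of `A` lies in `O`. -/
theorem zO (h : Mdl Γ Γ0 A ρ) (s : St A O t) {a : G} (ha : a ∈ A) (hc : a ∈ Cs A) : a ∈ O := by
  have ta : Commute t a := StdSz.mem_Cs.1 s.tA a ha
  rcases s.dec a ⟨hc, StdSz.mem_C1.2 ta.symm⟩ with e | ⟨o, ho, rfl⟩
  · exact e
  have c : Commute t o := (StdSz.mem_C1.1 (s.Ole ho).2).symm
  have h1 : Odd (orderOf (t * o) * orderOf o) := (h.odd_of_mem ha hc).mul (odd_orderOf s.Oodd ho)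
  have h2 : (t * o) ^ (orderOf (t * o) * orderOf o) = 1 := by rw [pow_mul, pow_orderOf_eq_one, one_pow]
  rw [c.mul_pow, mul_comm (orderOf (t * o)), pow_mul o, pow_orderOf_eq_one, one_pow, mul_one,
    mul_comm (orderOf o)] at h2
  exact absurd (eq_one_of_odd_sq (h1.of_dvd_nat (orderOf_dvd_of_pow_eq_one h2)) s.tt) s.t1

theorem fin (s : St A O t) {a x y : G} (a1 : a ≠ 1) (a2 : a * a = 1) (x2 : x * x = 1)
    (y2 : y * y = 1) (hy : y ∈ Cs O) (e : t * y * (t * y) = a) (h : x * y ∈ Cs A ⊓ C1 t) : x = y := by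
  have key : ∀ o ∈ O, ∀ w, Commute o w → w * w * (w * w) = 1 → o * w * (o * w) = 1 → o = 1 := by
    intro o ho w c w4 e1
    refine eq_one_of_odd_two (k := 2) (odd_orderOf s.Oodd ho) ?_
    have h1 : (o * w) ^ 4 = 1 := by
      rw [show 4 = 2 * 2 from rfl, pow_mul, pow_two (o * w), e1, one_pow]
    have h2 : w ^ 4 = 1 := by rw [← w4]; simp only [pow_succ, pow_zero, one_mul, mul_assoc]
    rwa [c.mul_pow, h2, mul_one] at h1
  have yi : y⁻¹ = y := inv_eq_of_mul_eq_one_left y2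
  rcases s.dec _ h with ho | ⟨o, ho, e1⟩
  · have := key _ ho y (StdSz.mem_Cs.1 hy _ ho).symm (by rw [y2, one_mul]) (by
      rw [mul_assoc x y y, y2, mul_one, x2])
    rw [← yi]
    exact eq_inv_of_mul_eq_one_left this
  · have c : Commute o t := StdSz.mem_C1.1 (s.Ole ho).2
    have e2 : x = o * (t * y) := by rw [← mul_assoc, c.eq, ← e1, mul_assoc, y2, mul_one]
    have := key o ho (t * y) (c.mul_right (StdSz.mem_Cs.1 hy _ ho).symm) (by rw [e, a2]) (e2 ▸ x2)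
    rw [this, one_mul] at e2
    rw [e2, e] at x2
    exact absurd x2 a1

end Lft

open Lft StdM.Lift in
theorem lift {G : Type u} [Group G] [Finite G] {A O : Subgroup G} {ρ : G → Ω} {t : G}
    (b : Bas Γ Γ0 T z y n) (h : Mdl Γ Γ0 A ρ) (s : St A O t) {g a : G}
    (hg : g ∈ Cs O) (ha : a ∈ A) (a1 : a ≠ 1) (e1 : g * t * g⁻¹ = t * a)
    (core : ∀ (H : Type u) [Group H] [Finite H] (A' : Subgroup H) (r : H → Ω) (s : H), Mdl Γ Γ0 A' r →
      A' ⊓ Cs A' = ⊥ → St A' ⊥ s →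
      ∃ B, Sw B s ∧ (∀ x ∈ B, dg s x ∈ A') ∧ ∀ a ∈ A', ∃ x ∈ B, dg s x = a) :
    ∃ B, Sw B t ∧ (∀ x ∈ B, dg t x ∈ A) ∧ (∀ a ∈ A, ∃ x ∈ B, dg t x = a) ∧ B ≤ ⁅B, B⁆ ∧ B ≤ Cs O := by
  have AO : A ≤ Cs O := le_centralizer_iff.1 (s.Ole.trans inf_le_left)
  have tO : t ∈ Cs O := StdSz.mem_Cs.2 fun o ho => (StdSz.mem_C1.1 (s.Ole ho).2).symm
  have hc : ∀ x : Cs O, ∀ o ∈ O.subgroupOf (Cs O), Commute x o := fun x o ho =>
    Subtype.ext (mem_centralizer_iff.1 x.2 o ho).symm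
  haveI : (O.subgroupOf (Cs O)).Normal :=
    ⟨fun o ho x => by rwa [(hc x o ho).eq, mul_inv_cancel_right]⟩
  let π := QuotientGroup.mk' (O.subgroupOf (Cs O))
  have hk : π.ker = O.subgroupOf (Cs O) := QuotientGroup.ker_mk' _
  have cen : ∀ x, ∀ o ∈ π.ker, Commute x o := fun x o ho => hc x o (hk.le ho)
  have odd : Odd (Nat.card π.ker) := by
    rw [hk, Solv.card_subgroupOf]; exact s.Oodd.of_dvd_nat (card_dvd_of_le inf_le_left)
  have surj : Function.Surjective π := QuotientGroup.mk'_surjective _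
  let i : A →* Cs O := inclusion AO
  let τ : Cs O := ⟨t, tO⟩
  have ss : τ * τ = 1 := Subtype.ext s.tt
  have tt : π τ * π τ = 1 := by rw [← map_mul, ss, map_one]
  have p1 : ∀ x : Cs O, π x = 1 ↔ (x : G) ∈ O := fun x => QuotientGroup.eq_one_iff x
  let r : A →* Ω := h.hom.comp (inclusion le_normalizer)
  have kr : ∀ x : A, π (i x) = 1 ↔ r x = 1 := fun x => (p1 _).trans
    ⟨fun e => (h.ker _ (le_normalizer x.2)).2 (s.Ole e).1,
      fun e => zO h s x.2 ((h.ker _ (le_normalizer x.2)).1 e)⟩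
  have kr' : ∀ x x' : A, π (i x) = π (i x') ↔ r x = r x' := fun x x' => by
    rw [← inv_mul_eq_one, ← inv_mul_eq_one (a := r x), ← map_inv, ← map_inv, ← map_inv, ← map_mul,
      ← map_mul, ← map_mul, kr]
  have pA : (⊤ : Subgroup A) ≤ ⁅⊤, ⊤⁆ := fun x _ => by
    obtain ⟨y, hy, q⟩ := (map_subtype_commutator A).ge (h.perf x.2)
    exact Subtype.ext q ▸ hy
  have pR : ∀ {H : Type u} [Group H] (f : A →* H), f.range ≤ ⁅f.range, f.range⁆ := fun f => by
    rw [MonoidHom.range_eq_map, ← map_commutator]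
    exact map_mono pA
  let φ : (π.comp i).range →* Ω := (π.comp i).rangeRestrict.liftOfSurjective
    (π.comp i).rangeRestrict_surjective ⟨r, fun x hx => (kr x).1 (congrArg Subtype.val hx)⟩
  have hφ : ∀ x : A, φ ((π.comp i).rangeRestrict x) = r x := fun x =>
    MonoidHom.liftOfRightInverse_comp_apply _ _ _ _ x
  have kφ : φ.ker = ⊥ := (eq_bot_iff_forall _).2 fun x hx => by
    obtain ⟨x, rfl⟩ := (π.comp i).rangeRestrict_surjective x
    exact Subtype.ext ((kr x).2 ((hφ x).symm.trans hx))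
  obtain ⟨r', m, hr'⟩ := exists_mdl b φ (le_antisymm (by
      rintro _ ⟨x, rfl⟩
      obtain ⟨x, rfl⟩ := (π.comp i).rangeRestrict_surjective x
      exact hφ x ▸ h.mem _ x.2) fun γ hγ =>
        let ⟨x, hx, e⟩ := h.surj γ hγ; ⟨_, (hφ ⟨x, hx⟩).trans e⟩)
    (pR _) (kφ ▸ bot_le) (by rw [kφ, card_bot]; exact odd_one)
  have lt : ∀ k : Cs O, Commute (π k) (π τ) → (k : G) ∈ C1 t := fun k hk => by
    have h3 : k * τ * k⁻¹ = τ := uniq cen odd (by rw [conj_mul, ss, mul_one, mul_inv_cancel]) ss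
      (by rw [map_mul, map_mul, map_inv, hk.eq, mul_inv_cancel_right])
    exact StdSz.mem_C1.2 (congrArg Subtype.val (mul_inv_eq_iff_eq_mul.1 h3))
  have a2 : a * a = 1 := by
    have h1 : t * a * (t * a) = 1 := by rw [← e1, conj_mul, s.tt, mul_one, mul_inv_cancel]
    rwa [mul_assoc, ← mul_assoc a, ← (StdSz.mem_Cs.1 s.tA a ha).eq, ← mul_assoc, ← mul_assoc, s.tt,
      one_mul] at h1
  obtain ⟨B', w, h1, h2⟩ := core _ (π.comp i).range r' (π τ) m
    ((eq_bot_iff_forall _).2 fun x hx => congrArg Subtype.val (mem_bot.1 (kφ.le (x := ⟨x, hx.1⟩)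
      ((hr' ⟨x, hx.1⟩).symm.trans ((m.ker x (le_normalizer hx.1)).2 hx.2)))))
    ⟨tt, fun e => s.t1 (eq_one_of_odd_sq (odd_orderOf s.Oodd ((p1 τ).1 e)) s.tt),
      mem_centralizer_iff.2 (by
        rintro _ ⟨b, rfl⟩
        exact (Commute.map (Subtype.ext (mem_centralizer_iff.1 s.tA b b.2) : Commute (i b) τ) π).eq),
      fun k hk => by
        obtain ⟨k, rfl⟩ := surj k
        refine StdSz.mem_Ns ?_
        rintro _ ⟨c, rfl⟩
        refine ⟨⟨_, mem_normalizer_conj (s.cN (lt k (StdSz.mem_C1.1 hk))) c.2⟩, ?_⟩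
        rw [← map_inv, MonoidHom.comp_apply, MonoidHom.comp_apply, ← map_mul, ← map_mul]
        rfl,
      bot_le, by rw [card_bot]; exact odd_one,
      fun k hk => by
        obtain ⟨k, rfl⟩ := surj k
        have k1 := lt k (StdSz.mem_C1.1 hk.2)
        have k2 := s.cN k1
        have k3 : (k : G) ∈ Cs A := (h.ker _ k2).1 (b.cen (h.memΓ _ k2) (StdSz.mem_Cs.2 fun γ hγ => by
          obtain ⟨c, hc, rfl⟩ := h.surj γ hγ
          refine commute_of_conj_eq ?_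
          rw [← h.conj k2 (le_normalizer hc)]
          refine (kr' ⟨_, mem_normalizer_conj k2 hc⟩ ⟨c, hc⟩).1 ?_
          rw [show i ⟨_, mem_normalizer_conj k2 hc⟩ = k * i ⟨c, hc⟩ * k⁻¹ from rfl, map_mul, map_mul,
            map_inv, (StdSz.mem_Cs.1 hk.1 (π (i ⟨c, hc⟩)) ⟨_, rfl⟩).eq, mul_inv_cancel_right]))
        rcases s.dec k ⟨k3, k1⟩ with e | ⟨o, ho, e⟩
        · exact .inl ((p1 k).2 e)
        · have ho' : o ∈ Cs O := (mul_mem_cancel_left tO).1 (e ▸ k.2)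
          exact .inr ⟨1, one_mem _, by
            rw [show k = τ * ⟨o, ho'⟩ from Subtype.ext e, map_mul, (p1 ⟨o, ho'⟩).2 ho]⟩,
      by
        rintro _ ⟨c, rfl⟩ hc
        obtain ⟨k, q⟩ := isConj_iff.1 hc
        obtain ⟨k, rfl⟩ := surj k
        have h3 : r (c * c) = 1 := (kr _).1 (by
          rw [map_mul, map_mul]
          change π.comp i c * π.comp i c = 1
          rw [← q, conj_mul, tt, mul_one, mul_inv_cancel])
        obtain ⟨d, hd, d2, e⟩ := h.lift_inv (h.mem _ c.2) (by rwa [map_mul] at h3)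
        have h4 : i ⟨d, hd⟩ = k * τ * k⁻¹ := uniq cen odd (Subtype.ext d2)
          (by rw [conj_mul, ss, mul_one, mul_inv_cancel])
          (by rw [map_mul, map_mul, map_inv, q]; exact (kr' ⟨d, hd⟩ c).2 e)
        exact s.nc d hd (isConj_iff.2 ⟨k, (congrArg Subtype.val h4).symm⟩),
      ⟨_, ⟨⟨a, ha⟩, rfl⟩, fun e => a1 (eq_one_of_odd_sq (odd_orderOf s.Oodd ((p1 _).1 e)) a2),
        isConj_iff.2 ⟨π ⟨g, hg⟩, by
          rw [← map_inv, ← map_mul, ← map_mul, MonoidHom.comp_apply, ← map_mul]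
          exact congrArg π (Subtype.ext e1)⟩⟩⟩
  obtain ⟨B, w', h3, h4, h5⟩ := up cen (A := i.range) surj ss (pR i) w
    (fun x hx => let ⟨b, q⟩ := h1 x hx; ⟨_, ⟨b, rfl⟩, q⟩) (by
      rintro _ ⟨b, rfl⟩
      exact h2 _ ⟨b, rfl⟩)
  refine ⟨B.map (Cs O).subtype, ⟨s.tt, ?_⟩, ?_, fun b hb => ?_,
    by rw [← map_commutator]; exact map_mono h5, map_subtype_le B⟩
  · rintro _ ⟨x, hx, rfl⟩
    refine mem_centralizer_iff.2 ?_
    rintro _ ⟨_, ⟨y, hy, rfl⟩, rfl⟩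
    exact congrArg Subtype.val (w'.commute hx hy).symm.eq
  · rintro _ ⟨x, hx, rfl⟩
    obtain ⟨b, q⟩ := h3 x hx
    exact (congrArg Subtype.val q).subst b.2
  · obtain ⟨x, hx, q⟩ := h4 _ ⟨⟨b, hb⟩, rfl⟩
    exact ⟨x, ⟨x, hx, rfl⟩, congrArg Subtype.val q⟩

open Lft in
theorem dbl_of (b : Bas Γ Γ0 T z y n) (h : Mdl Γ Γ0 A ρ) (s : St A O t) (w : Sw B t)
    (h1 : ∀ x ∈ B, dg t x ∈ A) (h2 : ∀ a ∈ A, ∃ x ∈ B, dg t x = a) (hp : B ≤ ⁅B, B⁆) (hO : B ≤ Cs O) :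
    ∃ ρ', Mdl Γ Γ0 B ρ' ∧ Db Γ0 z A O B ρ ρ' t := by
  have : Fact (Nat.Prime 2) := ⟨Nat.prime_two⟩
  have p2 : ∀ {a : G}, a * a = 1 → a ^ 2 ^ 1 = 1 := fun e => by rw [pow_one, pow_two, e]
  let φ : B →* Ω := h.hom.comp (w.hom.codRestrict (Ns A) fun x => le_normalizer (h1 x x.2))
  have kz : ∀ x ∈ φ.ker, dg t x ∈ Cs A := fun x hx => (h.ker _ (le_normalizer (h1 x x.2))).1 hx
  obtain ⟨ρ', m, e⟩ := exists_mdl b φ (le_antisymm (by
      rintro _ ⟨x, rfl⟩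
      exact h.mem _ (h1 x x.2)) fun γ hγ => by
        obtain ⟨a, ha, rfl⟩ := h.surj γ hγ
        obtain ⟨x, hx, rfl⟩ := h2 a ha
        exact ⟨⟨x, hx⟩, rfl⟩) hp
    (fun x hx => mem_center_iff.2 fun u => Subtype.ext (by
      have c := StdSz.mem_Cs.1 (hO u.2) _ (zO h s (h1 x x.2) (kz x hx))
      have := w.act x.2 u.2
      rw [← c.eq, mul_inv_cancel_right] at this
      exact mul_inv_eq_iff_eq_mul.1 this.symm |>.symm))
    (Nat.not_even_iff_odd.1 fun ev => by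
      obtain ⟨⟨x, hx⟩, o2⟩ := exists_prime_orderOf_dvd_card' 2 ev.two_dvd
      rw [orderOf_mk, ← orderOf_coe] at o2
      have x2 : (x : G) * x = 1 := by rw [← pow_two, ← o2, pow_orderOf_eq_one]
      have d1 : dg t x = 1 := h.eq_one (h1 x x.2) (p2 (w.sq x.2 x2)) (kz x hx)
      have c1 : (x : G) ∈ Cs B := w.cent x.2 d1
      have c2 : (x : G) ∈ C1 t := StdSz.mem_C1.2 (commute_of_conj_eq (by
        rw [dg_def, ← x2] at d1
        exact mul_left_cancel d1)).symm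
      have c3 : (x : G) ∈ Cs A := StdSz.mem_Cs.2 fun a ha => by
        obtain ⟨u, hu, rfl⟩ := h2 a ha
        exact (StdSz.mem_Cs.1 c1 u hu).mul_right (w.commute x.2 hu)
      rcases s.two_elt c3 c2 (p2 x2) with e | e
      · rw [e, orderOf_one] at o2
        omega
      obtain ⟨a, ha, a1, -⟩ := s.fus
      obtain ⟨u, hu, rfl⟩ := h2 a ha
      have : ⁅B, B⁆ ≤ ⊥ := commutator_le.2 fun p hp q hq => by
        have := w.commute hp hq
        rw [conj_eq_of_commute (e ▸ StdSz.mem_Cs.1 c1 q hq)] at this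
        exact mem_bot.2 (commutatorElement_eq_one_iff_commute.2 this)
      exact a1 (by rw [mem_bot.1 (this (hp hu)), w.one]))
  have cp : ∀ x ∈ B, ρ' x = ρ (dg t x) := fun x hx => e ⟨x, hx⟩
  refine ⟨ρ', m, w.comm, h1, h2, hO, cp, fun x a ha hz a2 x2 xt hx => ?_⟩
  have aN := le_normalizer ha
  have a1 : a ≠ 1 := by
    rintro rfl
    obtain ⟨c, -, hc⟩ := hz
    exact b.z1 (conj_eq_one_iff.1 (hc.trans h.one))
  obtain ⟨v, hv, v2, ev⟩ := m.lift_inv (h.mem a ha) (by rw [← h.mul a aN a aN, a2, h.one])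
  have dv : dg t v = a := h.eq_of_two (h1 v hv) ha (p2 (w.sq hv v2)) (p2 a2) ((cp v hv).symm.trans ev)
  have vt : v * t * v = t * a := dv ▸ w.ytyt hv
  have vc : v ∈ Cs (A ⊓ C1 a) := StdSz.mem_Cs.2 fun c hc => by
    obtain ⟨u, hu, rfl⟩ := h2 c hc.1
    have hm : u * v * u⁻¹ ∈ B := mul_mem (mul_mem hu hv) (inv_mem hu)
    refine (commute_of_conj_eq ((w.act hu hv).trans (m.eq_of_two hm hv (p2 ?_) (p2 v2) ?_))).symm
    · rw [conj_mul, v2, mul_one, mul_inv_cancel]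
    · rw [cp _ hm, cp v hv, w.conjm hu hv, dv, conj_eq_of_commute (StdSz.mem_C1.1 hc.2)]
  have aa : a ∈ A ⊓ C1 a := ⟨ha, StdSz.mem_C1.2 (Commute.refl a)⟩
  have xa : Commute x a := StdSz.mem_Cs.1 hx a aa
  have va : Commute v a := StdSz.mem_Cs.1 vc a aa
  have ta : Commute t a := StdSz.mem_Cs.1 s.tA a ha
  have ct : x * v ∈ C1 t := StdSz.mem_C1.2 (commute_of_conj_eq (by
    rw [mul_inv_rev, inv_eq_of_mul_eq_one_left x2, inv_eq_of_mul_eq_one_left v2]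
    calc x * v * t * (v * x) = x * (v * t * v) * x := by group
      _ = x * t * (a * x) := by rw [vt]; group
      _ = t * (a * a) := by rw [← xa.eq, ← mul_assoc, xt, mul_assoc]
      _ = t := by rw [a2, mul_one]))
  have cN := s.cN ct
  have tv : t * v * (t * v) = a := by
    rw [mul_assoc, ← mul_assoc v, vt, ← mul_assoc, s.tt, one_mul]
  rcases b.cent_cent hz (h.memΓ _ cN) (StdSz.mem_Cs.2 fun γ hγ => by
    obtain ⟨d, hd, rfl⟩ := h.surj γ hγ.1
    exact h.commute cN (le_normalizer hd) (StdSz.mem_Cs.1 (mul_mem hx vc) d ⟨hd, StdSz.mem_C1.2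
      (h.comm_of (le_normalizer hd) ha (p2 a2) (StdSz.mem_C1.1 hγ.2))⟩)) with e1 | e1
  · exact .inl (fin s a1 a2 x2 v2 (hO hv) tv ⟨(h.ker _ cN).1 e1, ct⟩ ▸ hv)
  have e2 : t * v * t⁻¹ = a * v := by
    rw [← va.eq, ← dv, dg_def, ← mul_assoc, v2, one_mul]
  have e3 : x * (a * v) = a * (x * v) := by rw [← mul_assoc, xa.eq, mul_assoc]
  refine .inr (fin s a1 a2 x2 (y := a * v) ?_ (mul_mem (le_centralizer_iff.1
    (s.Ole.trans inf_le_left) ha) (hO hv)) ?_ ?_ ▸ (e2 ▸ conj_mem_cj.2 hv))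
  · rw [← e2, conj_mul, v2, mul_one, mul_inv_cancel]
  · calc t * (a * v) * (t * (a * v)) = (t * a) * (v * (t * a)) * v := by group
      _ = a * (t * v) * a * (t * v) := by rw [ta.eq]; group
      _ = a * a * (t * v * (t * v)) := by rw [mul_assoc a (t * v) a, (ta.mul_left va).eq]; group
      _ = a := by rw [a2, one_mul, tv]
  · rw [e3]
    exact ⟨(h.ker _ (mul_mem aN cN)).1 (by rw [h.mul _ aN _ cN, e1, ← h.mul a aN a aN, a2, h.one]),
      mul_mem (StdSz.mem_C1.2 ta.symm) ct⟩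

end Cfsg.Lib.StdX
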