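import Cfsg.Agent.StdX.OND2
import Cfsg.Agent.StdX.DK

/-!
# Generation of the O'Nan group by two involution centralisers; Sylow bounds
-/

set_option autoImplicit false
set_option maxRecDepth 100000

namespace Cfsg.Lib.StdX.ON

open Subgroup Cfsg.Lib.Spor Cfsg.Lib.Spor.ONP Cfsg.Lib.Spor.WM Cfsg.Lib.Known Cfsg.Lib.Gold
open Cfsg.Lib.Known.PC
open scoped commutatorElement

/-- a subgroup containing the first seven letters contains the simple group -/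
theorem G0_le_of {K : Subgroup Om} (h : ∀ l ∈ [1,2,3,4,5,6,7], gd.V l ∈ K) : G0 ≤ K := by
  have k : gn gd.V [1,2,3,4,5,6,7,8] ≤ K :=
    (gn_mono [[0],[2],[4],[6],[8],[10],[12],[13]] (by decide +kernel)).trans (gn_le h)
  refine Dbl.G0_le top fun l hl => ?_
  exact V_g (l := l) (by revert l; decide) ▸ k (mem_gn _ hl)

theorem al : ∃ a ∈ T, ∃ b ∈ T, ∃ c ∈ T, ⁅⁅a, b⁆, c⁆ ≠ 1 ∧ G0 ≤ (G0 ⊓ C1 z) ⊔ (G0 ⊓ C1 ⁅⁅a, b⁆, c⁆) := by
  obtain ⟨h1, h2, h3⟩ := holds gd hι V_mem hb [11,12,13,462608417321945286088083577099563735982059573512]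
    (.and (.ne (.cm (.cm (.c 0) (.c 1)) (.c 2)) .one) (.and (.inn (.c 3))
      (.com (.c 3) (.cm (.cm (.c 0) (.c 1)) (.c 2))))) (by decide +kernel)
  refine ⟨gd.V 11, mem_gn _ (by simp), gd.V 12, mem_gn _ (by simp), gd.V 13, mem_gn _ (by simp), h1,
    G0_le_of fun l hl => gn_le (I := [11,12,13,14,15,462608417321945286088083577099563735982059573512]) ?_ (ins
      [[6,2,6,8,10,8,2,0,8,10,0,4,6,8,2,0,10,8,6,8,6,2,8],[6,10,4,0,8,10,8,2,8,10,0,8,0,4,10,8,6,2,8,2],[0,2,6,2,10,8,10,2,8,2,10,6,8,10,0,8,2,10,8,10,2,10],[8,2,4,10,8,10,2,10,8,6,10,2,8,0,6,2,4,8,2,6],[8,0,8,0,10,2,0,8,0,6,8,2,6,8,10,8,10,2,8,2,10,8,0],[4,8,2,6,8,10,8,10,8,2,0,8,10,8,4,10,8,10,8,2,10,4,8,0],[8,10,8,2,6,2,4,2,8,10,4,2,8,0,10,8,4,8,10,2,10,8,2,6,4]]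
      (by decide +kernel) l hl)⟩
  simp only [List.forall_mem_cons]
  have k : ∀ l ∈ [10,11,12,13,14,15], gd.V l ∈ (G0 ⊓ C1 z) ⊔ (G0 ⊓ C1 ⁅⁅gd.V 11, gd.V 12⁆, gd.V 13⁆) :=
    fun l hl => mem_sup_left (gn_le_c0 (mem_gn _ hl))
  exact ⟨k _ (by simp), k _ (by simp), k _ (by simp), k _ (by simp), k _ (by simp),
    mem_sup_right ⟨h2, mem_centralizer_singleton_iff.2 h3⟩, fun _ e => nomatch e⟩

theorem two_le {K Q : Subgroup Om} {j m : ℕ} (hK : Nat.card K = 2 ^ j * m) (hm : Odd m) (hQ : Q ≤ K)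
    (h2 : IsPGroup 2 Q) : Nat.card Q ≤ 2 ^ j := by
  obtain ⟨a, ha⟩ := IsPGroup.iff_card.1 h2
  have := card_dvd_of_le hQ
  rw [hK, ha] at this
  exact ha ▸ Nat.le_of_dvd (by positivity)
    (((Nat.coprime_two_left.2 hm).pow_left a).dvd_of_dvd_mul_right this)

theorem syl : ∀ Q ≤ G0, IsPGroup 2 Q → Nat.card Q ≤ 2 ^ 9 := fun _ =>
  two_le (m := 900030285) card_G0 (by decide)

theorem sylR : ∀ Q ≤ G0 ⊓ C1 y, IsPGroup 2 Q → Nat.card Q ≤ 512 := fun _ =>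
  two_le (j := 9) (m := 315) card_c0 (by decide)

theorem inf_T : T ⊓ C1 y = T := inf_eq_left.2 (T_le_c0.trans inf_le_right)

end Cfsg.Lib.StdX.ON
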