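import Cfsg.Agent.StdX.Tm

/-!
# Statements on centralisers in a word model, with hashed orbit tables
-/

set_option autoImplicit false

namespace Cfsg.Lib.StdX

open Subgroup Equiv Cfsg.Lib.Spor Cfsg.Lib.Spor.WM Cfsg.Lib.Known Cfsg.Lib.Known.PC
open Cfsg.Lib.Spor.WF (upd)

/-- the operations of a word model; points are stored modulo the parameter of the level -/
noncomputable def hops (T : FT) (b m : ℕ) (base : List ℕ) (n : ℕ) (ι : ℕ → ℕ) : Ops :=
  ⟨0, mulF b, eqvF T b m base, appF T b m, fun x => Nat.blt x n, fun k x => Nat.mod x k, invF ι b m⟩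

variable {G : Type} [Group G] {n : ℕ} {ρ : G →* Perm (Fin n)} {T : FT} {b m : ℕ} {base : List ℕ}
  (h : Good ρ T b m base) {ι : ℕ → ℕ} (hι : invB T b m base ι = true)
include hι

theorem hasH : h.fm.Has (hops T b m base n ι) :=
  ⟨rfl, rfl, rfl, rfl, rfl, by rintro a _ rfl; exact h.V_invF hι a⟩

variable {H : Subgroup G} {n0 : ℕ} (hH : ∀ c, h.V c ∈ H ↔ appF T b m c 0 < n0) (hb : ∀ p ∈ base, p < n)
include hH hb

/-- a statement for all `d` commuting with `cz` and the atom `ix` -/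
theorem holds_cenH [Finite G] {cs : List ℕ} {cz N : ℕ} (hN : Nat.card (centralizer {h.V cz}) ≤ N)
    {ls : List ILev} (E : List ℕ) (ix v : ℕ) (p : Pf)
    (k : cenAllB (hops T b m base n ι) cs N ls cz (nth 0 E ix)
      (fun c => p.ev T b m base ι n0 (upd (nth 0 E) v c)) = true) :
    ∀ d, Commute d (h.V cz) → Commute d (h.V (nth 0 E ix)) →
      p.sem H (upd (fun i => h.V (nth 0 E i)) v d) := fun d h1 h2 => by
  obtain ⟨c, rfl, a⟩ := cenAll (hasH h hι) (h.fm_in cs) rfl rfl hN k d h1 h2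
  exact Pf.sem_of_ev h hι hH hb (V_upd h _ v _) p a

end Cfsg.Lib.StdX
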