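import Cfsg.Agent.StdX.Tm

/-!
# Long words in a word model, evaluated on points
-/

set_option autoImplicit false

namespace Cfsg.Lib.StdX

open Subgroup Equiv Cfsg.Lib.Spor Cfsg.Lib.Spor.WM Cfsg.Lib.Known Cfsg.Lib.Known.PC

/-- apply the codes `cs` at the positions `L`, the first one first -/
noncomputable def apW (T : FT) (b m : ℕ) (cs L : List ℕ) : ℕ → ℕ :=
  List.rec (fun x => x) (fun l _ ih x => frc (appF T b m (nth 0 cs l) x) ih) L

/-- the codes `ts` are the words `Ls` in the codes `cs` -/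
noncomputable def memW (T : FT) (b m : ℕ) (base cs : List ℕ) (ts : List (ℕ × List ℕ)) : Bool :=
  lall (fun t => lall (fun p => Nat.beq (appF T b m t.1 p) (apW T b m cs t.2 p)) base) ts

variable {G : Type} [Group G] {n : ℕ} {ρ : G →* Perm (Fin n)} {T : FT} {b m : ℕ} {base : List ℕ}
  (h : Good ρ T b m base) {K : Subgroup G} {cs : List ℕ} (hK : ∀ l, h.V (nth 0 cs l) ∈ K)
include hK

theorem apW_acts (L : List ℕ) : ∃ g ∈ K, Acts ρ (apW T b m cs L) g := by
  induction L with
  | nil => exact ⟨1, K.one_mem, acts_id ρ⟩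
  | cons l L ih =>
    obtain ⟨g, hg, a⟩ := ih
    refine ⟨g * h.V (nth 0 cs l), K.mul_mem hg (hK l), fun p => ?_⟩
    change frc (appF T b m (nth 0 cs l) p) (apW T b m cs L) = _
    rw [frc_eq, h.acts_appF, a, map_mul, Perm.mul_apply]

theorem mem_of_memW {ts : List (ℕ × List ℕ)} (e : memW T b m base cs ts = true) :
    ∀ t ∈ ts, h.V t.1 ∈ K := fun t ht => by
  obtain ⟨g, hg, a⟩ := apW_acts h hK t.2
  rw [← mul_inv_cancel_left g (h.V t.1), h.base (g⁻¹ * h.V t.1) fun p hp => ?_, mul_one]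
  · exact hg
  · have := Nat.eq_of_beq_eq_true (lall_iff.1 (lall_iff.1 e t ht) p hp)
    rw [h.acts_appF, a] at this
    rw [map_mul, Perm.mul_apply, Fin.ext this]; simp

end Cfsg.Lib.StdX
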