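import Cfsg.Agent.StdX.ONAl
import Cfsg.Agent.StdX.ClqL
import Cfsg.Agent.StdX.TmH
import Cfsg.Agent.StdX.TmW

/-! A generating set of involutions in relation. -/

set_option autoImplicit false
set_option maxRecDepth 100000

namespace Cfsg.Lib.StdX.ON

open Subgroup Cfsg.Lib.Spor Cfsg.Lib.Spor.WM Cfsg.Lib.Known Cfsg.Lib.Known.PC Cfsg.Lib.Gold
open Cfsg.Lib.Spor.ONP (base)

namespace Cq

/-- the codes of the elements -/
def E : List ℕ := [10, 4284537223037775, 7735857239584964769638891567764379075897530601104237058, 273656086664102602, 3726119533867851,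
        273656086664102602, 202165843896619724, 3427124244705996, 4280071480459980, 192327958020435942788748754245758420793687997479399558,
        208517057227286435658654841116616010940245048910897508548, 4284537223037775, 53822587466506, 3990002324779851, 3989869113701261,
        4284606999491469, 4284606999491469, 53548816855756, 3712996210963213, 3998870291661644, 4271477301228490, 4007594460767051,
        273379148295885772, 96927251063095233194071773791025165926913949142110722, 120521643622773660371096856179492860293003823300247813,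
        496601893579769669745176910290039144979796898919331410179, 1526184615351866382819078114460678897686791764590919,
        45652463226280077342513460889044543246979522, 646722678140907344901072668513029117024717537412,
        6299516633246351267076953293064570278097920691016331400, 192328139303530959895228544454118457911995240298066182, 1, 2, 3, 4, 5, 6, 7,
        4648393927483329926415635923688479077579285328781656264, 47233426099126150699759499016016079478038996201924]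

/-- the elements -/
noncomputable def e (i : ℕ) : Om := gd.V (nth 0 E i)

theorem hh (p : Pf) (k : p.ev gT 6 63 base ι 122760 (nth 0 E) = true) : p.sem G0 e :=
  StdX.holds gd hι V_mem hb E p k

theorem cen1 : ∀ d, Commute d (e 0) → Commute d (e 3) → Pf.sem G0 (WF.upd e 999 d)
    (.or (.ncom (.c 999) (.c 3)) (.or (.ncom (.c 999) (.c 4)) (.or (.ncom (.c 999) (.c 5)) (.or (.ncom (.c 999) (.c 6)) (.and (.inn (.c 999)) (.or
        (.ncom (.c 999) (.c 2)) (.or (.eq (.c 999) .one) (.eq (.c 999) .one)))))))) :=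
  holds_cenH gd hι V_mem hb card_cz_le
        (cs := [13, 11, 9, 649, 15, 14, 12, 238080972, 58126, 254600139, 238351052, 49868, 3208077, 3978187, 978417669068, 840961942478,
        4275875348017868, 66877124293391, 53821564318602, 3444644556624651, 4280135954777034, 10, 4284606999491469, 4280277672457101])
    (ls := [⟨57999, 0, 4079, 7, [0, 1, 2, 3, 4, 5, 6]⟩, ⟨45220, 58000, 1286, 3, [7, 8, 9, 10, 11, 12, 13]⟩, ⟨69385, 45221, 101, 1, [14, 15, 16, 17,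
        18, 19, 20]⟩, ⟨46333, 69386, 2, 0, []⟩, ⟨31699, 46334, 2, 0, []⟩, ⟨118474, 31700, 2, 0, []⟩, ⟨118527, 118475, 2, 0, []⟩, ⟨44448, 118528, 2,
        0, []⟩, ⟨200937, 0, 7, 1, [21, 22, 23]⟩, ⟨210468, 200938, 3, 0, []⟩])
    E 3 999 _ (by decide +kernel)

theorem T0 : Tr3 ⊤ G0 (e 0) (e 1) 1 := by
  obtain ⟨h1, h2, h3, h4, h5, h6, h7, h8, h9⟩ := hh (.and (.inn (.c 0)) (.and (.com (.c 0) (.c 1)) (.and (.inn (.c 2)) (.and (.eq (.cj (.c 2)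
        (.c 0)) (.c 1)) (.and (.eq (.cj (.c 2) (.c 1)) (.mul (.c 0) (.c 1))) (.and (.and (.inn (.c 3)) (.and (.com (.c 3) (.c 0)) (.com (.c 3)
        (.c 1)))) (.and (.and (.inn (.c 4)) (.and (.com (.c 4) (.c 0)) (.com (.c 4) (.c 1)))) (.and (.and (.inn (.c 5)) (.and (.com (.c 5) (.c 0))
        (.com (.c 5) (.c 1)))) (.and (.inn (.c 6)) (.and (.com (.c 6) (.c 0)) (.com (.c 6) (.c 1)))))))))))) (by decide +kernel)
  exact tr3_of (g := (e 2)) h1 h2 h3 h4 h5 h6 h6 h7 h8 h9 cen1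

theorem M0 : MuD ⊤ G0 (e 0) (e 0) (e 1) := by
  obtain ⟨h1, h2, h3⟩ := hh (.and (.ne (.c 7) (.c 0)) (.and (.ne (.c 7) (.c 1)) (.ne (.c 7) (.mul (.c 0) (.c 1))))) (by decide +kernel)
  exact .cube (c := (e 7)) ⟨1, one_mem _, by simp⟩ T0
    (T0.cj2 (c := (e 8)) (hh (.and (.inn (.c 8)) (.and (.eq (.cj (.c 8) (.c 0)) (.c 0)) (.eq (.cj (.c 8) (.c 1)) (.mul (.c 1) (.c 7)))))
        (by decide +kernel)))
    (T0.cj2 (c := (e 9)) (hh (.and (.inn (.c 9)) (.and (.eq (.cj (.c 9) (.c 0)) (.mul (.c 0) (.c 1))) (.eq (.cj (.c 9) (.c 1)) (.c 7))))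
        (by decide +kernel)))
    (T0.cj2 (c := (e 10)) (hh (.and (.inn (.c 10)) (.and (.eq (.cj (.c 10) (.c 0)) (.c 1)) (.eq (.cj (.c 10) (.c 1)) (.c 7))))
        (by decide +kernel))) h1 h2 h3

theorem cen2 : ∀ d, Commute d (e 0) → Commute d (e 22) → Pf.sem G0 (WF.upd e 999 d)
    (.or (.ncom (.c 999) (.c 11)) (.or (.ncom (.c 999) (.c 12)) (.or (.ncom (.c 999) (.c 16)) (.or (.ncom (.c 999) (.c 17)) (.or (.ncom (.c 999)
        (.c 18)) (.and (.eq (.pw (.c 999) 8) .one) (.and (.com (.c 999) (.c 19)) (.and (.com (.c 999) (.c 20)) (.com (.c 999) (.c 21)))))))))) :=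
  holds_cenH gd hι V_mem hb card_cz_le
        (cs := [12, 13, 15, 14, 11, 9, 13105939403, 45899, 974089143115, 188535755, 15220142859, 772241666892, 205058956, 238088974, 10,
        3990072117752587, 4275807635174284, 273660557725066060])
    (ls := [⟨45444, 0, 12985, 7, [0, 1, 2, 3, 4, 5]⟩, ⟨47885, 45445, 404, 3, [6, 7, 8, 9, 10, 11, 12]⟩, ⟨240840, 0, 4, 2, [13, 14]⟩, ⟨131789, 240841,
        5, 0, []⟩, ⟨202242, 131790, 2, 0, []⟩, ⟨242465, 202243, 2, 0, []⟩, ⟨41381, 0, 6, 1, [15, 9, 16]⟩, ⟨59151, 41382, 3, 1, [17]⟩, ⟨99129, 59152,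
        2, 0, []⟩])
    E 22 999 _ (by decide +kernel)

theorem cH : ∀ d ∈ Cs (gn e [11, 12, 16, 17, 18]), d ^ 8 = 1 ∧ Commute d (e 19) ∧ Commute d (e 20) ∧ Commute d (e 21) := fun d hd => by
  obtain ⟨h1, h2⟩ := hh (.and (.mem (.c 0) [11, 12, 16, 17, 18] [4, 4]) (.mem (.c 22) [11, 12, 16, 17, 18] [0, 2])) (by decide +kernel)
  have k := fun i (hi : i ∈ [11, 12, 16, 17, 18]) => StdSz.mem_Cs.1 hd _ (mem_gn e hi)
  rcases cen2 d (StdSz.mem_Cs.1 hd _ h1) (StdSz.mem_Cs.1 hd _ h2) with h | h | h | h | h | h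
  exacts [absurd (k 11 (by decide)) h, absurd (k 12 (by decide)) h, absurd (k 16 (by decide)) h, absurd (k 17 (by decide)) h, absurd (k 18
        (by decide)) h, h]

theorem N0 : (e 19) ∈ closure {x | x ∈ G0 ⊓ Ns (gn e [11, 12, 16, 17, 18]) ⊓ Cs (⊤ ⊓ Cs (gn e [11, 12, 16, 17, 18])) ∧ Odd (orderOf x)} := by
  obtain ⟨h1, h2, k11, k12, k16, k17, k18⟩ := hh (.and (.inn (.c 19)) (.and (.eq (.pw (.c 19) 5) .one) (.and (.mem (.cj (.c 19)
        (.c 11)) [11, 12, 16, 17, 18] [0, 6, 8]) (.and (.mem (.cj (.c 19) (.c 12)) [11, 12, 16, 17, 18] [0, 8]) (.and (.mem (.cj (.c 19)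
        (.c 16)) [11, 12, 16, 17, 18] [4]) (.and (.mem (.cj (.c 19) (.c 17)) [11, 12, 16, 17, 18] [0, 4, 4, 4]) (.mem (.cj (.c 19)
        (.c 18)) [11, 12, 16, 17, 18] [0, 2, 6]))))))) (by decide +kernel)
  exact subset_closure ⟨⟨⟨h1, mem_Ns_gn (by simp only [List.forall_mem_cons]; exact ⟨k11, k12, k16, k17, k18, fun _ h => nomatch h⟩)⟩,
    StdSz.mem_Cs.2 fun d hd => (cH d hd.2).2.1.symm⟩, odd_orderOf h2 (by decide)⟩

theorem N1 : (e 20) ∈ closure {x | x ∈ G0 ⊓ Ns (gn e [11, 12, 16, 17, 18]) ⊓ Cs (⊤ ⊓ Cs (gn e [11, 12, 16, 17, 18])) ∧ Odd (orderOf x)} := by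
  obtain ⟨h1, h2, k11, k12, k16, k17, k18⟩ := hh (.and (.inn (.c 20)) (.and (.eq (.pw (.c 20) 3) .one) (.and (.mem (.cj (.c 20)
        (.c 11)) [11, 12, 16, 17, 18] [2, 6, 8]) (.and (.mem (.cj (.c 20) (.c 12)) [11, 12, 16, 17, 18] [2, 4, 6]) (.and (.mem (.cj (.c 20)
        (.c 16)) [11, 12, 16, 17, 18] [4]) (.and (.mem (.cj (.c 20) (.c 17)) [11, 12, 16, 17, 18] [2, 4]) (.mem (.cj (.c 20)
        (.c 18)) [11, 12, 16, 17, 18] [2, 0, 4, 8]))))))) (by decide +kernel)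
  exact subset_closure ⟨⟨⟨h1, mem_Ns_gn (by simp only [List.forall_mem_cons]; exact ⟨k11, k12, k16, k17, k18, fun _ h => nomatch h⟩)⟩,
    StdSz.mem_Cs.2 fun d hd => (cH d hd.2).2.2.1.symm⟩, odd_orderOf h2 (by decide)⟩

theorem N2 : (e 21) ∈ closure {x | x ∈ G0 ⊓ Ns (gn e [11, 12, 16, 17, 18]) ⊓ Cs (⊤ ⊓ Cs (gn e [11, 12, 16, 17, 18])) ∧ Odd (orderOf x)} := by
  obtain ⟨h1, h2, k11, k12, k16, k17, k18⟩ := hh (.and (.inn (.c 21)) (.and (.eq (.pw (.c 21) 3) .one) (.and (.mem (.cj (.c 21)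
        (.c 11)) [11, 12, 16, 17, 18] [0, 4, 4, 8]) (.and (.mem (.cj (.c 21) (.c 12)) [11, 12, 16, 17, 18] [0, 8, 6]) (.and (.mem (.cj (.c 21)
        (.c 16)) [11, 12, 16, 17, 18] [4]) (.and (.mem (.cj (.c 21) (.c 17)) [11, 12, 16, 17, 18] [2, 0, 4, 6]) (.mem (.cj (.c 21)
        (.c 18)) [11, 12, 16, 17, 18] [0]))))))) (by decide +kernel)
  exact subset_closure ⟨⟨⟨h1, mem_Ns_gn (by simp only [List.forall_mem_cons]; exact ⟨k11, k12, k16, k17, k18, fun _ h => nomatch h⟩)⟩,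
    StdSz.mem_Cs.2 fun d hd => (cH d hd.2).2.2.2.symm⟩, odd_orderOf h2 (by decide)⟩

theorem R : RlD ⊤ G0 (e 0) (e 11) (e 13) := by
  obtain ⟨h1, h2, h3, h4, h5, h6, h7, ⟨p11, q11⟩, ⟨p12, q12⟩, ⟨p16, q16⟩, ⟨p17, q17⟩, ⟨p18, q18⟩, ⟨⟨u16, v16, w16⟩, x16⟩, ⟨⟨u17, v17, w17⟩, x17⟩,
        ⟨⟨u18, v18, w18⟩, x18⟩⟩ := hh (.and (.eq (.cj (.c 11) (.c 12)) (.mul (.c 12) (.c 0))) (.and (.eq (.cj (.c 11) (.c 13)) (.mul (.c 13)
        (.c 0))) (.and (.eq (.cj (.c 12) (.c 13)) (.mul (.c 13) (.c 0))) (.and (.eq (.cj (.c 14) (.c 11)) (.c 13)) (.and (.eq (.cj (.c 14) (.c 13))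
        (.mul (.c 11) (.c 0))) (.and (.eq (.cj (.c 14) (.c 12)) (.c 12)) (.and (.eq (.c 14) (.mul (.mul (.mul (.mul (.mul (.c 20) (.c 19)) (.c 19))
        (.c 20)) (.c 21)) (.c 19))) (.and (.and (.com (.c 0) (.c 11)) (.com (.mul (.mul (.c 13) (.c 11)) (.c 12)) (.c 11))) (.and (.and (.com (.c 0)
        (.c 12)) (.com (.mul (.mul (.c 13) (.c 11)) (.c 12)) (.c 12))) (.and (.and (.com (.c 0) (.c 16)) (.com (.mul (.mul (.c 13) (.c 11)) (.c 12))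
        (.c 16))) (.and (.and (.com (.c 0) (.c 17)) (.com (.mul (.mul (.c 13) (.c 11)) (.c 12)) (.c 17))) (.and (.and (.com (.c 0) (.c 18)) (.com
        (.mul (.mul (.c 13) (.c 11)) (.c 12)) (.c 18))) (.and (.and (.and (.inn (.c 16)) (.and (.com (.c 16) (.c 11)) (.com (.c 16) (.c 12)))) (.com
        (.c 16) (.c 13))) (.and (.and (.and (.inn (.c 17)) (.and (.com (.c 17) (.c 11)) (.com (.c 17) (.c 12)))) (.com (.c 17) (.c 13))) (.and (.and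
        (.inn (.c 18)) (.and (.com (.c 18) (.c 11)) (.com (.c 18) (.c 12)))) (.com (.c 18) (.c 13))))))))))))))))) (by decide +kernel)
  refine .pauli (q := (e 12)) (p := e 0) (m := (e 14)) (H := gn e [11, 12, 16, 17, 18])
    (M0.cj2 (c := (e 23)) (hh (.and (.inn (.c 23)) (.and (.eq (.cj (.c 23) (.c 0)) (.c 11)) (.eq (.cj (.c 23) (.c 1)) (.c 0)))) (by decide +kernel)))
    (M0.cj2 (c := (e 24)) (hh (.and (.inn (.c 24)) (.and (.eq (.cj (.c 24) (.c 0)) (.c 12)) (.eq (.cj (.c 24) (.c 1)) (.c 0)))) (by decide +kernel)))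
    (M0.cj2 (c := (e 25)) (hh (.and (.inn (.c 25)) (.and (.eq (.cj (.c 25) (.c 0)) (.c 13)) (.eq (.cj (.c 25) (.c 1)) (.c 0))))
        (by decide +kernel))) h1 h2 h3 (gn_le ?_)
    (mem_Cs_gn ?_) (mem_Cs_gn ?_) (fun k hk => (cH k hk.2).1) ?_ h4 h5 h6
  · simp only [List.forall_mem_cons]
    exact ⟨mem_sup_left (subset_closure (.inl rfl)), mem_sup_left (subset_closure
        (.inr rfl)), mem_sup_right ⟨In2.mem ⟨u16, v16, w16⟩, StdSz.mem_C1.2 x16⟩, mem_sup_right ⟨In2.mem ⟨u17, v17, w17⟩, StdSz.mem_C1.2 x17⟩,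
        mem_sup_right ⟨In2.mem ⟨u18, v18, w18⟩, StdSz.mem_C1.2 x18⟩, fun _ h => nomatch h⟩
  · simp only [List.forall_mem_cons]
    exact ⟨p11, p12, p16, p17, p18, fun _ h => nomatch h⟩
  · simp only [List.forall_mem_cons]
    exact ⟨q11, q12, q16, q17, q18, fun _ h => nomatch h⟩
  · exact (show (e 14) = ((((((e 20) * (e 19)) * (e 19)) * (e 20)) * (e 21)) * (e 19)) from h7) ▸ (mul_mem (mul_mem (mul_mem (mul_mem
        (mul_mem N1 N0) N0) N1) N2) N0)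

theorem P01 : RlD ⊤ G0 (e 0) (e 0) (e 26) :=
  (R.cj2 (c := (e 28)) (hh (.and (.inn (.c 28)) (.and (.eq (.cj (.c 28) (.c 11)) (.c 0)) (.eq (.cj (.c 28) (.c 13)) (.c 26)))) (by decide +kernel)))

theorem P02 : RlD ⊤ G0 (e 0) (e 0) (e 27) :=
  (R.cj2 (c := (e 29)) (hh (.and (.inn (.c 29)) (.and (.eq (.cj (.c 29) (.c 11)) (.c 0)) (.eq (.cj (.c 29) (.c 13)) (.c 27)))) (by decide +kernel)))

theorem P12 : RlD ⊤ G0 (e 0) (e 26) (e 27) :=
  (R.cj2 (c := (e 30)) (hh (.and (.inn (.c 30)) (.and (.eq (.cj (.c 30) (.c 11)) (.c 26)) (.eq (.cj (.c 30) (.c 13)) (.c 27)))) (by decide +kernel)))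

theorem gen : G0 ≤ gn e [0, 26, 27] := by
  have k := mem_of_memW gd (K := gn e [0, 26, 27]) (cs := [nth 0 E 0, nth 0 E 26, nth 0 E 27])
    (V_nth gd hι (by
      simp only [List.forall_mem_cons]
      exact ⟨⟨_, mem_gn e (l := 0) (by decide), rfl⟩, ⟨_, mem_gn e (l := 26) (by decide), rfl⟩,
        ⟨_, mem_gn e (l := 27) (by decide), rfl⟩, fun _ h => nomatch h⟩))
    (ts := [(1, [0, 2, 0, 1, 0, 2, 1, 2, 0, 2, 1, 0, 2, 0, 1, 0, 2, 1, 2, 0, 1, 2, 1, 0, 2, 1, 0, 2, 1, 2, 1, 0, 2, 0, 1, 2, 0, 1, 0, 2, 0, 1, 0, 2, 1, 0]),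
      (2, [0, 2, 1, 2, 0, 1, 0, 2, 1, 0, 1, 2, 1, 0, 2, 0, 2, 1, 0, 2, 1, 2, 0, 1, 0, 2, 1, 0, 2, 1, 0, 2, 1, 2, 0, 2, 1, 2, 0, 2, 0, 1, 0, 2, 1, 2, 0, 2, 1, 2]),
      (3, [0, 1, 2, 0, 1, 0, 1, 2, 1, 2, 0, 1, 2, 1, 0, 1, 2, 1, 0, 2, 0, 1, 2, 0, 2, 1, 0, 2, 0, 1, 2, 1, 0, 1, 2, 1, 0, 2, 1, 2, 1, 0, 1, 0, 2, 1, 0]),
      (4, [1, 2, 0, 2, 1, 0, 2, 1, 2, 0, 1, 2, 1, 0, 1, 2, 0, 2, 1, 0, 2, 0, 1, 2, 0, 1, 2, 0, 1, 0, 2, 1, 0, 1, 0, 2, 1]),
      (5, [1, 2, 1, 0, 2, 0, 1, 0, 2, 0, 1, 2, 1, 0, 1, 2, 1, 0, 2, 0, 1, 0, 1, 2, 1, 0, 2, 0, 1, 0, 2, 1, 0, 1, 2, 0, 1, 0, 2, 1, 0, 2, 1, 2, 0, 1, 0, 2]),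
      (6, [0, 2, 0, 1, 0, 2, 1, 0, 2, 0, 2, 1, 0, 1, 2, 1, 0, 2, 1, 0, 2, 0, 2, 1, 2, 0, 1, 2, 1, 0, 1, 2, 0, 2, 0, 1, 2, 0, 1, 0, 2, 0]),
      (7, [1, 2, 0, 1, 2, 0, 1, 2, 1, 2, 0, 1, 2, 1, 0, 1, 2, 0, 1, 2, 1, 0, 2, 1, 2, 0, 2, 1, 2, 0, 2, 1, 0, 2, 0, 1, 2, 1, 0, 1, 2, 0, 1, 0, 2, 1, 0])]) (by decide +kernel)
  simp only [List.forall_mem_cons] at k
  obtain ⟨h1, h2, h3, h4, h5, h6, h7, -⟩ := k
  refine G0_le_of ?_
  simp only [List.forall_mem_cons]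
  exact ⟨h1, h2, h3, h4, h5, h6, h7, fun _ h => nomatch h⟩

theorem clq : Clq ⊤ G0 (e 0) := by
  refine clq_gn e [0, 26, 27] gen ?_ ?_
  · simp only [List.forall_mem_cons]
    exact ⟨⟨1, one_mem _, by simp⟩, ⟨(e 38), hh (.and (.inn (.c 38)) (.eq (.cj (.c 38) (.c 0)) (.c 26))) (by decide +kernel)⟩, ⟨(e 39), hh (.and
        (.inn (.c 39)) (.eq (.cj (.c 39) (.c 0)) (.c 27))) (by decide +kernel)⟩, fun _ h => nomatch h⟩
  · simp only [List.pairwise_cons, List.forall_mem_cons]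
    exact ⟨⟨P01, P02, fun _ h => nomatch h⟩, ⟨P12, fun _ h => nomatch h⟩, (fun _ h => nomatch h), .nil⟩

end Cq

theorem clq : Clq ⊤ G0 z := Cq.clq

end Cfsg.Lib.StdX.ON
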