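import Cfsg.Agent.StdX.Tm

/-!
# Statements on words that give the facts on outer involutions
-/

set_option autoImplicit false

namespace Cfsg.Lib.StdX

open Subgroup Cfsg.Lib.Gold
open Cfsg.Lib.StdM (Cl)
open scoped commutatorElement

namespace OutK

/-- a statement for all members of a list -/
noncomputable def allP {α : Type} (f : α → Pf) (I : List α) : Pf :=
  List.rec .tt (fun i _ r => .and (f i) r) I

/-- `t` is not in the group of a chain -/
noncomputable def nin (I : List ℕ) : Tm → Pf :=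
  List.rec (fun t => .ne t .one) (fun x _ r t => .and (r t) (r (.mul t (.c x)))) I

/-- the conjugates of the atoms `J` under the atom `x` lie in the group of `I` -/
noncomputable def cjs (x : ℕ) (I J : List ℕ) : List (List ℕ) → Pf :=
  List.rec (fun _ => .tt) (fun j _ r L => .and (.mem (.cj (.c x) (.c j)) I (L.headD [])) (r L.tail)) J

/-- every atom of `I` normalises the group of the later ones and extends it by a factor two -/
noncomputable def chn (I : List ℕ) : List (List (List ℕ)) → Pf :=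
  List.rec (fun _ => .tt) (fun x xs r C =>
    .and (.and (.mem (.mul (.c x) (.c x)) xs ((C.headD []).headD [])) (cjs x xs xs (C.headD []).tail))
      (.and (nin xs (.c x)) (r C.tail))) I

/-- the facts on one outer involution -/
noncomputable def ofP (s : ℕ) (I : List ℕ) (C : List (List (List ℕ))) (a b u v w : ℕ) : Pf :=
  .and (chn I C) (.and (allP (fun i => .and (.inn (.c i)) (.com (.c i) (.c s))) (a :: b :: I))
    (.and (allP (fun i => .and (.eq (.mul (.c i) (.c i)) .one) (.ne (.c i) .one)) [a, b])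
    (.and (.and (.ne (.c a) (.c b)) (.com (.c a) (.c b))) (.and (allP (fun i => .inn (.c i)) [u, v, w])
    (.and (.eq (.cj (.c u) (.c s)) (.mul (.c s) (.c a))) (.and (.eq (.cj (.c v) (.c s)) (.mul (.c s) (.c b)))
      (.eq (.cj (.c w) (.c s)) (.mul (.c s) (.mul (.c a) (.c b))))))))))

/-- a dihedral group -/
noncomputable def dihP (p s i j c d : ℕ) : Pf :=
  .and (allP (fun x => .and (.and (.inn (.c x)) (.com (.c x) (.c s))) (.eq (.mul (.c x) (.c x)) .one))
    [i, j, c, d])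
    (.and (.eq (.mul (.cm (.c i) (.mul (.c c) (.c d))) (.cm (.c i) (.mul (.c c) (.c d)))) .one)
    (.and (.eq (.pw (.mul (.cm (.c i) (.mul (.c c) (.c d))) (.c j)) p) .one)
      (.ne (.mul (.cm (.c i) (.mul (.c c) (.c d))) (.c j)) .one)))

variable {G : Type*} [Group G] {H : Subgroup G} {g : ℕ → G}

theorem allP_sem {α : Type} {f : α → Pf} {I : List α} (h : (allP f I).sem H g) :
    ∀ i ∈ I, (f i).sem H g := by
  induction I with
  | nil => exact fun _ e => nomatch e
  | cons x xs ih => exact List.forall_mem_cons.2 ⟨h.1, ih h.2⟩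

theorem cjs_sem {x : ℕ} {I J : List ℕ} {L : List (List ℕ)} (h : (cjs x I J L).sem H g) :
    ∀ j ∈ J, g x * g j * (g x)⁻¹ ∈ gn g I := by
  induction J generalizing L with
  | nil => exact fun _ e => nomatch e
  | cons y ys ih => exact List.forall_mem_cons.2 ⟨h.1, ih h.2⟩

theorem gn_mono (x : ℕ) (xs : List ℕ) : gn g xs ≤ gn g (x :: xs) :=
  gn_le fun _ hl => mem_gn g (List.mem_cons_of_mem _ hl)

theorem mem_cons {x : ℕ} {xs : List ℕ} (hs : g x * g x ∈ gn g xs)
    (hn : ∀ j ∈ xs, g x * g j * (g x)⁻¹ ∈ gn g xs) {t : G} (ht : t ∈ gn g (x :: xs)) :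
    t ∈ gn g xs ∨ t * g x ∈ gn g xs := by
  have c1 : ∀ k ∈ gn g xs, g x * k * (g x)⁻¹ ∈ gn g xs := fun k hk =>
    gn_le (K := (gn g xs).comap (MulAut.conj (g x)).toMonoidHom) hn hk
  have c2 : ∀ k ∈ gn g xs, (g x)⁻¹ * k * g x ∈ gn g xs := fun k hk => by
    have := mul_mem (mul_mem (inv_mem hs) (c1 k hk)) hs
    rwa [show (g x * g x)⁻¹ * (g x * k * (g x)⁻¹) * (g x * g x) = (g x)⁻¹ * k * g x by group] at this
  let S : Subgroup G :=
    { carrier := {t | t ∈ gn g xs ∨ t * g x ∈ gn g xs}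
      one_mem' := Or.inl (one_mem _)
      mul_mem' := by
        rintro a b (ha | ha) (hb | hb)
        · exact Or.inl (mul_mem ha hb)
        · exact Or.inr (mul_assoc a b _ ▸ mul_mem ha hb)
        · refine Or.inr ?_
          have := mul_mem ha (c2 b hb)
          rwa [show a * g x * ((g x)⁻¹ * b * g x) = a * b * g x by group] at this
        · refine Or.inl ?_
          have := mul_mem (mul_mem ha (c2 _ hb)) (inv_mem hs)
          rwa [show a * g x * ((g x)⁻¹ * (b * g x) * g x) * (g x * g x)⁻¹ = a * b by group] at this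
      inv_mem' := by
        rintro a (ha | ha)
        · exact Or.inl (inv_mem ha)
        · refine Or.inr ?_
          have := mul_mem (c1 _ (inv_mem ha)) hs
          rwa [show g x * (a * g x)⁻¹ * (g x)⁻¹ * (g x * g x) = a⁻¹ * g x by group] at this }
  exact gn_le (K := S) (List.forall_mem_cons.2 ⟨Or.inr hs, fun l hl => Or.inl (mem_gn g hl)⟩) ht

theorem nin_sem {I : List ℕ} {C : List (List (List ℕ))} (h : (chn I C).sem H g) {t : Tm}
    (k : (nin I t).sem H g) : t.val g ∉ gn g I := by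
  induction I generalizing C t with
  | nil => exact fun e => k (mem_bot.1 (gn_le (K := ⊥) (fun _ e => absurd e List.not_mem_nil) e))
  | cons x xs ih =>
    exact fun e => (mem_cons h.1.1 (cjs_sem h.1.2) e).elim (ih h.2.2 k.1) (ih h.2.2 k.2)

theorem chn_card {I : List ℕ} {C : List (List (List ℕ))} (h : (chn I C).sem H g) :
    Nat.card (gn g I) = 2 ^ I.length := by
  induction I generalizing C with
  | nil => rw [le_bot_iff.1 (gn_le (g := g) (I := []) (K := ⊥) fun _ e => absurd e List.not_mem_nil), card_bot]; rfl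
  | cons x xs ih =>
    have h0 : g x ∉ gn g xs := nin_sem h.2.2 h.2.1
    have h1 : (gn g xs).relIndex (gn g (x :: xs)) = 2 :=
      relIndex_eq_two_iff.2 ⟨g x, mem_gn g List.mem_cons_self, fun b hb => by
        by_cases e : b ∈ gn g xs
        · exact Or.inr ⟨e, fun e' => h0 ((mul_mem_cancel_left e).1 e')⟩
        · exact Or.inl ⟨(mem_cons h.1.1 (cjs_sem h.1.2) hb).resolve_left e, e⟩⟩
    have h2 := relIndex_mul_relIndex ⊥ (gn g xs) (gn g (x :: xs)) bot_le (gn_mono x xs)
    rw [relIndex_bot_left, relIndex_bot_left, h1, ih h.2.2] at h2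
    rw [← h2, List.length_cons, pow_succ]

theorem ofP_sem {s : ℕ} {I : List ℕ} {C : List (List (List ℕ))} {a b u v w : ℕ}
    (h : (ofP s I C a b u v w).sem H g) : OF H I.length (g s) := by
  obtain ⟨h1, h2, h3, ⟨h4, h5⟩, h6, h7, h8, h9⟩ := h
  have k2 : ∀ i ∈ a :: b :: I, g i ∈ H ∧ Commute (g i) (g s) :=
    allP_sem (H := H) (g := g) (f := fun i => .and (.inn (.c i)) (.com (.c i) (.c s))) (I := a :: b :: I) h2
  refine ⟨⟨gn g I, gn_le fun l hl => ?_, chn_card h1⟩, g a, h2.1.1, g b, h2.2.1.1, h3.1.1, h3.2.1.1,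
    h3.1.2, h3.2.1.2, h4, h5, h2.1.2, h2.2.1.2, ?_⟩
  · have := k2 l (List.mem_cons_of_mem _ (List.mem_cons_of_mem _ hl))
    exact ⟨this.1, mem_centralizer_singleton_iff.2 this.2⟩
  · rintro _ (rfl | rfl | rfl)
    exacts [⟨g u, h6.1, h7⟩, ⟨g v, h6.2.1, h8⟩, ⟨g w, h6.2.2.1, h9⟩]

theorem dihP_sem {p s i j c d : ℕ} (h : (dihP p s i j c d).sem H g) : Dih H p (g s) := by
  obtain ⟨h1, h2, h3, h4⟩ := h
  have k : ∀ x ∈ [i, j, c, d], g x ∈ H ⊓ C1 (g s) ∧ g x * g x = 1 := fun x hx =>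
    have a : (g x ∈ H ∧ Commute (g x) (g s)) ∧ g x * g x = 1 := allP_sem (H := H) (g := g)
      (f := fun x => .and (.and (.inn (.c x)) (.com (.c x) (.c s))) (.eq (.mul (.c x) (.c x)) .one))
      (I := [i, j, c, d]) h1 x hx
    ⟨⟨a.1.1, mem_centralizer_singleton_iff.2 a.1.2⟩, a.2⟩
  exact ⟨g i, (k i (by simp)).1, g j, (k j (by simp)).1, g c * g d,
    mul_mem (subset_closure (k c (by simp))) (subset_closure (k d (by simp))),
    (k i (by simp)).2, (k j (by simp)).2, h2, h3, h4⟩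

/-- a bound for 2-subgroups of centralisers moves along powers and conjugation -/
theorem bound_conj {x y c : G} {m N : ℕ} (e : c * y * c⁻¹ = x ^ m)
    (hb : ∀ Q ≤ C1 y, IsPGroup 2 Q → Nat.card Q < N) :
    ∀ Q ≤ C1 x, IsPGroup 2 Q → Nat.card Q < N := fun Q hQ h2 => by
  have := hb (Q.map (MulAut.conj c⁻¹).toMonoidHom) ?_ (h2.map _)
  · rwa [card_map_of_injective (MulAut.conj c⁻¹).injective] at this
  · rintro _ ⟨q, hq, rfl⟩
    have k : Commute q x := mem_centralizer_singleton_iff.1 (hQ hq)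
    have k1 := (k.pow_right m).eq
    rw [← e] at k1
    refine mem_centralizer_singleton_iff.2 ?_
    change c⁻¹ * q * c⁻¹⁻¹ * y = y * (c⁻¹ * q * c⁻¹⁻¹)
    calc c⁻¹ * q * c⁻¹⁻¹ * y = c⁻¹ * (q * (c * y * c⁻¹)) * c := by group
      _ = _ := by rw [k1]; group

/-- the elements of order `p` are conjugate into a Sylow subgroup -/
theorem bound_syl [Finite G] {p k N : ℕ} (hp : p.Prime) {P : Subgroup G} (hP : Nat.card P = p ^ k)
    (hk : ¬ p ^ (k + 1) ∣ Nat.card G)
    (hb : ∀ y ∈ P, y ≠ 1 → ∀ Q ≤ C1 y, IsPGroup 2 Q → Nat.card Q < N) :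
    ∀ x ∈ (⊤ : Subgroup G), x ≠ 1 → x ^ p = 1 → ∀ Q ≤ ⊤ ⊓ C1 x, IsPGroup 2 Q → Nat.card Q < N := by
  intro x _ x1 xp Q hQ
  have : Fact p.Prime := ⟨hp⟩
  have hi : ¬ p ∣ P.index := fun e => hk (by
    rw [← P.card_mul_index, hP, pow_succ]; exact mul_dvd_mul_left _ e)
  let S : Sylow p G := (IsPGroup.of_card hP).toSylow hi
  have hx : IsPGroup p (zpowers x) := IsPGroup.of_card (n := 1) (by
    rw [Nat.card_zpowers, orderOf_eq_prime xp x1, pow_one])
  obtain ⟨R, hR⟩ := hx.exists_le_sylow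
  obtain ⟨c, rfl⟩ := MulAction.exists_smul_eq G S R
  obtain ⟨y, hy, e⟩ := hR (mem_zpowers x)
  have e' : c * y * c⁻¹ = x ^ 1 := e.trans (pow_one x).symm
  refine bound_conj e' (hb y hy ?_) Q (hQ.trans inf_le_right)
  rintro rfl
  exact x1 (by simpa using e'.symm)

/-- a bound from the order of the centraliser -/
theorem bound_card [Finite G] {K : Subgroup G} {m N M : ℕ} (hm : Odd m) (hd : m ∣ Nat.card K)
    (hK : Nat.card K ≤ M) (hN : M < N * m) : ∀ Q ≤ K, IsPGroup 2 Q → Nat.card Q < N := fun Q hQ h2 => by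
  obtain ⟨a, ha⟩ := IsPGroup.iff_card.1 h2
  have h1 : Nat.card Q * m ∣ Nat.card K := Nat.Coprime.mul_dvd_of_dvd_of_dvd
    (ha ▸ (Nat.coprime_two_left.2 hm).pow_left a) (card_dvd_of_le hQ) hd
  exact Nat.lt_of_mul_lt_mul_right ((Nat.le_of_dvd Nat.card_pos h1).trans_lt (hK.trans_lt hN))

/-- an elementary abelian group of order `p²` -/
theorem sq_group [Finite G] {p : ℕ} (hp : p.Prime) {x y : G} (c : Commute x y) (hx : x ^ p = 1)
    (hy : y ^ p = 1) (y1 : y ≠ 1) (h : ∀ i < p, x ≠ y ^ i) :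
    Nat.card ↥(zpowers x ⊔ zpowers y) = p ^ 2 ∧
      ∀ t ∈ zpowers x ⊔ zpowers y, ∃ i < p, ∃ j < p, t = x ^ i * y ^ j := by
  have : Fact p.Prime := ⟨hp⟩
  have x1 : x ≠ 1 := fun e => h 0 hp.pos (e.trans (pow_zero y).symm)
  have ox := orderOf_eq_prime hx x1
  have oy := orderOf_eq_prime hy y1
  have pw : ∀ {a t : G}, orderOf a = p → t ∈ zpowers a → ∃ i < p, t = a ^ i := fun {a t} e ht => by
    obtain ⟨i, rfl⟩ := mem_powers_iff_mem_zpowers.2 ht
    exact ⟨i % p, Nat.mod_lt _ hp.pos, by rw [← e, pow_mod_orderOf]⟩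
  have hd : Disjoint (zpowers x) (zpowers y) := by
    have : Fact (Nat.card (zpowers x)).Prime := ⟨by rwa [Nat.card_zpowers, ox]⟩
    rcases ((zpowers y).subgroupOf (zpowers x)).eq_bot_or_eq_top_of_prime_card with e | e
    · exact (subgroupOf_eq_bot.1 e).symm
    · obtain ⟨i, hi, k⟩ := pw oy (subgroupOf_eq_top.1 e (mem_zpowers x))
      exact absurd k (h i hi)
  have cm : ∀ (a : zpowers x) (b : zpowers y), Commute ((zpowers x).subtype a) ((zpowers y).subtype b) := by
    rintro ⟨_, i, rfl⟩ ⟨_, j, rfl⟩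
    exact c.zpow_zpow i j
  have hr := MonoidHom.noncommCoprod_range _ _ cm
  rw [range_subtype, range_subtype] at hr
  refine ⟨?_, fun t ht => ?_⟩
  · rw [← hr, ← Nat.card_congr (MonoidHom.ofInjective ((MonoidHom.noncommCoprod_injective _ _ cm).2
      ⟨subtype_injective _, subtype_injective _, by rwa [range_subtype, range_subtype]⟩)).toEquiv,
      Nat.card_prod, Nat.card_zpowers, Nat.card_zpowers, ox, oy, sq]
  · rw [← hr] at ht
    obtain ⟨⟨a, b⟩, rfl⟩ := ht
    obtain ⟨i, hi, e⟩ := pw ox a.2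
    obtain ⟨j, hj, e'⟩ := pw oy b.2
    exact ⟨i, hi, j, hj, by rw [← e, ← e']; rfl⟩

end OutK

end Cfsg.Lib.StdX
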