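import Cfsg.Agent.StdX.OND2
import Cfsg.Agent.StdX.OutK

/-!
# Outer involutions of the O'Nan group
-/

set_option autoImplicit false
set_option maxRecDepth 100000

namespace Cfsg.Lib.StdX.ON

open Subgroup Cfsg.Lib.Spor Cfsg.Lib.Spor.ONP Cfsg.Lib.Spor.WM Cfsg.Lib.Known Cfsg.Lib.Gold
open Cfsg.Lib.Known.PC Cfsg.Lib.Known.Model
open Cfsg.Lib.Spor.Bulk (wv ltB lt_of_ltB map_wv_of_lt gW_sing)
open Cfsg.Lib.StdM (Cl)

/-- the elements used for the outer involution -/
def oE : List ℕ := [9, 10, 3191563, 14162903757, 909, 779, 3724043,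
  5778708166472492895528066256934533652481863876, 12429990426056777285494422088838842796845297578312,
  792468957331790818251281681490459263325641505335042404487,
  1912016721589162527160973722965225767616478841160197]

theorem of_so : OF G0 3 so :=
  OutK.ofP_sem (holds gd hι V_mem hb oE
    (OutK.ofP 0 [3, 2, 1] [[[], [0], [2]], [[], [0]], [[]]] 1 2 4 5 6) (by decide +kernel))

theorem dih_so : Dih G0 19 so :=
  OutK.dihP_sem (holds gd hι V_mem hb oE (OutK.dihP 19 0 7 8 9 10) (by decide +kernel))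

theorem cen_oX (d : Cfsg.Spor.ON) (e : d * wv g0 oX = wv g0 oX * d) : d ∈ zpowers (wv g0 oX) := by
  have hx := R_w (W := oX) (by decide +kernel)
  have k : ∀ p : Fin 122760, ρ (wv g0 oX) p = p ↔ (p : ℕ) = 0 := fun p =>
    ⟨fun h => List.mem_singleton.1 (mem_of_fixLeB on_nets on_w o_fx (by
      rwa [map_wv_of_lt ρ_g0 (lt_of_ltB (by decide +kernel : ltB 9 [oX] = true) _ List.mem_cons_self)] at h)),
    fun h => Fin.ext ((g_good.fm.P_app hx h.symm).symm.trans
      ((by decide +kernel : g_good.fm.app (pack 6 oX) 0 = 0).trans h.symm))⟩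
  refine (of_oneB (g_good.hasF g_inv).inv (g_good.fm_in _)
    (card_H ▸ card_le_of_le fun g hg => gW_sing g0 _ ▸ (model.stab g).2 (hg 0 (by simp) _ rfl))
    hx (g_good.fm_in _) o_one).1 d (fun b hb ω hω => ?_) e
  have h0 : (ω : ℕ) = 0 := (List.mem_singleton.1 hb ▸ hω :).symm
  refine Fin.ext (((k (ONP.ρ d ω)).1 ?_).trans h0.symm)
  rw [← Equiv.Perm.mul_apply, ← map_mul, ← e, map_mul, Equiv.Perm.mul_apply, (k ω).2 h0]

theorem order_oX : orderOf (io (wv g0 oX)) = 19 := by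
  have k := holds gd hι V_mem hb [pack 6 oX] (.and (.eq (.pw (.c 0) 19) .one) (.ne (.c 0) .one))
    (by decide +kernel)
  rw [← V_w (by decide +kernel)]
  exact haveI : Fact (Nat.Prime 19) := ⟨by norm_num⟩; orderOf_eq_prime k.1 k.2

theorem bound19 : ∀ x ∈ (⊤ : Subgroup Om), x ≠ 1 → x ^ 19 = 1 → ∀ Q ≤ ⊤ ⊓ C1 x, IsPGroup 2 Q →
    Nat.card Q < 2 ^ 3 := by
  have : Fact (Nat.Prime 19) := ⟨by norm_num⟩
  have h1 : Nat.card (zpowers (io (wv g0 oX))) = 19 := by rw [Nat.card_zpowers, order_oX]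
  refine OutK.bound_syl (k := 1) this.out (h1.trans (pow_one _).symm) (by rw [card_Om]; norm_num)
    fun a ha a1 Q hQ => ?_
  have h2 : zpowers a = zpowers (io (wv g0 oX)) :=
    eq_of_le_of_card_ge (zpowers_le.2 ha) (by
      rw [h1, Nat.card_zpowers, orderOf_eq_prime (p := 19) (by
        rw [← orderOf_dvd_iff_pow_eq_one, ← order_oX]; exact orderOf_dvd_of_mem_zpowers ha) a1])
  have h3 : Nat.card (centralizer {wv g0 oX}) ≤ 19 := by
    rw [← order_oX, orderOf_injective _ io_inj, ← Nat.card_zpowers]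
    exact card_le_of_le fun d hd => cen_oX d (mem_centralizer_singleton_iff.1 hd)
  refine OutK.bound_card (K := C1 (io (wv g0 oX))) (m := 19) (M := 38) (by decide)
    (h1 ▸ card_dvd_of_le (zpowers_le.2 (mem_centralizer_singleton_iff.2 rfl)))
    ((Dbl.card_cen_le hσ (by decide) injective _).trans (by omega)) (by norm_num) Q fun q hq => ?_
  obtain ⟨i, hi⟩ := h2.ge (mem_zpowers _)
  exact mem_centralizer_singleton_iff.2
    (hi ▸ (show Commute q a from mem_centralizer_singleton_iff.1 (hQ hq)).zpow_right i)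

theorem out_of (ocl : ∀ x ∉ G0, x * x = 1 → Cl G0 so x)
    (up : ∀ Q ≤ ⊤ ⊓ C1 so, IsPGroup 2 Q → Nat.card Q ≤ 2 ^ 4) : Out ⊤ G0 so so 9 3 4 where
  σΓ := trivial
  σ0 := so_not
  σ2 := so_so
  ocl x _ h1 h2 := Or.inl (ocl x h1 h2)
  of := of_so
  of' := of_so
  up := up
  ind := Or.inr ⟨19, by norm_num, by norm_num, dih_so, dih_so, bound19⟩
  n1 := by norm_num
  n2 := by norm_num
  n3 := by norm_num

theorem out (ocl : ∀ x ∉ G0, x * x = 1 → Cl G0 so x)
    (up : ∀ Q ≤ ⊤ ⊓ C1 so, IsPGroup 2 Q → Nat.card Q ≤ 2 ^ 4) : ∃ σ σ' l u, Out ⊤ G0 σ σ' 9 l u :=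
  ⟨_, _, _, _, out_of ocl up⟩

end Cfsg.Lib.StdX.ON
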