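import Cfsg.Agent.StdX.OND2

/-!
# The derived group of the centraliser of an involution in the O'Nan group
-/

set_option autoImplicit false
set_option maxRecDepth 100000
set_option Elab.async false

namespace Cfsg.Lib.StdX.ON

open Subgroup Cfsg.Lib.Spor Cfsg.Lib.Spor.ONP Cfsg.Lib.Spor.WM Cfsg.Lib.Known Cfsg.Lib.Gold
open Cfsg.Lib.Known.PC
open Cfsg.Lib.Spor.WF (upd)
open scoped commutatorElement

theorem rig_of_gen {G : Type*} [Group G] {V : ℕ → G} {H K D : Subgroup G} {ys : List ℕ}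
    (h : Rig V H K D ys) (hy : ∀ c ∈ ys, V c ∈ D) (hD : D ≤ gn V ys) (xs : List ℕ) : Rig V H K D xs :=
  fun ψ hi hψ => by
  obtain ⟨g, hg, e⟩ := h ψ hi hψ
  refine ⟨g, hg, fun x _ => ?_⟩
  obtain ⟨y, k, a⟩ := gn_le (K := (ψ.eqLocus ((MulAut.conj g).toMonoidHom.comp D.subtype)).map D.subtype)
    (fun c hc => ⟨⟨V c, hy c hc⟩, e _ ⟨c, hc, rfl⟩, rfl⟩) (hD x.2)
  exact (show y = x from Subtype.ext a) ▸ k

/-- the derived group of the centraliser of `z` -/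
noncomputable abbrev DD : Subgroup Om := gn gd.V [11,12,15]

/-- strong generators of the centraliser of `z` -/
def v1s : List ℕ := [9,11,13,15,3716044,58187,62287,2945933,975195648779,1044939326159,54155,15220126603,1046012277583,4284606999491469,10]
/-- levels of a chain of the centraliser of `z` -/
def v1l : List ILev := [⟨37644, 0, 0, 8, [0,1,2,3]⟩, ⟨88321, 37645, 0, 4, [4,5,6,7]⟩, ⟨63680, 88322, 0, 2, [8,9,10,11,12]⟩, ⟨45947, 63681, 0, 1, [5]⟩, ⟨529, 0, 0, 1, [13]⟩, ⟨10, 0, 0, 1, [14]⟩]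
/-- strong generators of the centraliser of `z` -/
def v2s : List ℕ := [9,11,13,15,14163948363,906,3978190,14,839921234828,909681415117,3149979702846219,4284606999491469,10]
/-- levels of a chain of the centraliser of `z` -/
def v2l : List ILev := [⟨41930, 0, 0, 7, [0,1,2,3]⟩, ⟨73191, 41931, 0, 5, [4,5,6,7]⟩, ⟨68663, 73192, 0, 2, [8,9,10]⟩, ⟨529, 0, 0, 1, [11]⟩, ⟨10, 0, 0, 1, [12]⟩]
/-- strong generators of the centraliser of `z` -/
def v3s : List ℕ := [9,11,13,15,13072659148,14214034252,221311757,238351245,255116111,1044955067150,53822638060427,62413578752970,4284606999491469,10]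
/-- levels of a chain of the centraliser of `z` -/
def v3l : List ILev := [⟨6299, 0, 0, 7, [0,1,2,3]⟩, ⟨41930, 6300, 0, 4, [4,5,6,7,8]⟩, ⟨115499, 41931, 0, 2, [9,10,11]⟩, ⟨529, 0, 0, 1, [12]⟩, ⟨10, 0, 0, 1, [13]⟩]
/-- strong generators of the centraliser of `z` -/
def v4s : List ℕ := [9,11,13,15,14,3978187,205304715,62409318126284,62617656808398,4284606999491469,10]
/-- levels of a chain of the centraliser of `z` -/
def v4l : List ILev := [⟨28749, 0, 0, 8, [0,1,2,3]⟩, ⟨57999, 28750, 0, 6, [4,5,6]⟩, ⟨222059, 0, 0, 2, [5,7,8]⟩, ⟨529, 0, 0, 1, [9]⟩, ⟨10, 0, 0, 1, [10]⟩]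

theorem DD_le : DD ≤ G0 ⊓ C1 z := gn_le_inf gd V_mem (by decide +kernel)

theorem in_DD : ∀ c ∈ [58218536813258,3208014,14163440395], gd.V c ∈ DD :=
  ins [[0,4,2,0,4,0,2,4,2,0,4,2,0,2,0,4,2],[0,4,0,2,4,2,0,2,0,4,0,2,4,2,0,2,0,4,0],[4,0,4,2,0,2,4,0,2,0]] (by decide +kernel)

theorem rig1 : Rig gd.V G0 (C1 z) DD [14163440395] :=
  Rig.of_sylB gd hb (DD_le.trans inf_le_right) (p := 7) (by norm_num) (by rw [card_cz]; norm_num)
    (in_DD _ (by simp)) (Q := [0,0,3208077,66811675849673,3724236,66946934289353,254849993]) (by decide +kernel)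

theorem rig2 : Rig gd.V G0 (C1 z) DD [3208014,14163440395] :=
  have := normal_G0
  Rig.of_stepB gd hι hb V_mem card_cz_le rig1 (fun c hc => in_DD c (List.mem_cons_of_mem _ hc))
    ⟨.c 0, .pw (.c 0) 2, [.pw (.c 0) 3], [], [0,14163440395,256486117395460814,3158634094457679,4280342113207179,255364544701981646,12016472845], v1s, v1l⟩ (by decide +kernel)

theorem rig3 : Rig gd.V G0 (C1 z) DD [58218536813258,3208014,14163440395] :=
  have := normal_G0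
  Rig.of_stepB gd hι hb V_mem card_cz_le rig2 in_DD
    ⟨.c 0, .c 0, [.pw (.c 0) 3, .pw (.mul (.c 0) (.mul (.c 2) (.mul (.c 2) (.mul (.inv (.c 0)) (.inv (.c 2)))))) 3, .pw (.mul (.c 0) (.mul (.inv (.c 1)) (.mul (.c 2) (.mul (.inv (.c 0)) (.c 2))))) 4], [], [0,66741832037321], v2s, v2l⟩ (by decide +kernel)

theorem rig4 : Rig gd.V G0 (C1 z) DD [11,12,15] :=
  rig_of_gen rig3 in_DD (gn_mono [[5,3,0,4,1,4,1,5,1,5,0],[3,4,0,5,1,4,2,1,5,0],[4,3,1,5,2,1,4,0,4,0]] (by decide +kernel)) _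

theorem der_DD : ⁅⊤ ⊓ C1 z, ⊤ ⊓ C1 z⁆ ≤ DD := by
  rw [top_inf_eq, cz_eq]
  refine der_of_gn (fun c hc => ?_) fun a ha b hb => ?_
  · have k : lall (fun p : ℕ × List (List ℕ) => nrmB gT 6 63 base ι p.1 [11,12,15] p.2)
      [(9,[[2],[0],[4]]),(10,[[0],[2],[4]]),(11,[[0],[0,2,0],[0,4,0]]),(12,[[2,0,2],[2],[2,4,2]]),(13,[[4,2,4,2,0,2,0,4,2,4,2],[4,0,4,2,0,2,4,0,4],[4,0,2,4,2,4,0,4,2,4,2,0,4]]),(14,[[4,2,4,0,2,0,4,2,4],[4,0,4,2,0,2,0,4,0,4,0],[4,2,0,4,0,4,2,4,0,4,0,2,4]]),(15,[[4,0,4],[4,2,4],[4]])] = true := by decide +kernel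
    exact (List.forall_mem_map (f := Prod.fst) (P := fun c => gd.V c ∈ Ns DD)).2
      (fun p hp => of_nrmB gd hι (lall_iff.1 k p hp)) c hc
  · have k := ins (cs := [11,12,15]) (xs := [9,10,11,12,13,14,15].flatMap fun a =>
      [9,10,11,12,13,14,15].map fun b => (Tm.cm (.c 0) (.c 1)).code ι 6 63 (nth 0 [a, b]))
      [[],[],[2,0],[0,2],[4,2,0,4,0,2,4,0,2,4,2,0,4,2,0,4,0,2,4,0],[4,0,2,4,2,0,4,2,0,4,0,2,4,0,2,4,2,0,4,2],[],[],[],[],[],[],[],[],[0,2],[],[],[2,0,2,0],[0,4,2,4,2,0,2,0,4,2,4,2],[0,4,2,4,0,2,0,4,2,4],[0,4,0,4],[2,0],[],[2,0,2,0],[],[2,4,0,4,2,0,2,4,0,4],[2,4,0,4,2,0,2,0,4,0,4,0],[2,4,2,4],[4,0,2,4,2,0,4,2,0,4,0,2,4,0,2,4,2,0,4,2],[],[4,2,4,2,0,2,0,4,2,4,2,0],[4,0,4,2,0,2,4,0,4,2],[],[4,0,4,0,4,0,4,0],[4,0,2,4,2,4,0,4,2,4,2,0],[4,2,0,4,0,2,4,0,2,4,2,0,4,2,0,4,0,2,4,0],[],[4,2,4,0,2,0,4,2,4,0],[4,0,4,2,0,2,0,4,0,4,0,2],[4,0,4,0,4,0,4,0],[],[4,2,0,4,0,4,2,4,0,4,0,2],[],[],[4,0,4,0],[4,2,4,2],[0,2,4,2,4,0,4,2,4,2,0,4],[2,0,4,0,4,2,4,0,4,0,2,4],[]]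
      (by decide +kernel) _ (List.mem_flatMap.2 ⟨a, ha, List.mem_map_of_mem hb⟩)
    rwa [Tm.V_code gd hι fun _ => rfl] at k

theorem vg : VG ⊤ G0 DD (gn gd.V [45834,14146392780,3719885]) z so (gd.V 8079878799611383235946018641389301896)
    (so * gd.V 943856387832192157760226189078751883400 * so⁻¹) :=
  have := normal_G0
  vg_of gd hι hb V_mem card_cz_le DD_le der_DD
    (gn_mono [[4,0,4,0,4,0,4,2],[4,2,0,4,0,4,2,4,0,4,2,4,2,0,4,0,2],[4,0,4,0,2,4,2,0,4,2,4,0,4,0,2,4,0]] (by decide +kernel)) rig4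
    (P := [([0],[2]),([0],[4]),([2],[4])]) (L := [[4,0,4,2,4,0,4,2,0,2,4,0,4,2,4,0,4],[2,0,2,4,2,0,2,4,0,4,2,0,2,4,2,0,2],[2,4,2,0,2,4,0,4,2,0,4,2,0,2,4,0,2,4,0,4,2,0]]) (by decide +kernel)
    (Lz := [4,4,2,2,0,0]) (Lp := [[4,2,2,0,0],[2],[4,4,3,1]]) (Lq := [[2,1],[4,2,2,0],[5,0,0]]) (by decide +kernel)
    (Lx := [2,0]) (cs := v3s) (ls := v3l) (by decide +kernel)

/-- the elements `z, w, α, h, c, r₁, r₂` and the generators of `DD` -/
def hE : List ℕ := [10,4284606999491469,12956359918816649995,555289644521201229093543514655159194373537956101,3444580081787854,202438523787207627,202429796447998669,11,12,15,4280277672457101]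

theorem cs_gn {G : Type*} [Group G] {V : ℕ → G} {I : List ℕ} {a : G} (h : ∀ l ∈ I, Commute a (V l)) :
    a ∈ Cs (gn V I) := fun _ hx =>
  (mem_centralizer_singleton_iff.1 (gn_le (K := C1 a)
    (fun l hl => mem_centralizer_singleton_iff.2 (h l hl).symm) hx))

set_option maxHeartbeats 4000000 in
theorem hd : Hd ⊤ G0 DD (gn gd.V [202438523787207627,202429796447998669]) z (gd.V 4284606999491469) (gd.V 12956359918816649995)
    (gd.V 555289644521201229093543514655159194373537956101) (gd.V 3444580081787854) := by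
  obtain ⟨⟨a1, a2, a3, a4⟩, ⟨b1, b2, b3, b4⟩, ⟨c1, c2, c3, c4, c5⟩, ⟨d1, d2, d3⟩, e1⟩ := holds gd hι V_mem hb hE
    (.and (.and (.eq (.mul (.c 1) (.c 1)) (.c 0)) (.and (.com (.c 1) (.c 7)) (.and (.com (.c 1) (.c 8)) (.com (.c 1) (.c 9)))))
    (.and (.and (.inn (.c 2)) (.and (.com (.c 2) (.c 0)) (.and (.eq (.mul (.c 2) (.c 2)) .one)
      (.eq (.cj (.c 2) (.c 1)) (.inv (.c 1))))))
    (.and (.and (.inn (.c 3)) (.and (.com (.c 3) (.c 5)) (.and (.com (.c 3) (.c 6))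
      (.and (.eq (.cj (.c 3) (.c 0)) (.c 2)) (.eq (.cj (.c 3) (.c 2)) (.mul (.c 0) (.c 2)))))))
    (.and (.and (.inn (.c 4)) (.and (.com (.c 4) (.c 0)) (.eq (.cj (.c 4) (.mul (.c 2) (.c 1))) (.c 2))))
      (.eq (.c 10) (.inv (.c 1))))))) (by decide +kernel)
  obtain ⟨wD, r1D, r2D, xD, -⟩ := (by simpa only [List.forall_mem_cons] using (ins (cs := [11,12,15])
    (xs := [4284606999491469,202438523787207627,202429796447998669,973304212740088591115])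
    [[4,0,4,2,0,4,0,4,2,4,0,4,0,2,4,0,4,0,2,4,0,4,0,2,0],[2,4,0,4,2,4,0,2,0,4,2,4,0,4,0,2,0,4,2],[4,0,4,2,0,4,2,4,0,2,4,2,4,0,4,2,4,0,2,0],[4,0,4,2,0,2,4,0,2,0,4,0,4,2,0,2,4,0,2,0]] (by decide +kernel)) :)
  replace a1 : gd.V 4284606999491469 * gd.V 4284606999491469 = z := a1
  have zD : z ∈ DD := a1 ▸ DD.mul_mem wD wD
  refine ⟨wD, a1, cs_gn (by simpa only [List.forall_mem_cons] using ⟨a2, a3, a4, fun _ k => nomatch k⟩),
    fun d hd => ?_, ⟨b1, mem_centralizer_singleton_iff.2 b2⟩, b3, b4, ?_,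
    gn_le (by simpa only [List.forall_mem_cons] using ⟨r1D, r2D, fun _ k => nomatch k⟩),
    ⟨c1, cs_gn (by simpa only [List.forall_mem_cons] using ⟨c2, c3, fun _ k => nomatch k⟩)⟩, c4, c5,
    ⟨⟨d1, mem_centralizer_singleton_iff.2 d2⟩, of_nrmB gd hι (L := [[2],[1]]) (by decide +kernel)⟩, d3,
    fun e he => ?_⟩
  · have k : ∀ u ∈ DD, Commute d u := fun u hu => (mem_centralizer_iff.1 hd.2 u hu).symm
    obtain ⟨l, hl, rfl⟩ := dcen gd hι card_cz_le (cs := v1s) (ls := v1l) (cx := 973304212740088591115)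
      (us := [11,12,15]) (L := [0,4284606999491469,10,4280277672457101]) (tp := base) (by decide +kernel) d (k _ zD) (k _ xD)
      fun u hu => k _ (mem_gn _ hu)
    simp only [List.mem_cons, List.not_mem_nil, or_false] at hl
    rcases hl with rfl | rfl | rfl | rfl
    · exact (V_zero gd).symm ▸ one_mem _
    · exact mem_zpowers _
    · exact (show gd.V 4284606999491469 * gd.V 4284606999491469 = gd.V 10 from a1) ▸ mul_mem (mem_zpowers _) (mem_zpowers _)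
    · exact (show gd.V 4280277672457101 = (gd.V 4284606999491469)⁻¹ from e1).symm ▸ inv_mem (mem_zpowers _)
  · exact c0_eq.le.trans ((gn_mono (cs := [12956359918816649995,11,12,15]) [[6,0,2,0],[2],[4],[0,4,0,6,4,6,2,0,4,6,0,4,0],[2,0,2,4,6,2,6,4,6,4,2,4,0,4,0],[6]]
      (by decide +kernel)).trans ((gn_cons _ _ _).trans (sup_comm _ _)).le)
  · have k2 : Commute e (gd.V 12956359918816649995) := mem_centralizer_singleton_iff.1 he.2
    rcases holds_cen gd hι V_mem hb card_cz_le (cs := v4s) (ls := v4l) hE 2 20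
      (.or (.ncom (.c 20) (.c 2)) (.or (.ne (.cj (.c 20) (.c 5)) (.cj (.c 4) (.c 5)))
        (.ne (.cj (.c 20) (.c 6)) (.cj (.c 4) (.c 6))))) (by decide +kernel) e
      (mem_centralizer_singleton_iff.1 he.1.2) k2 with k | k | k
    · exact absurd k2 k
    · exact ⟨_, mem_gn _ List.mem_cons_self, k⟩
    · exact ⟨_, mem_gn _ (List.mem_cons_of_mem _ List.mem_cons_self), k⟩

theorem vf : ∃ D V γ m k, VG ⊤ G0 D V z γ m k ∧ Fn ⊤ G0 D z :=
  ⟨_, _, _, _, _, vg, Or.inr ⟨_, _, _, _, _, hd⟩⟩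

end Cfsg.Lib.StdX.ON
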