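import Cfsg.Agent.StdX.ONS
import Cfsg.Agent.StdX.ONO
import Cfsg.Agent.StdX.ONV
import Cfsg.Agent.StdX.ONC

/-! All facts on the automorphism group of the O'Nan group. -/

set_option autoImplicit false

namespace Cfsg.Lib.StdX.ON

theorem mod : Mod3 ⊤ G0 :=
  let ⟨T, b⟩ := bas
  ⟨T, z, y, 9, b, Or.inl rfl, out ocl up, vf, clq⟩

end Cfsg.Lib.StdX.ON
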