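import Cfsg.Agent.StdX.SuzD
import Cfsg.Agent.StdX.DK2

/-! The centraliser of the outer involution. -/

set_option autoImplicit false
set_option maxRecDepth 100000

namespace Cfsg.Lib.StdX.Suz

open Subgroup Cfsg.Lib.Spor Cfsg.Lib.Spor.WM Cfsg.Lib.Known Cfsg.Lib.Known.PC Cfsg.Lib.Gold
open Cfsg.Lib.Spor.SuzP (ρ g0 base)

theorem cso_le : Nat.card (centralizer {so}) ≤ 380160 :=
  card_cen_of_cenO (gd.hasF hι) (gd.fm_in [1,2,3,4,5,6,7,8,2286388795085,587981194819,2222235141124,2828912929115,361908152155,721809909349,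
    2172617762270,2766050559747,6819944718,364537323785,1608894960425,2499060537030,1139311489683,
    2508299506323,861753930566,1787870962627,1042205701379,134803592,2220521169509,2304472634903,
    319560620571,2560228714567,2230205145292,625540237700,634757108685,2827450418345,43135550184,
    22146996755,22147254803]) card_Om.le
    (ls := [⟨970, 0, 0, 7, [0,1,2,3,4,5,6,7]⟩, ⟨2752, 971, 0, 4, [8,9,10,11,12,13,14,15]⟩, ⟨598, 0, 0, 4, [16,
    17,18,19,20,21,22,23]⟩, ⟨2380, 599, 0, 4, [24,25,26,27,28,29,30,31]⟩, ⟨791, 0, 0, 1, [32,33,34]⟩,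
     ⟨2573, 792, 0, 1, [35,36]⟩]) (cz := 8) rfl (by decide +kernel)
/-- letters generating the centraliser -/
def csoI : List ℕ := [8,9,36,37,38,39,40,41]
theorem csoI_eq_1' : type_of% @csoI.eq_1 := @csoI.eq_1
/-- strong generators of the centraliser -/
def csos : List ℕ := [36,39,8,41483131364,38816612968,682003048,697997801,174380648135014,2518589532773]
theorem csos_eq_1' : type_of% @csos.eq_1 := @csos.eq_1
/-- a chain of the centraliser -/
def csol : List ILev := [⟨744, 0, 0, 14, [0,1,2]⟩, ⟨2087, 0, 0, 4, [3]⟩, ⟨1201, 0, 0, 2, [4]⟩, ⟨1214, 0, 0, 2, [5,6]⟩, ⟨3561,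
     0, 0, 2, [7,8]⟩]
theorem csol_eq_1' : type_of% @csol.eq_1 := @csol.eq_1
theorem cso_spec : Nat.card (centralizer {so}) = 380160 ∧ centralizer {so} = gn gd.V csoI :=
  cen_eq gd hι cso_le (cs := csos) (ls := csol) (by decide +kernel)
theorem card_cso : Nat.card (centralizer {so}) = 380160 := cso_spec.1
theorem cso_eq : centralizer {so} = gn gd.V csoI := cso_spec.2
theorem csos_in : ∀ c ∈ csos, gd.fm.In (centralizer {so}) c :=
  in_cen (gd.hasF hι) (gd.fm_in _) (cz := 8) rfl (by decide +kernel)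
theorem card_c0so : Nat.card ↥(G0 ⊓ C1 so) = 190080 := by
  have := card_two (K := C1 so) (cso_eq.ge (mem_gn gd.V (by decide : 8 ∈ csoI)))
    (fun h => absurd ((V_mem 8).1 h) (by decide +kernel))
  rw [card_cso] at this
  omega

end Cfsg.Lib.StdX.Suz
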