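import Cfsg.Agent.StdX.SuzD
import Cfsg.Agent.StdX.OutK

/-!
# Outer involutions of the automorphism group of the group of degree 1782
-/

set_option autoImplicit false
set_option maxRecDepth 100000

namespace Cfsg.Lib.StdX.Suz

open Subgroup Cfsg.Lib.Gold Cfsg.Lib.StdX.OutK
open Cfsg.Lib.StdM (Cl)

theorem of_so : OF G0 7 so :=
  ofP_sem (holds [8, 3466057, 237822601, 37818086280, 220250760, 254849993, 221041353, 9, 9, 221041353,
    550423258338596327817, 2332442760275051959300, 33499830631815087813] (ofP 0 [1, 2, 3, 4, 5, 6, 7]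
    [[[], [0, 2, 4, 6, 8], [2], [6, 10], [4, 10], [8, 10], [10]], [[], [0, 6], [2, 8], [4, 6], [6], [8]],
      [[], [0, 4], [2, 4, 6], [4], [6]], [[], [0], [2], [4]], [[], [0], [2]], [[], [0]], [[]]] 8 9 10 11 12)
    (by decide +kernel))

theorem of_sp : OF G0 7 sp :=
  ofP_sem (holds [35, 37752812490, 271381519, 8794186312, 221303497, 3191433, 9, 3453771, 3453771, 9,
    130068810362651012, 32487907870773358860, 2003912763425428624133] (ofP 0 [1, 2, 3, 4, 5, 6, 7]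
    [[[], [4, 10], [6, 8], [0, 10], [2, 8], [8], [10]], [[], [0], [2, 8], [4, 6], [6], [8]],
      [[], [0, 4], [2, 4, 6], [4], [6]], [[], [0], [2], [4]], [[], [0], [2]], [[], [0]], [[]]] 8 9 10 11 12)
    (by decide +kernel))

theorem up_of_card (h : Nat.card (C1 so) = 380160) :
    ∀ Q ≤ ⊤ ⊓ C1 so, IsPGroup 2 Q → Nat.card Q ≤ 2 ^ 8 := fun Q hQ h2 => by
  obtain ⟨a, ha⟩ := IsPGroup.iff_card.1 h2
  have k := card_dvd_of_le (hQ.trans inf_le_right)
  rw [h, ha, show 380160 = 2 ^ 8 * 1485 from rfl] at k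
  rw [ha]
  exact Nat.le_of_dvd (by decide) (Nat.Coprime.dvd_of_dvd_mul_right (Nat.Coprime.pow_left a (by decide)) k)

theorem out_so (ocl : ∀ x, x ∉ G0 → x * x = 1 → Cl G0 so x ∨ Cl G0 sp x)
    (up : ∀ Q ≤ ⊤ ⊓ C1 so, IsPGroup 2 Q → Nat.card Q ≤ 2 ^ 8) : Out ⊤ G0 so sp 13 7 8 where
  σΓ := trivial
  σ0 := so_not
  σ2 := so_eq ▸ Dbl.so_so
  ocl := fun x _ => ocl x
  of := of_so
  of' := of_sp
  up := up
  ind := Or.inl (by decide)
  n1 := by decide
  n2 := by decide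
  n3 := by decide

theorem out_of (ocl : ∀ x, x ∉ G0 → x * x = 1 → Cl G0 so x ∨ Cl G0 sp x)
    (h : Nat.card (C1 so) = 380160) : ∃ σ σ' l u, Out ⊤ G0 σ σ' 13 l u :=
  ⟨_, _, _, _, out_so ocl (up_of_card h)⟩

end Cfsg.Lib.StdX.Suz
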