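import Cfsg.Agent.StdX.SuzS
import Cfsg.Agent.StdX.SuzY
import Cfsg.Agent.StdX.SuzO
import Cfsg.Agent.StdX.SuzV
import Cfsg.Agent.StdX.SuzC
import Cfsg.Agent.StdX.SuzD3

/-! All facts on the automorphism group of the sporadic Suzuki group. -/

set_option autoImplicit false

namespace Cfsg.Lib.StdX.Suz

theorem mod : Mod3 ⊤ G0 :=
  let ⟨T, b⟩ := bas
  ⟨T, z, y, 13, b, yd b, out_of ocl card_cso, vf0 card_cz, clq⟩

end Cfsg.Lib.StdX.Suz
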