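import Cfsg.Agent.StdX.Basic
import Cfsg.Agent.StdW.Dg

/-!
# Standard subgroups with two classes of involutions: fusion to the central class
-/

set_option autoImplicit false

namespace Cfsg.Lib.StdX

open Subgroup Cfsg.Lib.Gold Cfsg.Lib.Trans Cfsg.Lib.StdSz Cfsg.Lib.StdW
open Cfsg.Lib.StdM (Cl Tr)
open scoped commutatorElement

variable {G Ω : Type*} [Group G] [Group Ω] [Finite G] [Finite Ω] {Γ Γ0 T : Subgroup Ω} {z y : Ω} {n : ℕ}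
  {A O B : Subgroup G} {ρ ρ' : G → Ω} {t : G}

namespace Sw1

omit [Finite G] [Finite Ω] in
theorem img_der (h : Mdl Γ Γ0 A ρ) {H : Subgroup G} (hH : H ≤ Ns A) {J : Subgroup Ω}
    (hJ : ∀ u ∈ H, ρ u ∈ J) {u : G} (hu : u ∈ ⁅H, H⁆) : ρ u ∈ ⁅J, J⁆ := by
  have : ⁅H, H⁆ ≤ ((⁅J, J⁆).comap h.hom).map (Ns A).subtype := commutator_le.2 fun a ha b hb =>
    ⟨⁅(⟨a, hH ha⟩ : Ns A), (⟨b, hH hb⟩ : Ns A)⁆, by
      change ρ ⁅a, b⁆ ∈ ⁅J, J⁆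
      rw [h.comm (hH ha) (hH hb)]
      exact commutator_mem_commutator (hJ a ha) (hJ b hb), rfl⟩
  obtain ⟨v, hv, rfl⟩ := this hu
  exact hv

omit [Finite G] [Finite Ω] in
theorem lift1 (h : Mdl Γ Γ0 A ρ) (hZ : A ⊓ Cs A = ⊥) {η : G} (hη : η ∈ A) {γ : Ω}
    (hγ : γ ∈ Γ0 ⊓ C1 (ρ η)) : ∃ a ∈ A ⊓ C1 η, ρ a = γ := by
  obtain ⟨a, ha, rfl⟩ := h.surj γ hγ.1
  exact ⟨a, ⟨ha, StdSz.mem_C1.2 (comm_of h hZ (le_normalizer ha) hη (StdSz.mem_C1.1 hγ.2))⟩, rfl⟩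

omit [Finite G] [Finite Ω] in
theorem lift2 (h : Mdl Γ Γ0 A ρ) (hZ : A ⊓ Cs A = ⊥) {η : G} (hη : η ∈ A) {γ : Ω}
    (hγ : γ ∈ ⁅Γ0 ⊓ C1 (ρ η), Γ0 ⊓ C1 (ρ η)⁆) : ∃ a ∈ ⁅A ⊓ C1 η, A ⊓ C1 η⁆, ρ a = γ := by
  have : ⁅Γ0 ⊓ C1 (ρ η), Γ0 ⊓ C1 (ρ η)⁆ ≤ h.img ⁅A ⊓ C1 η, A ⊓ C1 η⁆ :=
    commutator_le.2 fun a ha0 b hb0 => by
      obtain ⟨a, ha, rfl⟩ := lift1 h hZ hη ha0
      obtain ⟨b, hb, rfl⟩ := lift1 h hZ hη hb0
      have k := commutator_mem_commutator ha hb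
      exact h.mem_img.2 ⟨_, k, le_normalizer (commutator_le_self _ k).1,
        h.comm (le_normalizer ha.1) (le_normalizer hb.1)⟩
  obtain ⟨a, ha, -, e⟩ := h.mem_img.1 (this hγ)
  exact ⟨a, ha, e⟩

theorem core {E P : Subgroup Ω} {f f' e τ g w : Ω} {A' : Subgroup G} {η d : G}
    (b : Bas Γ Γ0 T z y n) (yf : YF Γ Γ0 E P z y f f' e τ g w) (h : Mdl Γ Γ0 A ρ)
    (hZ : A ⊓ Cs A = ⊥) (m : Mdl Γ Γ0 A' ρ') (hZ' : A' ⊓ Cs A' = ⊥) (hη : η ∈ A) (ey : ρ η = y)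
    (hd : A ⊓ C1 η ≤ C1 d) (cN : C1 d ≤ Ns A') (dK : d ∈ Cs A') (d2 : d * d = 1) (dA : d ∉ A)
    (two : ∀ u ∈ Cs A', u ∈ C1 d → ∀ k, u ^ 2 ^ k = 1 → u = 1 ∨ u = d) :
    ∃ a ∈ A', Cl Γ0 z (ρ' a) ∧ Cl A η (η * a) := by
  subst ey
  have hN := hd.trans cN
  have N : ∀ {a}, a ∈ A → a ∈ Ns A := fun ha => le_normalizer ha
  have o : ∀ {a}, a ∈ A → ρ a = 1 → a = 1 := fun ha e => inj h hZ ha (one_mem _) (e.trans h.one.symm)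
  have tw : ∀ u ∈ A ⊓ C1 η, ρ' u = 1 → ρ u * ρ u = 1 → ρ u = 1 := fun u hu e e2 => by
    rcases two u ((m.ker u (hN hu)).1 e) (hd hu) 1 (by
      rw [pow_one, pow_two]
      exact o (mul_mem hu.1 hu.1) ((h.mul _ (N hu.1) _ (N hu.1)).trans e2)) with rfl | rfl
    · exact h.one
    · exact absurd hu.1 dA
  have hη' : η ∈ A ⊓ C1 η := ⟨hη, StdSz.mem_C1.2 (Commute.refl η)⟩
  have der0 : ∀ u ∈ ⁅A ⊓ C1 η, A ⊓ C1 η⁆, ρ' u ∈ Γ0 := fun u hu =>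
    (commutator_le.2 fun a ha c hc => b.cmm_mem ha hc)
      (img_der m hN (fun u hu => m.memΓ u (hN hu)) hu)
  have η2 : η * η = 1 := o (mul_mem hη hη) ((h.mul _ (N hη) _ (N hη)).trans b.y2)
  have y0 : ρ' η ∈ Γ0 := by
    obtain ⟨a, ha, e⟩ := lift2 h hZ hη (commutator_mono (inf_le_inf_right _ b.T0)
      (inf_le_inf_right _ b.T0) b.yder)
    exact inj h hZ (commutator_le_self _ ha).1 hη e ▸ der0 a ha
  have key : ∀ j ∈ A ⊓ C1 η, Nc Γ0 z (ρ η) (ρ j) → ρ' j ≠ 1 := fun j hj nc e1 => by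
    obtain ⟨a, ha, c, -, e2⟩ := nc (h.img (A ⊓ C1 η ⊓ Cs A'))
      (h.mem_img.2 ⟨j, ⟨hj, (m.ker j (hN hj)).1 e1⟩, N hj.1, rfl⟩) fun γ hγ => by
        obtain ⟨c, hc, rfl⟩ := lift1 h hZ hη hγ
        refine mem_normalizer_of_cj_le (cj_le_iff.2 fun δ hδ => ?_)
        obtain ⟨i, hi, -, rfl⟩ := h.mem_img.1 hδ
        have k := mul_mem (mul_mem hc hi.1) (inv_mem hc)
        refine h.mem_img.2 ⟨c * i * c⁻¹, ⟨k, (m.ker _ (hN k)).1 ?_⟩, N k.1, h.conj (N hc.1) (N hi.1.1)⟩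
        rw [m.conj (hN hc) (hN hi.1), (m.ker _ (hN hi.1)).2 hi.2, mul_one, mul_inv_cancel]
    obtain ⟨i, hi, -, rfl⟩ := h.mem_img.1 ha
    exact b.z1 (conj_eq_one_iff.1 (e2.trans (tw i hi.1 ((m.ker _ (hN hi.1)).2 hi.2) (by
      rw [← e2, conj_mul, b.z2, mul_one, mul_inv_cancel]))))
  have nz : ∀ (f : Ω) (p : ℕ), f ∈ Γ0 ⊓ Cs E → f ^ p = 1 → Nc Γ0 z (ρ η) f →
      (∀ x ∈ Γ ⊓ C1 z, x ^ p = 1 → x = 1) → ¬ Cl Γ0 z (ρ' η) := by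
    rintro f p hf fp nc hx ⟨c, hc, e1⟩
    obtain ⟨j, hj, rfl⟩ := lift1 h hZ hη ⟨hf.1, StdSz.mem_C1.2 (StdSz.mem_Cs.1 hf.2 _ yf.yE)⟩
    have jp : j ^ p = 1 := o (pow_mem hj.1 p) ((h.pow (N hj.1) p).trans fp)
    refine key j hj nc (conj_eq_one_iff.1 (hx (c⁻¹ * ρ' j * c⁻¹⁻¹) (mem_inf.2 ⟨mul_mem (mul_mem
      (inv_mem (b.le hc)) (m.memΓ _ (hN hj))) (inv_mem (inv_mem (b.le hc))), StdSz.mem_C1.2 ?_⟩) ?_))
    · have := commute_conj (m.commute (hN hj) (hN hη') (StdSz.mem_C1.1 hj.2)) c⁻¹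
      rwa [← e1, show c⁻¹ * (c * z * c⁻¹) * c⁻¹⁻¹ = z by group] at this
    · rw [conj_pow, ← m.pow (hN hj), jp, m.one, mul_one, mul_inv_cancel]
  obtain ⟨c, hc, ec⟩ : Cl Γ0 (ρ η) (ρ' η) := by
    rcases b.cls _ y0 (by rw [← m.mul _ (hN hη') _ (hN hη'), η2, m.one]) with e1 | e1 | e1
    · exact absurd (tw η hη' e1 b.y2) b.y1
    · exact absurd e1 (yf.nz.elim (nz f 5 yf.f0 yf.f5 yf.nf) (nz f' 7 yf.f0' yf.f7 yf.nf'))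
    · exact e1
  have der1 : ∀ u ∈ ⁅A ⊓ C1 η, A ⊓ C1 η⁆, c⁻¹ * ρ' u * c ∈ ⁅Γ ⊓ C1 (ρ η), Γ ⊓ C1 (ρ η)⁆ := by
    intro u hu
    rw [← mem_cj, cj_commutator]
    refine img_der m hN (fun u hu => mem_cj.2 (mem_inf.2 ⟨mul_mem (mul_mem (inv_mem (b.le hc))
      (m.memΓ _ (hN hu))) (b.le hc), StdSz.mem_C1.2 ?_⟩)) hu
    have := commute_conj (m.commute (hN hu) (hN hη') (StdSz.mem_C1.1 hu.2)) c⁻¹
    rwa [← ec, show c⁻¹ * (c * ρ η * c⁻¹) * c⁻¹⁻¹ = ρ η by group, inv_inv] at this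
  obtain ⟨g, hg, rfl⟩ := lift2 h hZ hη yf.g0
  obtain ⟨w, hw, rfl⟩ := lift2 h hZ hη yf.w0
  have hg1 := commutator_le_self _ hg
  have hw1 := commutator_le_self _ hw
  have hgg := mul_mem hg1 hg1
  have egg := h.mul _ (N hg1.1) _ (N hg1.1)
  have egg' := m.mul _ (hN hg1) _ (hN hg1)
  have g4 : g * g * (g * g) = 1 :=
    o (mul_mem hgg.1 hgg.1) (by rw [h.mul _ (N hgg.1) _ (N hgg.1), egg, yf.g4])
  have e0 : c⁻¹ * ρ' g * c * (c⁻¹ * ρ' g * c) = c⁻¹ * ρ' (g * g) * c := by rw [egg']; group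
  rcases yf.sq _ (der1 g hg) (by
    rw [e0, show ∀ x, c⁻¹ * x * c * (c⁻¹ * x * c) = c⁻¹ * (x * x) * c from fun x => by group,
      ← m.mul _ (hN hgg) _ (hN hgg), g4, m.one, mul_one, inv_mul_cancel]) with e1 | ⟨k, hk, e1⟩
  · have k := commutator_le_self _ (commutator_mem_commutator hgg hw1)
    have e2 : ρ ⁅g * g, w⁆ = ⁅ρ g * ρ g, ρ w⁆ := by rw [h.comm (N hgg.1) (N hw1.1), egg]
    refine absurd (e2 ▸ tw _ k ?_ (e2 ▸ yf.gw2)) yf.gw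
    rw [m.comm (hN hgg) (hN hw1), commutatorElement_eq_one_iff_commute]
    have := commute_conj (StdSz.mem_Cs.1 (yf.dE (der1 w hw)) _ e1).symm c
    rwa [e0, show ∀ x, c * (c⁻¹ * x * c) * c⁻¹ = x from fun x => by group,
      show ∀ x, c * (c⁻¹ * x * c) * c⁻¹ = x from fun x => by group] at this
  refine ⟨g * g, ?_, ⟨c * k, mul_mem hc hk, by
    rw [show c * k * z * (c * k)⁻¹ = c * (k * z * k⁻¹) * c⁻¹ by group, e1, e0]; group⟩, ?_⟩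
  · obtain ⟨a, ha, hk⟩ := (m.inner (hN hg1)).1 (der0 g hg)
    have c1 : Commute (a⁻¹ * g) a := StdSz.mem_Cs.1 hk a ha
    have e2 : g = a * (a⁻¹ * g) := by group
    have e3 : (a⁻¹ * g) ^ 2 ^ 2 = 1 := by
      refine mem_bot.1 (hZ'.le ⟨?_, pow_mem hk _⟩)
      have : a ^ 4 * (a⁻¹ * g) ^ 4 = 1 := by
        rw [← c1.symm.mul_pow, ← e2, ← g4]; simp only [pow_succ, pow_zero, one_mul, mul_assoc]
      change (a⁻¹ * g) ^ 4 ∈ A'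
      rw [eq_inv_of_mul_eq_one_right this]
      exact inv_mem (pow_mem ha 4)
    have e4 : (a⁻¹ * g) ^ 2 = 1 := by
      rcases two _ hk (mul_mem (inv_mem (StdSz.mem_C1.2 (StdSz.mem_Cs.1 dK a ha).symm)) (hd hg1))
        2 e3 with e | e
      · rw [e, one_pow]
      · rw [e, pow_two, d2]
    rw [← pow_two, e2, c1.symm.mul_pow, e4, mul_one]
    exact pow_mem ha 2
  · obtain ⟨k, hk0, e2⟩ := yf.yg
    obtain ⟨k, hk, rfl⟩ := h.surj k hk0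
    exact ⟨k, hk, conj_of h hZ (N hk) hη (mul_mem hη hgg.1) (by
      rw [e2, h.mul _ (N hη) _ (N hgg.1), egg])⟩

end Sw1

theorem fus_z (b : Bas Γ Γ0 T z y n) (yd : YD Γ Γ0 z y) (h : Mdl Γ Γ0 A ρ) (hZ : A ⊓ Cs A = ⊥)
    (s : St A O t) : ∃ a ∈ A, Cl Γ0 z (ρ a) ∧ IsConj t (t * a) := by
  obtain ⟨a, ha, a1, hc⟩ := s.fus
  have ta : ∀ {a}, a ∈ A → Commute t a := fun ha => StdSz.mem_Cs.1 s.tA _ ha
  have sq : ∀ {x d}, x * t * x⁻¹ = d → d * d = 1 := by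
    rintro x _ rfl
    rw [conj_mul, s.tt, mul_one, mul_inv_cancel]
  have a2 : a * a = 1 := by
    obtain ⟨x, hx⟩ := isConj_iff.1 hc
    have := sq hx
    rwa [mul_assoc, ← mul_assoc a, ← (ta ha).eq, ← mul_assoc, ← mul_assoc, s.tt, one_mul] at this
  rcases b.cls _ (h.mem a ha) (by rw [← h.mul _ (le_normalizer ha) _ (le_normalizer ha), a2, h.one])
    with e | e | ⟨c, c1, e⟩
  · exact absurd (inj h hZ ha (one_mem _) (e.trans h.one.symm)) a1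
  · exact ⟨a, ha, e, hc⟩
  rcases yd with rfl | ⟨E, P, f, f', e', τ, g, w, yf⟩
  · exact ⟨a, ha, ⟨c, c1, e⟩, hc⟩
  obtain ⟨c, c0, rfl⟩ := h.surj c c1
  obtain ⟨η, hη, ey⟩ := h.surj y b.y0
  obtain rfl : c * η * c⁻¹ = a := conj_of h hZ (le_normalizer c0) hη ha (ey ▸ e)
  have cj1 : ∀ {c u}, c ∈ A → c * (t * u) * c⁻¹ = t * (c * u * c⁻¹) := fun hc => by
    rw [← mul_assoc, ← (ta hc).eq]; group
  obtain ⟨x, hx⟩ := isConj_iff.1 (hc.trans (isConj_iff.2 ⟨c, cj1 c0⟩).symm)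
  have C : ∀ {u}, u ∈ C1 (t * η) → x⁻¹ * u * x ∈ C1 t := fun hu => by
    have := commute_conj (StdSz.mem_C1.1 hu) x⁻¹
    rw [← hx, show x⁻¹ * (x * t * x⁻¹) * x⁻¹⁻¹ = t by group, inv_inv] at this
    exact StdSz.mem_C1.2 this
  obtain ⟨a, ha, e1, k, hk, e2⟩ := Sw1.core (d := t * η) b yf h hZ (h.cjg x)
    (by rw [← StdJ4.cj_Cs, ← cj_inf, hZ, cj_bot]) hη ey
    (fun u hu => StdSz.mem_C1.2 ((ta hu.1).symm.mul_right (StdSz.mem_C1.1 hu.2)))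
    (fun u hu => by rw [← StdJ4.cj_Ns, mem_cj]; exact s.cN (C hu))
    (by rw [← StdJ4.cj_Cs, ← hx]; exact conj_mem_cj.2 s.tA) (sq hx)
    (fun e => s.nc _ e (isConj_iff.2 ⟨x, hx⟩)) fun u hu hu' k e => by
      rw [← StdJ4.cj_Cs, mem_cj] at hu
      refine (s.two_elt hu (C hu') (k := k) (by
        rw [show x⁻¹ * u * x = x⁻¹ * u * x⁻¹⁻¹ by rw [inv_inv], conj_pow, e]; group)).imp
        (fun e => ?_) fun e => ?_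
      · calc u = x * (x⁻¹ * u * x) * x⁻¹ := by group
          _ = 1 := by rw [e]; group
      · rw [← hx, ← e]; group
  refine ⟨_, mem_cj.1 ha, e1, isConj_iff.2 ⟨x⁻¹ * k * x, ?_⟩⟩
  calc x⁻¹ * k * x * t * (x⁻¹ * k * x)⁻¹ = x⁻¹ * (k * (x * t * x⁻¹) * k⁻¹) * x := by group
    _ = x⁻¹ * (t * η * a) * x := by rw [hx, cj1 hk, e2, mul_assoc t]
    _ = _ := by rw [← hx]; group

end Cfsg.Lib.StdX
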