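import Cfsg.Agent.StdX.Sw1

/-!
# Standard subgroups with two classes of involutions: fusion to the central class, odd centre allowed
-/

set_option autoImplicit false

namespace Cfsg.Lib.StdX

open Subgroup Cfsg.Lib.Gold Cfsg.Lib.Trans Cfsg.Lib.StdSz Cfsg.Lib.StdW
open Cfsg.Lib.StdM (Cl Tr)
open scoped commutatorElement

variable {G Ω : Type*} [Group G] [Group Ω] [Finite G] [Finite Ω] {Γ Γ0 T : Subgroup Ω} {z y : Ω} {n : ℕ}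
  {A O B : Subgroup G} {ρ ρ' : G → Ω} {t : G}

namespace Sw1b

open Sw1 (img_der)

omit [Finite Ω] in
theorem two_part (h : Mdl Γ Γ0 A ρ) {K : Subgroup G} (hK : K ≤ A) {a : G} (ha : a ∈ K) (k : ℕ)
    (e : ρ a ^ 2 ^ k = 1) : ∃ a' ∈ K, ρ a' = ρ a ∧ a' ^ 2 ^ k = 1 := by
  have N : a ∈ Ns A := le_normalizer (hK ha)
  have h1 := h.odd_of_mem (pow_mem (hK ha) (2 ^ k)) ((h.ker _ (pow_mem N _)).1 ((h.pow N _).trans e))
  obtain ⟨r, hr⟩ := exists_pow_eq_self_of_coprime (x := ρ a) (n := orderOf (a ^ 2 ^ k))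
    ((Nat.coprime_two_right.2 h1).pow_right k |>.coprime_dvd_right (orderOf_dvd_of_pow_eq_one e))
  refine ⟨(a ^ orderOf (a ^ 2 ^ k)) ^ r, pow_mem (pow_mem ha _) _, ?_, ?_⟩
  · rw [h.pow (pow_mem N _), h.pow N, hr]
  · rw [pow_right_comm, pow_right_comm a, pow_orderOf_eq_one, one_pow]

omit [Finite Ω] in
theorem ppow {J : Subgroup Ω} {p : ℕ} (hx : ∀ x ∈ J, x ^ p = 1 → x = 1) {x : Ω} (h : x ∈ J) (l : ℕ)
    (e : x ^ p ^ l = 1) : x = 1 := by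
  induction l with
  | zero => simpa using e
  | succ l ih => exact ih (hx _ (pow_mem h _) (by rw [← pow_mul, ← pow_succ, e]))

omit [Finite Ω] in
theorem lift1 (h : Mdl Γ Γ0 A ρ) {η : G} (hη : η ∈ A) (η2 : η ^ 2 ^ 1 = 1) {γ : Ω}
    (hγ : γ ∈ Γ0 ⊓ C1 (ρ η)) : ∃ a ∈ A ⊓ C1 η, ρ a = γ := by
  obtain ⟨a, ha, rfl⟩ := h.surj γ hγ.1
  exact ⟨a, ⟨ha, StdSz.mem_C1.2 (h.comm_of (le_normalizer ha) hη η2 (StdSz.mem_C1.1 hγ.2))⟩, rfl⟩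

omit [Finite Ω] in
theorem lift2 (h : Mdl Γ Γ0 A ρ) {η : G} (hη : η ∈ A) (η2 : η ^ 2 ^ 1 = 1) {γ : Ω}
    (hγ : γ ∈ ⁅Γ0 ⊓ C1 (ρ η), Γ0 ⊓ C1 (ρ η)⁆) : ∃ a ∈ ⁅A ⊓ C1 η, A ⊓ C1 η⁆, ρ a = γ := by
  have : ⁅Γ0 ⊓ C1 (ρ η), Γ0 ⊓ C1 (ρ η)⁆ ≤ h.img ⁅A ⊓ C1 η, A ⊓ C1 η⁆ :=
    commutator_le.2 fun a ha0 b hb0 => by
      obtain ⟨a, ha, rfl⟩ := lift1 h hη η2 ha0
      obtain ⟨b, hb, rfl⟩ := lift1 h hη η2 hb0
      have k := commutator_mem_commutator ha hb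
      exact h.mem_img.2 ⟨_, k, le_normalizer (commutator_le_self _ k).1,
        h.comm (le_normalizer ha.1) (le_normalizer hb.1)⟩
  obtain ⟨a, ha, -, e⟩ := h.mem_img.1 (this hγ)
  exact ⟨a, ha, e⟩

theorem core {E P : Subgroup Ω} {f f' e τ g w : Ω} {A' : Subgroup G} {η d : G}
    (b : Bas Γ Γ0 T z y n) (yf : YF Γ Γ0 E P z y f f' e τ g w) (h : Mdl Γ Γ0 A ρ)
    (m : Mdl Γ Γ0 A' ρ') (hη : η ∈ A) (η2 : η * η = 1) (ey : ρ η = y)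
    (hd : A ⊓ C1 η ≤ C1 d) (cN : C1 d ≤ Ns A') (dK : d ∈ Cs A') (d2 : d * d = 1) (dA : d ∉ A)
    (two : ∀ u ∈ Cs A', u ∈ C1 d → ∀ k, u ^ 2 ^ k = 1 → u = 1 ∨ u = d) :
    ∃ a ∈ A', a * a = 1 ∧ Cl Γ0 z (ρ' a) ∧ Cl A η (η * a) := by
  subst ey
  have hN := hd.trans cN
  have N : ∀ {a}, a ∈ A → a ∈ Ns A := fun ha => le_normalizer ha
  have η3 : η ^ 2 ^ 1 = 1 := by rw [pow_one, pow_two, η2]
  have tw : ∀ u ∈ A ⊓ C1 η, ρ' u = 1 → ρ u * ρ u = 1 → ρ u = 1 := fun u hu e e2 => by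
    obtain ⟨u, hu, e3, e4⟩ := two_part h (K := A ⊓ C1 η ⊓ Cs A') (inf_le_left.trans inf_le_left)
      ⟨hu, (m.ker u (hN hu)).1 e⟩ 1 (by rw [pow_one, pow_two, e2])
    rcases two u hu.2 (hd hu.1) 1 e4 with rfl | rfl
    · exact e3.symm.trans h.one
    · exact absurd hu.1.1 dA
  have dA' : ⁅A ⊓ C1 η, A ⊓ C1 η⁆ ≤ A := (commutator_le_self _).trans inf_le_left
  have hη' : η ∈ A ⊓ C1 η := ⟨hη, StdSz.mem_C1.2 (Commute.refl η)⟩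
  have der0 : ∀ u ∈ ⁅A ⊓ C1 η, A ⊓ C1 η⁆, ρ' u ∈ Γ0 := fun u hu =>
    (commutator_le.2 fun a ha c hc => b.cmm_mem ha hc)
      (img_der m hN (fun u hu => m.memΓ u (hN hu)) hu)
  have y0 : ρ' η ∈ Γ0 := by
    obtain ⟨a, ha, e⟩ := lift2 h hη η3 (commutator_mono (inf_le_inf_right _ b.T0)
      (inf_le_inf_right _ b.T0) b.yder)
    obtain ⟨a, ha, e1, e2⟩ := two_part h dA' ha 1 (by rw [e, pow_one, pow_two, b.y2])
    exact h.eq_of_two (dA' ha) hη e2 η3 (e1.trans e) ▸ der0 a ha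
  have key : ∀ j ∈ A ⊓ C1 η, Nc Γ0 z (ρ η) (ρ j) → ρ' j ≠ 1 := fun j hj nc e1 => by
    obtain ⟨a, ha, c, -, e2⟩ := nc (h.img (A ⊓ C1 η ⊓ Cs A'))
      (h.mem_img.2 ⟨j, ⟨hj, (m.ker j (hN hj)).1 e1⟩, N hj.1, rfl⟩) fun γ hγ => by
        obtain ⟨c, hc, rfl⟩ := lift1 h hη η3 hγ
        refine mem_normalizer_of_cj_le (cj_le_iff.2 fun δ hδ => ?_)
        obtain ⟨i, hi, -, rfl⟩ := h.mem_img.1 hδ
        have k := mul_mem (mul_mem hc hi.1) (inv_mem hc)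
        refine h.mem_img.2 ⟨c * i * c⁻¹, ⟨k, (m.ker _ (hN k)).1 ?_⟩, N k.1, h.conj (N hc.1) (N hi.1.1)⟩
        rw [m.conj (hN hc) (hN hi.1), (m.ker _ (hN hi.1)).2 hi.2, mul_one, mul_inv_cancel]
    obtain ⟨i, hi, -, rfl⟩ := h.mem_img.1 ha
    exact b.z1 (conj_eq_one_iff.1 (e2.trans (tw i hi.1 ((m.ker _ (hN hi.1)).2 hi.2) (by
      rw [← e2, conj_mul, b.z2, mul_one, mul_inv_cancel]))))
  have nz : ∀ (f : Ω) (p : ℕ), p.Prime → f ∈ Γ0 ⊓ Cs E → f ^ p = 1 → Nc Γ0 z (ρ η) f →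
      (∀ x ∈ Γ ⊓ C1 z, x ^ p = 1 → x = 1) → ¬ Cl Γ0 z (ρ' η) := by
    rintro f p hp hf fp nc hx ⟨c, hc, e1⟩
    obtain ⟨j, hj0, rfl, l, jp⟩ := h.lift_p hp hf.1 (k := 1) (by rw [pow_one, fp])
    have hj : j ∈ A ⊓ C1 η :=
      ⟨hj0, StdSz.mem_C1.2 (h.comm_of (N hj0) hη η3 (StdSz.mem_Cs.1 hf.2 _ yf.yE))⟩
    refine key j hj nc (conj_eq_one_iff.1 (ppow hx (x := c⁻¹ * ρ' j * c⁻¹⁻¹) (mem_inf.2 ⟨mul_mem (mul_mem
      (inv_mem (b.le hc)) (m.memΓ _ (hN hj))) (inv_mem (inv_mem (b.le hc))), StdSz.mem_C1.2 ?_⟩) l ?_))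
    · have := commute_conj (m.commute (hN hj) (hN hη') (StdSz.mem_C1.1 hj.2)) c⁻¹
      rwa [← e1, show c⁻¹ * (c * z * c⁻¹) * c⁻¹⁻¹ = z by group] at this
    · rw [conj_pow, ← m.pow (hN hj), jp, m.one, mul_one, mul_inv_cancel]
  obtain ⟨c, hc, ec⟩ : Cl Γ0 (ρ η) (ρ' η) := by
    rcases b.cls _ y0 (by rw [← m.mul _ (hN hη') _ (hN hη'), η2, m.one]) with e1 | e1 | e1
    · exact absurd (tw η hη' e1 b.y2) b.y1
    · exact absurd e1 (yf.nz.elim (nz f 5 (by norm_num) yf.f0 yf.f5 yf.nf)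
        (nz f' 7 (by norm_num) yf.f0' yf.f7 yf.nf'))
    · exact e1
  have der1 : ∀ u ∈ ⁅A ⊓ C1 η, A ⊓ C1 η⁆, c⁻¹ * ρ' u * c ∈ ⁅Γ ⊓ C1 (ρ η), Γ ⊓ C1 (ρ η)⁆ := by
    intro u hu
    rw [← mem_cj, cj_commutator]
    refine img_der m hN (fun u hu => mem_cj.2 (mem_inf.2 ⟨mul_mem (mul_mem (inv_mem (b.le hc))
      (m.memΓ _ (hN hu))) (b.le hc), StdSz.mem_C1.2 ?_⟩)) hu
    have := commute_conj (m.commute (hN hu) (hN hη') (StdSz.mem_C1.1 hu.2)) c⁻¹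
    rwa [← ec, show c⁻¹ * (c * ρ η * c⁻¹) * c⁻¹⁻¹ = ρ η by group, inv_inv] at this
  have p4 : ∀ {H : Type _} [Group H] (x : H), x ^ 2 ^ 2 = x * x * (x * x) := fun x => by
    change x ^ 4 = _
    simp only [pow_succ, pow_zero, one_mul, mul_assoc]
  obtain ⟨g₀, hg₀, rfl⟩ := lift2 h hη η3 yf.g0
  obtain ⟨g, hg, eg, g4'⟩ := two_part h dA' hg₀ 2 (by
    rw [← yf.g4]; change _ ^ 4 = _; simp only [pow_succ, pow_zero, one_mul, mul_assoc])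
  rw [← eg] at yf
  obtain ⟨w, hw, rfl⟩ := lift2 h hη η3 yf.w0
  have hg1 := commutator_le_self _ hg
  have hw1 := commutator_le_self _ hw
  have hgg := mul_mem hg1 hg1
  have egg := h.mul _ (N hg1.1) _ (N hg1.1)
  have egg' := m.mul _ (hN hg1) _ (hN hg1)
  have g4 : g * g * (g * g) = 1 := (p4 g).symm.trans g4'
  have e0 : c⁻¹ * ρ' g * c * (c⁻¹ * ρ' g * c) = c⁻¹ * ρ' (g * g) * c := by rw [egg']; group
  rcases yf.sq _ (der1 g hg) (by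
    rw [e0, show ∀ x, c⁻¹ * x * c * (c⁻¹ * x * c) = c⁻¹ * (x * x) * c from fun x => by group,
      ← m.mul _ (hN hgg) _ (hN hgg), g4, m.one, mul_one, inv_mul_cancel]) with e1 | ⟨k, hk, e1⟩
  · have k := commutator_le_self _ (commutator_mem_commutator hgg hw1)
    have e2 : ρ ⁅g * g, w⁆ = ⁅ρ g * ρ g, ρ w⁆ := by rw [h.comm (N hgg.1) (N hw1.1), egg]
    refine absurd (e2 ▸ tw _ k ?_ (e2 ▸ yf.gw2)) yf.gw
    rw [m.comm (hN hgg) (hN hw1), commutatorElement_eq_one_iff_commute]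
    have := commute_conj (StdSz.mem_Cs.1 (yf.dE (der1 w hw)) _ e1).symm c
    rwa [e0, show ∀ x, c * (c⁻¹ * x * c) * c⁻¹ = x from fun x => by group,
      show ∀ x, c * (c⁻¹ * x * c) * c⁻¹ = x from fun x => by group] at this
  refine ⟨g * g, ?_, g4, ⟨c * k, mul_mem hc hk, by
    rw [show c * k * z * (c * k)⁻¹ = c * (k * z * k⁻¹) * c⁻¹ by group, e1, e0]; group⟩, ?_⟩
  · obtain ⟨a₀, ha₀, ea₀⟩ := m.surj _ (der0 g hg)
    obtain ⟨a, ha, ea, a4⟩ := two_part m le_rfl ha₀ 2 (by rw [ea₀, ← m.pow (hN hg1), g4', m.one])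
    have hk := m.mem_Cs_of (le_normalizer ha) (hN hg1) (ea.trans ea₀)
    have c1 : Commute (a⁻¹ * g) a := StdSz.mem_Cs.1 hk a ha
    have e2 : g = a * (a⁻¹ * g) := by group
    have e3 : (a⁻¹ * g) ^ 2 ^ 2 = 1 := by
      rw [← g4']
      conv_rhs => rw [e2, c1.symm.mul_pow, a4, one_mul]
    have e4 : (a⁻¹ * g) ^ 2 = 1 := by
      rcases two _ hk (mul_mem (inv_mem (StdSz.mem_C1.2 (StdSz.mem_Cs.1 dK a ha).symm)) (hd hg1))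
        2 e3 with e | e
      · rw [e, one_pow]
      · rw [e, pow_two, d2]
    rw [← pow_two, e2, c1.symm.mul_pow, e4, mul_one]
    exact pow_mem ha 2
  · obtain ⟨k, hk0, e2⟩ := yf.yg
    obtain ⟨k, hk, rfl⟩ := h.surj k hk0
    exact ⟨k, hk, h.conj_eq (N hk) hη (mul_mem hη hgg.1) η3 (l := 1) (by
      rw [pow_one, (StdSz.mem_C1.1 hgg.2).symm.mul_pow, pow_two, pow_two, η2, g4, one_mul]) (by
      rw [e2, h.mul _ (N hη) _ (N hgg.1), egg])⟩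

end Sw1b

theorem fus_z2 (b : Bas Γ Γ0 T z y n) (yd : YD Γ Γ0 z y) (h : Mdl Γ Γ0 A ρ)
    (s : St A O t) : ∃ a ∈ A, a * a = 1 ∧ Cl Γ0 z (ρ a) ∧ IsConj t (t * a) := by
  obtain ⟨a, ha, a1, hc⟩ := s.fus
  have ta : ∀ {a}, a ∈ A → Commute t a := fun ha => StdSz.mem_Cs.1 s.tA _ ha
  have sq : ∀ {x d}, x * t * x⁻¹ = d → d * d = 1 := by
    rintro x _ rfl
    rw [conj_mul, s.tt, mul_one, mul_inv_cancel]
  have a2 : a * a = 1 := by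
    obtain ⟨x, hx⟩ := isConj_iff.1 hc
    have := sq hx
    rwa [mul_assoc, ← mul_assoc a, ← (ta ha).eq, ← mul_assoc, ← mul_assoc, s.tt, one_mul] at this
  rcases b.cls _ (h.mem a ha) (by rw [← h.mul _ (le_normalizer ha) _ (le_normalizer ha), a2, h.one])
    with e | e | ⟨c, c1, e⟩
  · exact absurd (h.eq_one ha (k := 1) (by rw [pow_one, pow_two, a2])
      ((h.ker _ (le_normalizer ha)).1 e)) a1
  · exact ⟨a, ha, a2, e, hc⟩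
  rcases yd with rfl | ⟨E, P, f, f', e', τ, g, w, yf⟩
  · exact ⟨a, ha, a2, ⟨c, c1, e⟩, hc⟩
  obtain ⟨c, c0, rfl⟩ := h.surj c c1
  obtain ⟨η, hη, η2, ey⟩ := h.lift_inv b.y0 b.y2
  obtain rfl : c * η * c⁻¹ = a := h.conj_eq (le_normalizer c0) hη ha (k := 1) (l := 1)
    (by rw [pow_one, pow_two, η2]) (by rw [pow_one, pow_two, a2]) (ey ▸ e)
  have cj1 : ∀ {c u}, c ∈ A → c * (t * u) * c⁻¹ = t * (c * u * c⁻¹) := fun hc => by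
    rw [← mul_assoc, ← (ta hc).eq]; group
  obtain ⟨x, hx⟩ := isConj_iff.1 (hc.trans (isConj_iff.2 ⟨c, cj1 c0⟩).symm)
  have C : ∀ {u}, u ∈ C1 (t * η) → x⁻¹ * u * x ∈ C1 t := fun hu => by
    have := commute_conj (StdSz.mem_C1.1 hu) x⁻¹
    rw [← hx, show x⁻¹ * (x * t * x⁻¹) * x⁻¹⁻¹ = t by group, inv_inv] at this
    exact StdSz.mem_C1.2 this
  obtain ⟨a, ha, a3, e1, k, hk, e2⟩ := Sw1b.core (d := t * η) b yf h (h.cjg x) hη η2 ey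
    (fun u hu => StdSz.mem_C1.2 ((ta hu.1).symm.mul_right (StdSz.mem_C1.1 hu.2)))
    (fun u hu => by rw [← StdJ4.cj_Ns, mem_cj]; exact s.cN (C hu))
    (by rw [← StdJ4.cj_Cs, ← hx]; exact conj_mem_cj.2 s.tA) (sq hx)
    (fun e => s.nc _ e (isConj_iff.2 ⟨x, hx⟩)) fun u hu hu' k e => by
      rw [← StdJ4.cj_Cs, mem_cj] at hu
      refine (s.two_elt hu (C hu') (k := k) (by
        rw [show x⁻¹ * u * x = x⁻¹ * u * x⁻¹⁻¹ by rw [inv_inv], conj_pow, e]; group)).imp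
        (fun e => ?_) fun e => ?_
      · calc u = x * (x⁻¹ * u * x) * x⁻¹ := by group
          _ = 1 := by rw [e]; group
      · rw [← hx, ← e]; group
  refine ⟨_, mem_cj.1 ha, by
    rw [show x⁻¹ * a * x * (x⁻¹ * a * x) = x⁻¹ * (a * a) * x by group, a3, mul_one, inv_mul_cancel],
    e1, isConj_iff.2 ⟨x⁻¹ * k * x, ?_⟩⟩
  calc x⁻¹ * k * x * t * (x⁻¹ * k * x)⁻¹ = x⁻¹ * (k * (x * t * x⁻¹) * k⁻¹) * x := by group
    _ = x⁻¹ * (t * η * a) * x := by rw [hx, cj1 hk, e2, mul_assoc t]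
    _ = _ := by rw [← hx]; group

end Cfsg.Lib.StdX
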