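import Cfsg.Agent.StdX.Basic
import Cfsg.Agent.StdW.Dg

/-!
# Standard subgroups with two classes of involutions: `t` and `t ζ` are swapped
-/

set_option autoImplicit false

namespace Cfsg.Lib.StdX

open Subgroup Cfsg.Lib.Gold Cfsg.Lib.Trans Cfsg.Lib.StdSz Cfsg.Lib.StdW
open Cfsg.Lib.StdM (Cl Tr)
open scoped commutatorElement

variable {G Ω : Type*} [Group G] [Group Ω] [Finite G] [Finite Ω] {Γ Γ0 T : Subgroup Ω} {z y : Ω} {n : ℕ}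
  {A O B : Subgroup G} {ρ ρ' : G → Ω} {t : G}

theorem swap (b : Bas Γ Γ0 T z y n) (h : Mdl Γ Γ0 A ρ) (s : St A O t)
    (hf : ∃ a ∈ A, a * a = 1 ∧ Cl Γ0 z (ρ a) ∧ IsConj t (t * a)) {ζ : G} (hζ : ζ ∈ A) (ζ2 : ζ * ζ = 1)
    (e : ρ ζ = z) :
    ∃ k, k * t * k⁻¹ = t * ζ ∧ k * ζ * k⁻¹ = ζ ∧ k ∈ Ns O ∧
      ∀ a ∈ A, a * a = 1 → ρ a ∈ ⁅T, T⁆ → k * a * k⁻¹ ∈ A := by
  have : Fact (Nat.Prime 2) := ⟨Nat.prime_two⟩
  have ta : ∀ {a}, a ∈ A → Commute t a := fun ha => StdSz.mem_Cs.1 s.tA _ ha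
  obtain ⟨P, PA, P2, -, mP, oP⟩ := h.lift_sub b.T0 b.twoT
  obtain ⟨S, hS, PS⟩ := exists_isSylowIn_ge (H := C1 t) P2
    fun a ha => StdSz.mem_C1.2 (ta (PA ha)).symm
  have SN : S ≤ Ns A := hS.le.trans s.cN
  have two : ∀ c ∈ S, ∃ k, c ^ 2 ^ k = 1 := fun c hc =>
    (hS.isPGroup ⟨c, hc⟩).imp fun k hk => congrArg Subtype.val hk
  have h1 : ∀ c ∈ S, ρ c ∈ Γ0 → ρ c ∈ T := fun c hc h0 => by
    have e1 : T = h.img S ⊓ Γ0 := eq_of_le_of_card_ge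
      (le_inf (fun γ hγ => by
        obtain ⟨a, ha, e⟩ := oP γ hγ
        exact h.mem_img.2 ⟨a, PS ha, SN (PS ha), e⟩) b.T0)
      (b.cardT ▸ b.syl _ inf_le_right ((h.two_img hS.isPGroup).to_le inf_le_left))
    exact e1 ▸ ⟨h.mem_img.2 ⟨c, hc, SN hc, rfl⟩, h0⟩
  have h2 : ∀ c ∈ S, ∀ a ∈ S, ρ a = ρ c → c = a ∨ c = a * t := fun c hc a ha e => by
    have m := mul_mem (inv_mem ha) hc
    obtain ⟨k, hk⟩ := two _ m
    exact (s.two_elt (h.mem_Cs_of (SN ha) (SN hc) e) (hS.le m) hk).imp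
      (fun e => (inv_mul_eq_one.1 e).symm) fun e => by rw [← e, mul_inv_cancel_left]
  have ζS : ζ ∈ S := PS ((mP ζ).2 ⟨hζ, e ▸ b.zT, 1, DaP.pw2 ζ2⟩)
  have h3 : ζ ∈ Cs S := StdSz.mem_Cs.2 fun c hc => by
    refine (h.comm_of (SN hc) hζ (DaP.pw2 ζ2) (commute_of_conj_eq ?_)).symm
    rw [e]
    refine (b.mem_zp (b.centT ⟨b.le (b.conj_mem (h.memΓ c (SN hc)) b.z0),
      StdSz.mem_Cs.2 fun x hx => ?_⟩)).resolve_left fun e => b.z1 (conj_eq_one_iff.1 e)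
    obtain ⟨a, ha, rfl⟩ := oP x hx
    have m : c⁻¹ * a * c⁻¹⁻¹ ∈ S := mul_mem (mul_mem (inv_mem hc) (PS ha)) (inv_mem (inv_mem hc))
    have m2 := h1 _ m (h.mem _ (mem_normalizer_conj (inv_mem (SN hc)) (PA ha)))
    have := commute_conj (StdSz.mem_Cs.1 b.zc _ m2) (ρ c)
    rwa [← h.conj (SN hc) (SN m), show c * (c⁻¹ * a * c⁻¹⁻¹) * c⁻¹ = a by group] at this
  have h4 : ∀ c ∈ S, c ∈ Cs S → c = 1 ∨ c = 1 * t ∨ c = ζ ∨ c = ζ * t := fun c hc h0 => by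
    rcases b.mem_zp (b.centT ⟨h.memΓ c (SN hc), StdSz.mem_Cs.2 fun x hx => by
      obtain ⟨a, ha, rfl⟩ := oP x hx
      exact h.commute (SN hc) (SN (PS ha)) (StdSz.mem_Cs.1 h0 a (PS ha))⟩) with e1 | e1
    · exact (h2 c hc 1 (one_mem _) (h.one.trans e1.symm)).imp_right Or.inl
    · exact Or.inr (Or.inr (h2 c hc ζ ζS (e.trans e1.symm)))
  obtain ⟨k, kS, k1⟩ : ∃ k ∈ Ns S, k * t * k⁻¹ = t * ζ := by
    obtain ⟨a, ha, a2, hz, hc⟩ := hf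
    obtain ⟨m, hm, rfl⟩ := Bas.cl_lift h hζ ha ζ2 a2 (e ▸ hz)
    obtain ⟨g, hg⟩ := isConj_iff.1 hc
    have e1 : m⁻¹ * g * t * (m⁻¹ * g)⁻¹ = t * ζ := by
      calc _ = m⁻¹ * (g * t * g⁻¹) * m := by group
        _ = m⁻¹ * t * m⁻¹⁻¹ * ζ := by rw [hg]; group
        _ = _ := by rw [conj_eq_of_commute (ta (inv_mem hm)).symm]
    generalize m⁻¹ * g = g at e1
    obtain ⟨c, hc, e2⟩ := hS.exists_cj_le (isPGroup_cj hS.isPGroup g⁻¹) (cj_le_iff.2 fun r hr =>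
      StdSz.mem_C1.2 (by
        have := commute_conj ((StdSz.mem_C1.1 (hS.le hr)).mul_right
          (StdSz.mem_Cs.1 h3 r hr).symm) g⁻¹
        rwa [← e1, show g⁻¹ * (g * t * g⁻¹) * g⁻¹⁻¹ = t by group] at this))
    rw [cj_cj] at e2
    refine ⟨_, inv_mem (mem_normalizer_of_cj_le e2), ?_⟩
    calc _ = g * (c⁻¹ * t * c⁻¹⁻¹) * g⁻¹ := by group
      _ = _ := by rw [conj_eq_of_commute (StdSz.mem_C1.1 (inv_mem hc)), e1]
  have k2 : k * ζ * k⁻¹ = ζ := by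
    rcases h4 _ (mem_normalizer_conj kS ζS) (mem_normalizer_conj (normalizer_le_normalizer_centralizer _ kS) h3) with
      e1 | e1 | e1 | e1
    · exact (b.z1 (by rw [← e, conj_eq_one_iff.1 e1, h.one])).elim
    · exact (s.nc ζ hζ (isConj_iff.2 ⟨k, e1.trans (one_mul t)⟩).symm).elim
    · exact e1
    · rw [← (ta hζ).eq, ← k1, mul_left_inj, mul_right_inj] at e1
      exact (s.nc ζ hζ (e1 ▸ IsConj.refl ζ)).elim
  have h5 : ∀ x ∈ S, ∀ y ∈ S, ρ x ∈ Γ0 → ⁅x, y⁆ ∈ A := fun x hx y hy h0 => by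
    obtain ⟨a, ha, e1⟩ := oP _ (h1 x hx h0)
    have m : ⁅a, y⁆ ∈ A := by
      rw [commutatorElement_def, mul_assoc, mul_assoc, ← mul_assoc y]
      exact mul_mem (PA ha) (mem_normalizer_conj (SN hy) (inv_mem (PA ha)))
    rcases h2 x hx a (PS ha) e1 with rfl | rfl
    · exact m
    · have e2 : ⁅a * t, y⁆ = a * (t * y * t⁻¹) * a⁻¹ * y⁻¹ := by group
      rwa [e2, conj_eq_of_commute (StdSz.mem_C1.1 (hS.le hy)).symm]
  have DA : ⁅S, S⁆ ≤ A := commutator_le.2 fun x hx y hy => by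
    by_cases hx0 : ρ x ∈ Γ0
    · exact h5 x hx y hy hx0
    by_cases hy0 : ρ y ∈ Γ0
    · rw [← commutatorElement_inv]
      exact inv_mem (h5 y hy x hx hy0)
    have := h5 _ (mul_mem hx hy) y hy (h.mul x (SN hx) y (SN hy) ▸
      b.idx _ (h.memΓ x (SN hx)) _ (h.memΓ y (SN hy)) hx0 hy0)
    rwa [show ⁅x * y, y⁆ = ⁅x, y⁆ by group] at this
  have kD : k ∈ Ns ⁅S, S⁆ := cj_eq_self_iff.1 (by rw [cj_commutator, cj_eq_self_iff.2 kS])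
  have h6 : ⁅T, T⁆ ≤ h.img ⁅S, S⁆ := commutator_le.2 fun x hx y hy => by
    obtain ⟨a, ha, rfl⟩ := oP x hx
    obtain ⟨c, hc, rfl⟩ := oP y hy
    have m := commutator_mem_commutator (PS ha) (PS hc)
    exact h.mem_img.2 ⟨_, m, le_normalizer (DA m), h.comm (SN (PS ha)) (SN (PS hc))⟩
  refine ⟨k, k1, k2, mem_normalizer_of_cj_le (cj_le_iff.2 fun o ho => ?_), fun a ha a2 h0 => ?_⟩
  · have o3 : Odd (orderOf (k * o * k⁻¹)) := by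
      rw [← MulAut.conj_apply, MulEquiv.orderOf_eq]; exact odd_orderOf s.Oodd ho
    have o1 : Commute (k * o * k⁻¹) t := by
      have := commute_conj ((StdSz.mem_C1.1 (s.Ole ho).2).mul_right
        (StdSz.mem_Cs.1 (s.Ole ho).1 ζ hζ)) k
      rwa [show k * (t * ζ) * k⁻¹ = k * t * k⁻¹ * (k * ζ * k⁻¹) by group, k1, k2, mul_assoc t, ζ2,
        mul_one] at this
    have o2 := mem_normalizer_conj (normalizer_le_normalizer_centralizer _ kD) (StdJ4.Cs_anti DA (s.Ole ho).1)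
    generalize k * o * k⁻¹ = c at o1 o2 o3
    have cN := s.cN (StdSz.mem_C1.2 o1)
    obtain ⟨i, hi⟩ := b.twoT ⟨ρ c, b.cder ⟨h.memΓ c cN, StdSz.mem_Cs.2 fun x hx => by
      obtain ⟨a, ha, aN, rfl⟩ := h.mem_img.1 (h6 hx)
      exact h.commute cN aN (StdSz.mem_Cs.1 o2 a ha)⟩⟩
    have hi' : ρ c ^ 2 ^ i = 1 := congrArg Subtype.val hi
    obtain ⟨m, hm⟩ := exists_root_of_odd o3 i
    have o4 : ρ c = 1 := by
      rw [← hm, ← pow_mul, mul_comm, pow_mul, h.pow (pow_mem cN _), h.pow cN, hi', one_pow]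
    obtain ⟨m, hm⟩ := exists_root_of_odd o3 1
    rcases s.dec c ⟨(h.ker c cN).1 o4, StdSz.mem_C1.2 o1⟩ with e1 | ⟨o', ho', e1⟩
    · exact e1
    rw [← hm, ← pow_mul, mul_comm, pow_mul, pow_one, pow_two, e1,
      (StdSz.mem_C1.1 (s.Ole ho').2).mul_mul_mul_comm, s.tt, one_mul]
    exact pow_mem (mul_mem ho' ho') m
  · obtain ⟨c, hc, -, e1⟩ := h.mem_img.1 (h6 h0)
    obtain ⟨i, hi⟩ := two c (commutator_le_self S hc)
    rw [h.eq_of_two ha (DA hc) (DaP.pw2 a2) hi e1.symm]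
    exact DA (mem_normalizer_conj kD hc)

theorem fusC (b : Bas Γ Γ0 T z y n) (h : Mdl Γ Γ0 A ρ) (s : St A O t)
    (hf : ∃ a ∈ A, a * a = 1 ∧ Cl Γ0 z (ρ a) ∧ IsConj t (t * a)) :
    ∃ g ∈ Cs O, ∃ a ∈ A, a ≠ 1 ∧ g * t * g⁻¹ = t * a := by
  obtain ⟨ζ, hζ, ζ2, e⟩ := h.lift_inv b.z0 b.z2
  obtain ⟨k, k1, k2, k3, k4⟩ := swap b h s hf hζ ζ2 e
  obtain ⟨_, hb, bz, c, hc, rfl⟩ := b.zb
  obtain ⟨m, hm, rfl⟩ := h.surj c hc
  have e1 : ρ (m * ζ * m⁻¹) = ρ m * z * (ρ m)⁻¹ := by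
    rw [h.conj (le_normalizer hm) (le_normalizer hζ), e]
  have k5 := k4 _ (mul_mem (mul_mem hm hζ) (inv_mem hm)) (by rw [conj_sq, ζ2]; group) (e1 ▸ hb)
  have mO : ∀ o ∈ O, Commute m o := fun o ho => (StdSz.mem_Cs.1 (s.Ole ho).1 m hm).symm
  have mt : Commute m t := (StdSz.mem_Cs.1 s.tA m hm).symm
  have k6 : k⁻¹ * t * k = t * ζ := by
    calc _ = k⁻¹ * (k * t * k⁻¹ * (k * ζ * k⁻¹)) * k := by rw [k1, k2, mul_assoc t, ζ2, mul_one]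
      _ = _ := by group
  refine ⟨k * (m * k⁻¹ * m⁻¹), StdSz.mem_Cs.2 fun o ho => commute_of_conj_eq ?_,
    ζ * (k * (m * ζ * m⁻¹) * k⁻¹), mul_mem hζ k5, fun e2 => bz ?_, ?_⟩
  · calc _ = k * (m * (k⁻¹ * (m⁻¹ * o * m⁻¹⁻¹) * k⁻¹⁻¹) * m⁻¹) * k⁻¹ := by group
      _ = _ := by
        rw [conj_eq_of_commute (mO o ho).inv_left,
          conj_eq_of_commute (mO _ (mem_normalizer_conj (inv_mem k3) ho))]
        group
  · have e3 : k * (ζ * (m * ζ * m⁻¹)) * k⁻¹ = 1 := by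
      rw [← e2]
      nth_rewrite 3 [← k2]
      group
    rw [← e1, eq_inv_of_mul_eq_one_right (conj_eq_one_iff.1 e3), DaP.inv2 ζ2, e]
  · calc _ = k * (m * (k⁻¹ * (m⁻¹ * t * m⁻¹⁻¹) * k) * m⁻¹) * k⁻¹ := by group
      _ = k * (m * t * m⁻¹) * k⁻¹ * (k * (m * ζ * m⁻¹) * k⁻¹) := by
        rw [conj_eq_of_commute mt.inv_left, k6]; group
      _ = _ := by rw [conj_eq_of_commute mt, k1, mul_assoc]

end Cfsg.Lib.StdX
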