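import Cfsg.Agent.StdX.V2a
import Cfsg.Agent.StdX.Defs2

/-!
# Standard subgroups with two classes of involutions: the swapping involution
-/

set_option autoImplicit false

namespace Cfsg.Lib.StdX

open Subgroup Cfsg.Lib.Gold Cfsg.Lib.Trans Cfsg.Lib.StdSz Cfsg.Lib.StdW
open Cfsg.Lib.StdM (Cl Tr)
open scoped commutatorElement

variable {G Ω : Type*} [Group G] [Group Ω] {Γ Γ0 T : Subgroup Ω} {z y : Ω}
  {n : ℕ} {A : Subgroup G} {ρ : G → Ω} {t : G}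

namespace V2

theorem exists_lift (h : Mdl Γ Γ0 A ρ) (U : Subgroup Ω) :
    ∃ L : Subgroup G, ∀ a, a ∈ L ↔ a ∈ A ∧ ρ a ∈ U :=
  ⟨A ⊓ (U.comap h.hom).map (Ns A).subtype, fun a => ⟨fun ⟨h1, _, h2, e⟩ => ⟨h1, e ▸ h2⟩,
    fun ⟨h1, h2⟩ => ⟨h1, ⟨a, le_normalizer h1⟩, h2, rfl⟩⟩⟩

theorem dec (h : Mdl Γ Γ0 A ρ) (s : St A ⊥ t) {e a : G} (he : Commute e t) (ha : a ∈ A)
    (h1 : ρ a = ρ e) : e = a ∨ e = a * t := by
  rcases s.dec (a⁻¹ * e) ⟨h.mem_Cs_of (le_normalizer ha) (s.cN (StdSz.mem_C1.2 he)) h1,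
    StdSz.mem_C1.2 ((StdSz.mem_Cs.1 s.tA a ha).symm.inv_left.mul_left he)⟩ with e | ⟨o, ho, e⟩
  · exact Or.inl (inv_mul_eq_one.1 (mem_bot.1 e)).symm
  · rw [mem_bot.1 ho, mul_one, inv_mul_eq_iff_eq_mul] at e
    exact Or.inr e

theorem cent (h : Mdl Γ Γ0 A ρ) (s : St A ⊥ t) {U : Subgroup Ω} (hU : U ≤ Γ0) {e : G}
    (he : Commute e t) (h1 : ∀ a ∈ A, ρ a ∈ U → Commute e a) : ρ e ∈ Γ ⊓ Cs U :=
  ⟨h.memΓ _ (s.cN (StdSz.mem_C1.2 he)), StdSz.mem_Cs.2 fun γ hγ => by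
    obtain ⟨a, ha, rfl⟩ := h.surj γ (hU hγ)
    exact h.commute (s.cN (StdSz.mem_C1.2 he)) (le_normalizer ha) (h1 a ha hγ)⟩

theorem norm [Finite G] (h : Mdl Γ Γ0 A ρ) {U : Subgroup Ω} {L : Subgroup G}
    (hL : ∀ a, a ∈ L ↔ a ∈ A ∧ ρ a ∈ U) {g : G} (hg : g ∈ A) (h1 : ρ g ∈ Ns U) : g ∈ Ns L :=
  mem_normalizer_of_cj_le (cj_le_iff.2 fun a ha => (hL _).2
    ⟨mul_mem (mul_mem hg ((hL a).1 ha).1) (inv_mem hg), by
      rw [h.conj (le_normalizer hg) (le_normalizer ((hL a).1 ha).1)]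
      exact mem_normalizer_conj h1 ((hL a).1 ha).2⟩)

end V2

open V2 in
theorem exists_v [Finite G] [Finite Ω] {D V : Subgroup Ω} {γ m k₀ : Ω} (b : Bas Γ Γ0 T z y n)
    (vf : VF Γ Γ0 D V z γ m k₀)
    (h : Mdl Γ Γ0 A ρ) (hZ : A ⊓ Cs A = ⊥) (s : St A ⊥ t) {ζ x : G} (hζ : ζ ∈ A) (e : ρ ζ = z)
    (h1 : x * t * x⁻¹ = t * ζ) (h2 : ∀ a ∈ A, ρ a ∈ D → Commute x a) :
    ∃ u, u * u = 1 ∧ u * t * u = t * ζ ∧ u ∈ Cs (A ⊓ C1 ζ) := by
  have N : ∀ {a}, a ∈ A → a ∈ Ns A := fun ha => le_normalizer ha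
  have M : ∀ {a c}, a ∈ A → c ∈ A → ρ (a * c) = ρ a * ρ c := fun ha hc => h.mul _ (N ha) _ (N hc)
  have c : ∀ {a x}, a ∈ A → x ∈ A → a * x * a⁻¹ ∈ A := fun ha hx =>
    mul_mem (mul_mem ha hx) (inv_mem ha)
  have ζ2 : ζ * ζ = 1 := inj h hZ (mul_mem hζ hζ) (one_mem _) (by rw [M hζ hζ, e, b.z2, h.one])
  have ζ1 : ζ ≠ 1 := fun f => b.z1 (by rw [← e, f, h.one])
  have tA := StdSz.mem_Cs.1 s.tA
  have hC : ∀ a ∈ A ⊓ C1 ζ, ρ a ∈ Γ0 ⊓ C1 z := fun a ha => ⟨h.mem a ha.1,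
    StdSz.mem_C1.2 (e ▸ h.commute (N ha.1) (N hζ) (StdSz.mem_C1.1 ha.2))⟩
  suffices ∃ u, u * u = 1 ∧ u * t * u⁻¹ = t * ζ ∧ u ∈ Cs (A ⊓ C1 ζ) by
    obtain ⟨u, u1, u2, u3⟩ := this
    exact ⟨u, u1, by rw [← u2, inv_eq_of_mul_eq_one_right u1], u3⟩
  rcases vf.fin with hf | ⟨V', w', f', a', b', H⟩
  · have h3 : x ∈ Cs (A ⊓ C1 ζ) := StdSz.mem_Cs.2 fun a ha => h2 a ha.1 (hf (hC a ha))
    have xζ := h2 ζ hζ (e ▸ vf.VD vf.zV)
    have h4 : Commute (x * x) t := commute_of_conj_eq (by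
      calc _ = x * (x * t * x⁻¹) * x⁻¹ := by group
        _ = _ := by rw [h1, ← conj_mul, h1, conj_eq_of_commute xζ, mul_assoc, ζ2, mul_one])
    have h5 := cent h s (U := Γ0 ⊓ C1 z) inf_le_left h4 fun a ha hD =>
      (h2 a ha (hf hD)).mul_left (h2 a ha (hf hD))
    have h6 : ∀ k, Commute x k → x * x ≠ k * t := fun k hk f => ζ1 (left_eq_mul.1 (by
      have := hk.inv_right.mul_right ((Commute.refl x).mul_right (.refl x))
      rw [f, inv_mul_cancel_left] at this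
      rw [← h1, conj_eq_of_commute this]))
    rcases b.cent_cent ⟨1, one_mem _, by group⟩ h5.1 h5.2 with f | f
    · exact ⟨x, (dec h s h4 (one_mem _) (h.one.trans f.symm)).resolve_right
        (h6 1 (.one_right x)), h1, h3⟩
    · refine ⟨x * t, ?_, by rw [← h1]; group, mul_mem h3 (StdJ4.Cs_anti inf_le_left s.tA)⟩
      calc _ = x * t * x⁻¹ * (x * x) * t := by group
        _ = 1 := by
          rw [h1, (dec h s h4 hζ (e.trans f.symm)).resolve_right (h6 ζ xζ), mul_assoc t, ζ2,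
            mul_one, s.tt]
  obtain ⟨D', hD⟩ := exists_lift h D
  obtain ⟨W, hW⟩ := exists_lift h V'
  have D0 : D ≤ Γ0 := vf.D0.trans inf_le_left
  have V0 : V' ≤ Γ0 := H.VD.trans D0
  obtain ⟨w, hw, rfl⟩ := h.surj w' (V0 H.wV)
  obtain ⟨f, hf, rfl⟩ := h.surj f' H.f0.1
  obtain ⟨p, hp, rfl⟩ := h.surj a' (D0 H.a0.1)
  obtain ⟨q, hq, rfl⟩ := h.surj b' (D0 H.b0.1)
  have hf' : ∀ {a}, a ∈ A → f⁻¹ * a * f ∈ A := fun ha => mul_mem (mul_mem (inv_mem hf) ha) hf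
  have rf : ∀ {a}, a ∈ A → ρ (f⁻¹ * a * f) = (ρ f)⁻¹ * ρ a * ρ f := fun ha => by
    rw [M (mul_mem (inv_mem hf) ha) hf, M (inv_mem hf) ha, h.inv (N hf)]
  have rs := h.conj (N hf) (N hp)
  have w2 : w * w = ζ := inj h hZ (mul_mem hw hw) hζ (by rw [M hw hw, H.w2, e])
  have K : P t ζ w f p q D' W :=
    { tt := s.tt
      ζ1 := ζ1
      ζ2 := ζ2
      VD := fun a ha => (hD a).2 ⟨((hW a).1 ha).1, H.VD ((hW a).1 ha).2⟩
      ab := fun a ha => StdSz.mem_Cs.2 fun c hc => comm_of h hZ (N ((hW a).1 ha).1) ((hW c).1 hc).1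
        (StdSz.mem_Cs.1 (H.ab ((hW a).1 ha).2) _ ((hW c).1 hc).2)
      tD := StdSz.mem_Cs.2 fun a ha => tA a ((hD a).1 ha).1
      tf := (tA f hf).symm
      selfc := fun g hg hg1 => by
        have h3 := H.selfc (cent h s V0 hg1 fun a ha hV => StdSz.mem_Cs.1 hg a ((hW a).2 ⟨ha, hV⟩))
        obtain ⟨v, hv, h4⟩ := h.surj _ (V0 h3)
        exact ⟨v, (hW v).2 ⟨hv, h4 ▸ h3⟩, dec h s hg1 hv h4⟩
      wV := (hW w).2 ⟨hw, H.wV⟩
      w2 := w2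
      wD := StdSz.mem_Cs.2 fun a ha => comm_of h hZ (N hw) ((hD a).1 ha).1
        (StdSz.mem_Cs.1 H.wD _ ((hD a).1 ha).2)
      cD := fun g hg hg1 => by
        have h3 := H.cD (cent h s D0 hg1 fun a ha hV => StdSz.mem_Cs.1 hg a ((hD a).2 ⟨ha, hV⟩))
        have w4 : w ^ 4 = 1 := by
          rw [show w ^ 4 = w * w * (w * w) by simp only [pow_succ, pow_zero, one_mul, mul_assoc],
            w2, ζ2]
        obtain ⟨i, h4⟩ := (mem_powers_iff_mem_zpowers.2 h3 :)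
        refine ⟨w ^ i, ?_, dec h s hg1 (pow_mem hw i) ((h.pow (N hw) i).trans h4)⟩
        rw [pow_eq_pow_mod i w4]
        have h5 : i % 4 < 4 := Nat.mod_lt _ (by norm_num)
        generalize i % 4 = j at h5
        interval_cases j
        · simp
        · simp
        · simp [pow_two, w2]
        · exact Or.inr (Or.inr (Or.inr (eq_inv_of_mul_eq_one_left ((pow_succ w 3).symm.trans w4))))
      fN := norm h hW hf H.f0.2
      f7 := inj h hZ (pow_mem hf 7) (one_mem _) (by rw [h.pow (N hf), H.f7, h.one])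
      zf := inj h hZ (mul_mem (mul_mem hζ (c hf hζ)) (c (pow_mem hf 3) hζ)) (one_mem _) (by
        rw [M (mul_mem hζ (c hf hζ)) (c (pow_mem hf 3) hζ), M hζ (c hf hζ), h.conj (N hf) (N hζ),
          h.conj (N (pow_mem hf 3)) (N hζ), h.pow (N hf), e, H.zf, h.one])
      irr := fun g hg g2 g3 => by
        obtain ⟨h3, h4⟩ := (hW g).1 hg
        refine inj h hZ h3 (one_mem _) ((H.irr _ h4 (by rw [← M h3 h3, g2, h.one]) ?_).trans
          h.one.symm)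
        rw [← h.pow (N hf), ← h.conj (N (pow_mem hf 4)) (N h3), ← rf h3, ← M h3 (hf' h3),
          ← M (mul_mem h3 (hf' h3)) (c (pow_mem hf 4) h3), g3, h.one]
      a0 := ⟨(hD p).2 ⟨hp, H.a0.1⟩, norm h hW hp H.a0.2⟩
      b0 := ⟨(hD q).2 ⟨hq, H.b0.1⟩, norm h hW hq H.b0.2⟩
      sD := norm h hD (c hf hp) (by
        have h3 : ρ f * ρ p * (ρ f)⁻¹ ∈ Γ ⊓ C1 z :=
          ⟨b.le (rs ▸ h.mem _ (c hf hp)), StdSz.mem_C1.2 H.sz⟩
        rw [rs]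
        refine mem_normalizer_of_cj_le (cj_le_iff.2 fun d hd => ?_)
        have h4 := mul_mem (vf.der (commutator_mem_commutator h3
          ⟨b.le (D0 hd), (vf.D0 hd).2⟩)) hd
        rwa [commutatorElement_def, inv_mul_cancel_right] at h4)
      sw := conj_of h hZ (N (c hf hp)) hw (inv_mem hw) (by rw [rs, H.sw, h.inv (N hw)])
      bz := conj_of h hZ (N hq) (hf' hζ) (mul_mem hζ (hf' hζ)) (by
        rw [M hζ (hf' hζ), rf hζ, e, H.bz])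
      cab := (hW _).2 ⟨by simpa [commutatorElement_def] using mul_mem (c hp hq) (inv_mem hq),
        h.comm (N hp) (N hq) ▸ H.cab⟩
      nf := fun g hg => by
        obtain ⟨h3, h4⟩ := (hW g).1 hg
        have h5 := H.nf _ h4
        rw [← h.conj (N hp) (N h3), ← M h3 (c hp h3), ← h.inv (N hw)] at h5
        exact ⟨fun f => h5.1 (congrArg ρ f), fun f => h5.2 (congrArg ρ f)⟩ }
  obtain ⟨u, u1, u2, u3, u4⟩ := K.main (StdSz.mem_Cs.2 fun a ha =>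
    h2 a ((hD a).1 ha).1 ((hD a).1 ha).2) h1
  refine ⟨u, u1, u2, StdSz.mem_Cs.2 fun a ha => ?_⟩
  obtain ⟨g, hg, -, h3⟩ := h.mem_img.1 ((sup_le (c := h.img (A ⊓ C1 u)) (fun d hd => by
    obtain ⟨g, hg, rfl⟩ := h.surj d (D0 hd)
    exact h.mem_img.2 ⟨g, ⟨hg, StdSz.mem_C1.2 (StdSz.mem_Cs.1 u3 g ((hD g).2 ⟨hg, hd⟩)).symm⟩,
      N hg, rfl⟩) (zpowers_le.2 (h.mem_img.2 ⟨_, ⟨c hf hp, StdSz.mem_C1.2 u4.symm⟩,
        N (c hf hp), rs⟩))) (H.gen (hC a ha)))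
  exact inj h hZ hg.1 ha.1 h3 ▸ (StdSz.mem_C1.1 hg.2).symm

end Cfsg.Lib.StdX
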