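import Cfsg.Agent.StdX.V1

/-!
# Standard subgroups with two classes of involutions: a computation above a homocyclic group `4³`
-/

set_option autoImplicit false

namespace Cfsg.Lib.StdX.V2

open Subgroup Cfsg.Lib.Gold Cfsg.Lib.Trans Cfsg.Lib.StdSz
open scoped commutatorElement

variable {G : Type*} [Group G]

/-- the lifted configuration -/
structure P (t ζ w f a b : G) (D V : Subgroup G) : Prop where
  tt : t * t = 1
  ζ1 : ζ ≠ 1
  ζ2 : ζ * ζ = 1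
  VD : V ≤ D
  ab : V ≤ Cs V
  tD : t ∈ Cs D
  tf : Commute f t
  selfc : ∀ e ∈ Cs V, Commute e t → ∃ v ∈ V, e = v ∨ e = v * t
  wV : w ∈ V
  w2 : w * w = ζ
  wD : w ∈ Cs D
  cD : ∀ e ∈ Cs D, Commute e t → ∃ k, (k = 1 ∨ k = ζ ∨ k = w ∨ k = w⁻¹) ∧ (e = k ∨ e = k * t)
  fN : f ∈ Ns V
  f7 : f ^ 7 = 1
  zf : ζ * (f * ζ * f⁻¹) * (f ^ 3 * ζ * (f ^ 3)⁻¹) = 1
  irr : ∀ c ∈ V, c * c = 1 → c * (f⁻¹ * c * f) * (f ^ 4 * c * (f ^ 4)⁻¹) = 1 → c = 1
  a0 : a ∈ D ⊓ Ns V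
  b0 : b ∈ D ⊓ Ns V
  sD : f * a * f⁻¹ ∈ Ns D
  sw : f * a * f⁻¹ * w * (f * a * f⁻¹)⁻¹ = w⁻¹
  bz : b * (f⁻¹ * ζ * f) * b⁻¹ = ζ * (f⁻¹ * ζ * f)
  cab : ⁅a, b⁆ ∈ V
  nf : ∀ c ∈ V, c * (a * c * a⁻¹) ≠ w ∧ c * (a * c * a⁻¹) ≠ w⁻¹

/-- `e` centralises `V` and moves `t` by `τ ∈ V` -/
def R (V : Subgroup G) (t e τ : G) : Prop := e ∈ Cs V ∧ τ ∈ V ∧ e * t * e⁻¹ = t * τ

theorem R_eq_1' : type_of% @R.eq_1 := @R.eq_1

variable {t ζ w f a b x : G} {D V : Subgroup G}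

theorem R.mul {p q σ τ : G} (h : R V t p σ) (k : R V t q τ) : R V t (p * q) (σ * τ) :=
  ⟨mul_mem h.1 k.1, mul_mem h.2.1 k.2.1, by
    calc _ = p * (q * t * q⁻¹) * p⁻¹ := by group
      _ = _ := by
        rw [k.2.2, ← conj_mul, h.2.2, conj_eq_of_commute (StdSz.mem_Cs.1 h.1 τ k.2.1), mul_assoc]⟩

theorem R.inv {p σ : G} (h : R V t p σ) : R V t p⁻¹ σ⁻¹ :=
  ⟨inv_mem h.1, inv_mem h.2.1, by
    calc _ = p⁻¹ * (t * σ * σ⁻¹) * p := by group
      _ = t * (p⁻¹ * σ⁻¹ * p⁻¹⁻¹) := by rw [← h.2.2]; group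
      _ = _ := by rw [conj_eq_of_commute (StdSz.mem_Cs.1 h.1 σ h.2.1).inv_inv]⟩

theorem R.conj {p σ g : G} (h : R V t p σ) (hg : g ∈ Ns V) (e : Commute g t) :
    R V t (g * p * g⁻¹) (g * σ * g⁻¹) :=
  ⟨mem_normalizer_conj (normalizer_le_normalizer_centralizer V hg) h.1,
    mem_normalizer_conj hg h.2.1, by
    calc _ = g * (p * (g⁻¹ * t * g⁻¹⁻¹) * p⁻¹) * g⁻¹ := by group
      _ = _ := by rw [conj_eq_of_commute e.inv_left, h.2.2, ← conj_mul, conj_eq_of_commute e]⟩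

theorem R.comm {p : G} (h : R V t p 1) : Commute p t :=
  commute_of_conj_eq (h.2.2.trans (mul_one t))

namespace P

variable (H : P t ζ w f a b D V)
include H

theorem tV {v : G} (h : v ∈ V) : Commute t v := StdSz.mem_Cs.1 H.tD v (H.VD h)

theorem ζV : ζ ∈ V := H.w2 ▸ mul_mem H.wV H.wV

theorem Rt : R V t t 1 := ⟨StdSz.mem_Cs.2 fun _ => H.tV, one_mem _, by group⟩

theorem τ2 {p σ : G} (h : R V t p σ) : σ * σ = 1 := by
  have h1 : t * σ * (t * σ) = 1 := by rw [← h.2.2, conj_mul, H.tt]; group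
  rwa [mul_assoc, ← mul_assoc σ, ← (H.tV h.2.1).eq, mul_assoc, ← mul_assoc, H.tt, one_mul] at h1

theorem sq {p σ : G} (h : R V t p σ) : p * p ∈ V := by
  have h1 : Commute p t → p * p ∈ V := fun e => by
    obtain ⟨v, hv, rfl | rfl⟩ := H.selfc p h.1 e
    · exact mul_mem hv hv
    · rw [mul_assoc, ← mul_assoc t, (H.tV hv).eq, mul_assoc, H.tt, mul_one]
      exact mul_mem hv hv
  obtain ⟨v, hv, e | e⟩ := H.selfc _ (h.mul h).1 (H.τ2 h ▸ h.mul h).comm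
  · exact e ▸ hv
  · refine h1 ?_
    have h2 := (StdSz.mem_Cs.1 h.1 v hv).inv_right.mul_right ((Commute.refl p).mul_right (.refl p))
    rwa [e, inv_mul_cancel_left] at h2

theorem cm {p q σ τ : G} (h : R V t p σ) (k : R V t q τ) : ⁅p, q⁆ ∈ V := by
  have h1 := mul_mem (mul_mem (H.sq (h.mul k)) (H.sq h.inv)) (H.sq k.inv)
  convert h1 using 1
  have h2 := (StdSz.mem_Cs.1 k.inv.1 _ (H.sq h.inv)).eq
  calc _ = p * q * (p * q) * (q⁻¹ * (p⁻¹ * p⁻¹)) * q⁻¹ := by rw [commutatorElement_def]; group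
    _ = _ := by rw [h2]; group

theorem cml {p q r τ υ : G} (h : p ∈ Cs V) (k : R V t q τ) (l : R V t r υ) :
    ⁅p * q, r⁆ = ⁅q, r⁆ * ⁅p, r⁆ := by
  rw [← conj_eq_of_commute (StdSz.mem_Cs.1 h _ (H.cm k l))]
  simp only [commutatorElement_def]
  group

omit H in
theorem cmV {v r υ : G} (h : v ∈ V) (l : R V t r υ) : ⁅v, r⁆ = 1 :=
  (StdSz.mem_Cs.1 l.1 v h).symm.commutator_eq

theorem cm2 {p q σ τ : G} (h : R V t p σ) (k : R V t q τ) : ⁅p, q⁆ * ⁅p, q⁆ = 1 := by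
  rw [← H.cml h.1 h k, cmV (H.sq h) k]

theorem cms {p q σ τ : G} (h : R V t p σ) (k : R V t q τ) : ⁅p, q⁆ = ⁅q, p⁆ := by
  rw [← commutatorElement_inv p q, eq_inv_iff_mul_eq_one, H.cm2 h k]

theorem line {p q r y σ τ υ η : G} (h : R V t p σ) (k : R V t q τ) (l : R V t r υ) (m : R V t y η)
    (e : p * q * r ∈ V) : ⁅y, p⁆ * ⁅y, q⁆ * ⁅y, r⁆ = 1 := by
  have : ⁅r, y⁆ * (⁅q, y⁆ * ⁅p, y⁆) = 1 := by
    rw [← H.cml h.1 k m, ← H.cml (h.mul k).1 l m, cmV e m]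
  simpa [commutatorElement_inv] using congrArg Inv.inv this

theorem comm1 (hx : R V t x ζ) (e : x * (f * x * f⁻¹) * (f ^ 3 * x * (f ^ 3)⁻¹) ∈ V) :
    Commute x (f * x * f⁻¹) := by
  have r : ∀ i : ℕ, R V t (f ^ i * x * (f ^ i)⁻¹) (f ^ i * ζ * (f ^ i)⁻¹) := fun i =>
    hx.conj (pow_mem H.fN i) (H.tf.pow_left i)
  have r1 := hx.conj H.fN H.tf
  have r6 := hx.conj (inv_mem H.fN) H.tf.inv_left
  have e1 := H.line hx r1 (r 3) hx e
  rw [commutatorElement_self, one_mul, mul_eq_one_iff_eq_inv, commutatorElement_inv] at e1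
  have e2 := H.line r6 hx (r 2) hx (by
    convert mem_normalizer_conj (inv_mem H.fN) e using 1
    group)
  rw [commutatorElement_self, mul_one, mul_eq_one_iff_eq_inv, commutatorElement_inv] at e2
  have e3 := H.line r1 (r 2) (r 4) hx (by
    convert mem_normalizer_conj H.fN e using 1
    group)
  refine commutatorElement_eq_one_iff_commute.1 (H.irr _ (H.cm hx r1) (H.cm2 hx r1) ?_)
  rw [← e3]
  refine congrArg₂ _ (congrArg _ ?_) ?_
  · rw [H.cms hx (r 2), ← e2, H.cms hx r1]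
    simp only [commutatorElement_def]
    group
  · have h1 : x = f ^ 4 * (f ^ 3 * x * (f ^ 3)⁻¹) * (f ^ 4)⁻¹ := by
      calc x = f ^ 7 * x * (f ^ 7)⁻¹ := by rw [H.f7]; group
        _ = _ := by group
    rw [e1, ← StdSz.conj_comm, ← h1]

theorem wx (hx : x ∈ Cs D) : Commute x w := StdSz.mem_Cs.1 hx w (H.VD H.wV)

theorem w4 : w⁻¹ * ζ = w := by rw [← H.w2, inv_mul_cancel_left]

omit H in
theorem not_comm {σ : G} (hx : R V t x σ) (h : σ ≠ 1) : ¬ Commute x t := fun e =>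
  h (left_eq_mul.1 ((conj_eq_of_commute e).symm.trans hx.2.2))

theorem not_odd (hD : x ∈ Cs D) (hx : R V t x ζ) (e : Commute x (f * x * f⁻¹))
    (h2 : x * x = w ∨ x * x = w⁻¹)
    (hs : f * a * f⁻¹ * x * (f * a * f⁻¹)⁻¹ = x * w ∨ f * a * f⁻¹ * x * (f * a * f⁻¹)⁻¹ = x * w⁻¹) :
    False := by
  have wi : w⁻¹ * w⁻¹ = ζ := by rw [← mul_inv_rev, H.w2, inv_eq_of_mul_eq_one_right H.ζ2]
  have x4 : x ^ 4 = ζ := by
    rw [show x ^ 4 = x * x * (x * x) by simp only [pow_succ, pow_zero, one_mul, mul_assoc]]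
    rcases h2 with h2 | h2 <;> rw [h2]
    exacts [H.w2, wi]
  have x3 : x ^ (3 : ℤ) = x * (x * x) := by rw [← pow_three]; exact zpow_natCast x 3
  obtain ⟨r, hr, h3⟩ : ∃ r : ℤ, (r = 3 ∨ r = -1) ∧ f * a * f⁻¹ * x * (f * a * f⁻¹)⁻¹ = x ^ r := by
    rcases h2 with h2 | h2 <;> rcases hs with hs | hs
    · exact ⟨3, Or.inl rfl, by rw [hs, ← h2, x3]⟩
    · exact ⟨-1, Or.inr rfl, by rw [hs, ← h2]; group⟩
    · exact ⟨-1, Or.inr rfl, by rw [hs, ← inv_inv w, ← h2]; group⟩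
    · exact ⟨3, Or.inl rfl, by rw [hs, ← h2, x3]⟩
  have r1 := hx.conj (inv_mem H.fN) H.tf.inv_left
  have r2 := r1.conj H.b0.2 (StdSz.mem_Cs.1 H.tD b H.b0.1).symm
  have c1 : Commute x (f⁻¹ * x * f⁻¹⁻¹) := by simpa [mul_assoc] using (commute_conj e f⁻¹).symm
  have c2 : Commute x (b * (f⁻¹ * x * f⁻¹⁻¹) * b⁻¹) := by
    simpa only [conj_eq_of_commute (StdSz.mem_Cs.1 hD b H.b0.1).symm] using commute_conj c1 b
  have a1 : a * (f⁻¹ * x * f⁻¹⁻¹) * a⁻¹ = (f⁻¹ * x * f⁻¹⁻¹) ^ r := by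
    rw [conj_zpow, ← h3]; group
  have q1 : (f⁻¹ * x * f⁻¹⁻¹) ^ 4 = f⁻¹ * ζ * f := by rw [conj_pow, x4, inv_inv]
  rw [inv_inv f, H.bz] at r2
  rw [inv_inv f] at r1 c1 c2 a1 q1
  have z2 := H.τ2 r1
  generalize f⁻¹ * x * f = p at r1 r2 c1 c2 a1 q1
  have a2 : a * (b * p * b⁻¹) * a⁻¹ = (b * p * b⁻¹) ^ r := by
    calc _ = ⁅a, b⁆ * (b * (a * p * a⁻¹) * b⁻¹) * ⁅a, b⁆⁻¹ := by
          simp only [commutatorElement_def]; group
      _ = _ := by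
        rw [a1, ← conj_zpow, conj_eq_of_commute ((StdSz.mem_Cs.1 r2.1 _ H.cab).symm.zpow_right r)]
  have q2 : (b * p * b⁻¹) ^ 4 = ζ * p ^ 4 := by rw [conj_pow, q1, H.bz]
  generalize b * p * b⁻¹ = q at r2 c2 a2 q2
  have r3 := (r2.mul r1.inv).mul hx.inv
  rw [mul_inv_cancel_right, mul_inv_cancel] at r3
  have c3 : Commute x (q * p⁻¹ * x⁻¹) := (c2.mul_right c1.inv_right).mul_right (Commute.refl x).inv_right
  obtain ⟨v, hv, e | e⟩ := H.selfc _ r3.1 r3.comm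
  swap
  · rw [e] at c3
    exact not_comm hx H.ζ1 (by
      simpa using (StdSz.mem_Cs.1 hx.1 v hv).inv_right.mul_right c3)
  have c4 : Commute p q := by
    rw [show q = v * x * p by rw [← e]; group]
    exact ((StdSz.mem_Cs.1 r1.1 v hv).mul_right c1.symm).mul_right (.refl p)
  have h4 : v * (a * v * a⁻¹) = q ^ (r + 1) * (p ^ (r + 1))⁻¹ * (x * x)⁻¹ := by
    have h5 : a * v * a⁻¹ = q ^ r * (p ^ r)⁻¹ * x⁻¹ := by
      calc _ = a * q * a⁻¹ * (a * p * a⁻¹)⁻¹ * (a * x * a⁻¹)⁻¹ := by rw [← e]; group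
        _ = _ := by rw [a1, a2, conj_eq_of_commute (StdSz.mem_Cs.1 hD a H.a0.1).symm]
    rw [h5, ← e]
    calc _ = q * p⁻¹ * (x⁻¹ * (q ^ r * (p ^ r)⁻¹)) * x⁻¹ := by group
      _ = q * (p⁻¹ * q ^ r) * (p ^ r)⁻¹ * x⁻¹ * x⁻¹ := by
        rw [((c2.zpow_right r).mul_right (c1.zpow_right r).inv_right).inv_left.eq]; group
      _ = _ := by rw [(c4.zpow_right r).inv_left.eq]; group
  have h5 := H.nf v hv
  rw [h4] at h5
  rcases hr with rfl | rfl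
  · have h6 : q ^ ((3 : ℤ) + 1) * (p ^ ((3 : ℤ) + 1))⁻¹ * (x * x)⁻¹ = x * x := by
      calc _ = q ^ 4 * (p ^ 4)⁻¹ * (x * x)⁻¹ := by group
        _ = _ := by rw [q2, ← x4, ← pow_two]; group
    rw [h6] at h5
    exact h2.elim h5.1 h5.2
  · simp only [neg_add_cancel, zpow_zero, inv_one, one_mul] at h5
    exact h2.elim (fun e => h5.2 (by rw [e])) fun e => h5.1 (by rw [e, inv_inv])

theorem main' (hD : x ∈ Cs D) (hx : x * t * x⁻¹ = t * ζ)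
    (e : x * (f * x * f⁻¹) * (f ^ 3 * x * (f ^ 3)⁻¹) ∈ V) :
    ∃ u, u * u = 1 ∧ u * t * u⁻¹ = t * ζ ∧ u ∈ Cs D ∧ Commute u (f * a * f⁻¹) := by
  have r : R V t x ζ := ⟨StdJ4.Cs_anti H.VD hD, H.ζV, hx⟩
  have c1 := H.comm1 r e
  have r1 := r.conj H.fN H.tf
  have st : Commute (f * a * f⁻¹) t := by
    simpa only [conj_eq_of_commute H.tf] using commute_conj (StdSz.mem_Cs.1 H.tD a H.a0.1).symm f
  have s1 := commute_conj (StdSz.mem_Cs.1 hD a H.a0.1).symm f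
  have sD := H.sD
  have sw := H.sw
  have no := H.not_odd hD r c1
  generalize f * a * f⁻¹ = s at st s1 sD sw no ⊢
  have wi : w⁻¹ * w⁻¹ = ζ := by rw [← mul_inv_rev, H.w2, inv_eq_of_mul_eq_one_right H.ζ2]
  have sζ : s * ζ * s⁻¹ = ζ := by rw [← H.w2, ← conj_mul, sw, wi, H.w2]
  have wx := H.wx hD
  have ζx : Commute x ζ := H.w2 ▸ wx.mul_right wx
  have ζt := H.tV H.ζV
  have wt := H.tV H.wV
  have hk : ∀ {k}, (k = 1 ∨ k = ζ ∨ k = w ∨ k = w⁻¹) → k ∈ V := by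
    rintro _ (rfl | rfl | rfl | rfl)
    exacts [one_mem _, H.ζV, H.wV, inv_mem H.wV]
  obtain ⟨j, hj, e1 | e1⟩ := H.cD (x⁻¹ * (s * x * s⁻¹)) (mul_mem (inv_mem hD)
    (mem_normalizer_conj (normalizer_le_normalizer_centralizer D sD) hD)) (commute_of_conj_eq (by
      calc _ = x⁻¹ * (s * (x * (s⁻¹ * t * s⁻¹⁻¹) * x⁻¹) * s⁻¹) * x := by group
        _ = _ := by
          rw [conj_eq_of_commute st.inv_left, hx, ← conj_mul, sζ, conj_eq_of_commute st, ← hx]; group))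
  swap
  · have h1 := commute_conj c1 s
    rw [conj_eq_of_commute s1] at h1
    have h2 := (StdSz.mem_Cs.1 r1.1 j (hk hj)).inv_right.mul_right (c1.inv_left.mul_left h1).symm
    rw [e1, inv_mul_cancel_left] at h2
    exact absurd h2 (not_comm r1 fun e => H.ζ1 (conj_eq_one_iff.1 e))
  obtain ⟨i, hi, e2 | e2⟩ := H.cD (x * x) (mul_mem hD hD) (H.ζ2 ▸ r.mul r).comm
  swap
  · refine absurd ?_ (not_comm r H.ζ1)
    have h2 := (StdSz.mem_Cs.1 r.1 i (hk hi)).inv_right.mul_right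
      ((Commute.refl x).mul_right (.refl x))
    rwa [e2, inv_mul_cancel_left] at h2
  rw [inv_mul_eq_iff_eq_mul] at e1
  have e3 : s * i * s⁻¹ = i * (j * j) := by
    rw [← e2, ← conj_mul, e1, mul_assoc, ← mul_assoc j, ← (StdSz.mem_Cs.1 r.1 j (hk hj)).eq]
    group
  have xt : x * t = t * ζ * x := mul_inv_eq_iff_eq_mul.1 hx
  have ζw : Commute ζ w := H.w2 ▸ (Commute.refl w).mul_left (.refl w)
  have ww : w ≠ w⁻¹ := fun e => H.ζ1 (by rw [← H.w2, ← eq_inv_iff_mul_eq_one]; exact e)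
  have ut : x * t * t * (x * t)⁻¹ = t * ζ := by rw [← hx]; group
  have jo : j = w ∨ j = w⁻¹ → j * j = ζ := by
    rintro (rfl | rfl)
    exacts [H.w2, wi]
  have je : j = 1 ∨ j = ζ → j * j = 1 := by
    rintro (rfl | rfl)
    exacts [mul_one _, H.ζ2]
  rw [← or_assoc] at hi hj
  rcases hi with hi | hi
  · have h1 : s * i * s⁻¹ = i := by
      rcases hi with rfl | rfl
      exacts [by group, sζ]
    rw [h1, left_eq_mul] at e3
    rcases hi with rfl | rfl <;> rcases hj.resolve_right fun h => H.ζ1 ((jo h).symm.trans e3)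
      with rfl | rfl
    · exact ⟨x, e2, hx, hD, (commute_of_conj_eq (e1.trans (mul_one x))).symm⟩
    · refine ⟨w * (x * t), ?_, ?_, mul_mem H.wD (mul_mem hD H.tD), (commute_of_conj_eq ?_).symm⟩
      · rw [mul_assoc, ← mul_assoc (x * t), (wx.mul_left wt).eq, ← mul_assoc, ← mul_assoc,
          ← mul_assoc, H.w2]
        calc _ = j * (x * t * x⁻¹) * (x * x) * t := by group
          _ = 1 := by
            rw [hx, e2, mul_one, ζt.eq, ← mul_assoc, H.ζ2, one_mul, H.tt]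
      · calc _ = w * (x * t * t * (x * t)⁻¹) * w⁻¹ := by group
          _ = _ := by rw [ut, conj_eq_of_commute (wt.mul_left ζw).symm]
      · rw [← conj_mul, ← conj_mul, sw, e1, conj_eq_of_commute st, ζx.eq, ← mul_assoc,
          ← mul_assoc, H.w4, mul_assoc]
    · refine ⟨x * t, ?_, ut, mul_mem hD H.tD, (commute_of_conj_eq ?_).symm⟩
      · calc _ = x * t * x⁻¹ * (x * x) * t := by group
          _ = 1 := by rw [hx, e2, mul_assoc t, H.ζ2, mul_one, H.tt]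
      · rw [← conj_mul, e1, mul_one, conj_eq_of_commute st]
    · refine ⟨x * w, ?_, ?_, mul_mem hD H.wD, (commute_of_conj_eq ?_).symm⟩
      · rw [mul_assoc, ← mul_assoc w, ← wx.eq, mul_assoc, ← mul_assoc, e2, H.w2, H.ζ2]
      · calc _ = x * (w * t * w⁻¹) * x⁻¹ := by group
          _ = _ := by rw [conj_eq_of_commute wt.symm, hx]
      · rw [← conj_mul, e1, sw, mul_assoc, ζw.inv_right.eq, H.w4]
  · refine (no (hi.imp e2.trans e2.trans) ((hj.resolve_left fun h => ww ?_).imp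
      (fun h => by rw [e1, h]) fun h => by rw [e1, h])).elim
    rw [je h, mul_one] at e3
    rcases hi with rfl | rfl
    · exact e3.symm.trans sw
    · rw [← conj_inv, sw, inv_inv] at e3
      exact e3

theorem main (hD : x ∈ Cs D) (hx : x * t * x⁻¹ = t * ζ) :
    ∃ u, u * u = 1 ∧ u * t * u⁻¹ = t * ζ ∧ u ∈ Cs D ∧ Commute u (f * a * f⁻¹) := by
  have r : R V t x ζ := ⟨StdJ4.Cs_anti H.VD hD, H.ζV, hx⟩
  have r1 := r.conj H.fN H.tf
  have r3 := r.conj (pow_mem H.fN 3) (H.tf.pow_left 3)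
  obtain ⟨v, hv, e | e⟩ := H.selfc _ ((r.mul r1).mul r3).1 (H.zf ▸ (r.mul r1).mul r3).comm
  · exact H.main' hD hx (e ▸ hv)
  refine H.main' (mul_mem hD H.tD) (by rw [← hx]; group) ?_
  rw [← conj_mul, ← conj_mul (a := x), conj_eq_of_commute H.tf,
    conj_eq_of_commute (H.tf.pow_left 3)]
  have h1 := mul_mem (mul_mem hv (r3.inv.mul r1.inv).2.1) r3.inv.2.1
  have h2 := (r3.inv.mul r1.inv).2.2
  have h3 := r3.inv.2.2
  have h4 := (H.tV r3.inv.2.1).eq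
  generalize (f ^ 3 * ζ * (f ^ 3)⁻¹)⁻¹ = σ at *
  generalize σ * (f * ζ * f⁻¹)⁻¹ = τ at *
  generalize f * x * f⁻¹ = p at *
  generalize f ^ 3 * x * (f ^ 3)⁻¹ = q at *
  convert h1 using 1
  calc _ = x * p * q * (q⁻¹ * p⁻¹ * t * (q⁻¹ * p⁻¹)⁻¹) * (q⁻¹ * t * q⁻¹⁻¹) * t := by group
    _ = v * (t * t) * τ * σ * (t * t) := by rw [e, h2, h3, h4]; group
    _ = _ := by rw [H.tt]; group

end P

end Cfsg.Lib.StdX.V2
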