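import Cfsg.Agent.StdX.V2
import Cfsg.Agent.StdX.Defs3

/-!
# Standard subgroups with two classes of involutions: the swapping involution, second version
-/

set_option autoImplicit false

namespace Cfsg.Lib.StdX

open Subgroup Cfsg.Lib.Gold Cfsg.Lib.Trans Cfsg.Lib.StdSz Cfsg.Lib.StdW
open Cfsg.Lib.StdM (Cl Tr)
open scoped commutatorElement

variable {G Ω : Type*} [Group G] [Group Ω] {Γ Γ0 T : Subgroup Ω} {z y : Ω}
  {n : ℕ} {A : Subgroup G} {ρ : G → Ω} {t : G}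

namespace V3

/-- the lifted configuration -/
structure Q (t ζ w α g c : G) (D R : Subgroup G) : Prop where
  tt : t * t = 1
  ζ1 : ζ ≠ 1
  ζ2 : ζ * ζ = 1
  tD : t ∈ Cs D
  αt : Commute α t
  gt : Commute g t
  ct : Commute c t
  wD : w ∈ D
  w2 : w * w = ζ
  wc : w ∈ Cs D
  cD : ∀ e ∈ Cs D, Commute e t → ∃ k, (k = 1 ∨ k = ζ ∨ k = w ∨ k = w⁻¹) ∧ (e = k ∨ e = k * t)
  αD : α ∈ Ns D
  αw : α * w * α⁻¹ = w⁻¹
  RD : R ≤ D
  gR : g ∈ Cs R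
  gζ : g * ζ * g⁻¹ = α
  gα : g * α * g⁻¹ = ζ * α
  cζ : Commute c ζ
  cR : c ∈ Ns R
  cα : c * (α * w) * c⁻¹ = α
  nf : ∀ e, Commute e t → Commute e ζ → Commute e α → ∃ r ∈ R, e * r * e⁻¹ ≠ c * r * c⁻¹
  nc : ¬ IsConj t α

/-- `e` centralises `ζ`, `α`, moves `t` by `τ` and acts on `R` as `c` -/
structure S (t ζ α c : G) (R : Subgroup G) (e τ : G) : Prop where
  l : Commute e ζ
  r : Commute e α
  t : e * t * e⁻¹ = t * τ
  a : ∀ r ∈ R, e * r * e⁻¹ = c * r * c⁻¹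

namespace Q

variable {ζ w α g c x : G} {D R : Subgroup G} (H : Q t ζ w α g c D R)
include H

theorem step {e τ : G} (h : S t ζ α c R e τ) : S t ζ α c R (g * e * g⁻¹) (g * τ * g⁻¹) := by
  have h1 := commute_conj h.l g
  have h2 := commute_conj h.r g
  rw [H.gζ] at h1
  rw [H.gα] at h2
  refine ⟨by simpa using h2.mul_right h1.inv_right, h1, ?_, fun r hr => ?_⟩
  · calc _ = g * (e * (g⁻¹ * t * g⁻¹⁻¹) * e⁻¹) * g⁻¹ := by group
      _ = _ := by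
        rw [conj_eq_of_commute H.gt.inv_left, h.t, ← conj_mul, conj_eq_of_commute H.gt]
  · calc _ = g * (e * (g⁻¹ * r * g⁻¹⁻¹) * e⁻¹) * g⁻¹ := by group
      _ = _ := by
        rw [conj_eq_of_commute (StdSz.mem_Cs.1 H.gR r hr).inv_left, h.a r hr,
          conj_eq_of_commute (StdSz.mem_Cs.1 H.gR _ (mem_normalizer_conj H.cR hr))]

theorem cζD (hD : x ∈ Cs D) : Commute x ζ :=
  H.w2 ▸ (StdSz.mem_Cs.1 hD w H.wD).mul_right (StdSz.mem_Cs.1 hD w H.wD)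

theorem not_odd (hD : x ∈ Cs D) (hx : x * t * x⁻¹ = t * ζ) : x * α * x⁻¹ ≠ α * w := fun e => by
  have h0 : S t ζ α c R (c * x) ζ := ⟨H.cζ.mul_left (H.cζD hD), commute_of_conj_eq (by
      calc _ = c * (x * α * x⁻¹) * c⁻¹ := by group
        _ = _ := by rw [e, H.cα]), by
      calc _ = c * (x * t * x⁻¹) * c⁻¹ := by group
        _ = _ := by rw [hx, conj_eq_of_commute (H.ct.mul_right H.cζ)], fun r hr => by
      calc _ = c * (x * r * x⁻¹) * c⁻¹ := by group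
        _ = _ := by rw [conj_eq_of_commute (StdSz.mem_Cs.1 hD r (H.RD hr))]⟩
  have h1 := H.step h0
  rw [H.gζ] at h1
  have h2 := H.step h1
  rw [H.gα] at h2
  generalize g * (g * (c * x) * g⁻¹) * g⁻¹ = e2 at h2
  generalize g * (c * x) * g⁻¹ = e1 at h1
  generalize c * x = e0 at h0
  obtain ⟨r, hr, h3⟩ := H.nf (e2⁻¹ * e0 * e1) (commute_of_conj_eq (by
      calc _ = e2⁻¹ * (e0 * (e1 * t * e1⁻¹) * e0⁻¹) * e2 := by group
        _ = _ := by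
          rw [h1.t, ← conj_mul, h0.t, conj_eq_of_commute h0.r, mul_assoc t, ← h2.t]; group))
    ((h2.l.inv_left.mul_left h0.l).mul_left h1.l) ((h2.r.inv_left.mul_left h0.r).mul_left h1.r)
  refine h3 ?_
  have h4 := mem_normalizer_conj H.cR hr
  calc _ = e2⁻¹ * (e0 * (e1 * r * e1⁻¹) * e0⁻¹) * e2 := by group
    _ = _ := by rw [h1.a r hr, h0.a _ h4, ← h2.a _ h4]; group

theorem main (hD : x ∈ Cs D) (hx : x * t * x⁻¹ = t * ζ) :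
    ∃ u, u * u = 1 ∧ u * t * u⁻¹ = t * ζ ∧ u ∈ Cs D ∧ Commute u α := by
  have xw := StdSz.mem_Cs.1 hD w H.wD
  have xζ := H.cζD hD
  have tw := StdSz.mem_Cs.1 H.tD w H.wD
  have tζ := H.cζD H.tD
  have wζ := H.cζD H.wc
  have w3 : w⁻¹ * ζ = w := by rw [← H.w2, inv_mul_cancel_left]
  have αζ : Commute α ζ := commute_of_conj_eq (by
    rw [← H.w2, ← conj_mul, H.αw, ← mul_inv_rev, H.w2, inv_eq_of_mul_eq_one_right H.ζ2])
  have αw : w⁻¹ * α = α * w := by rw [← H.αw, inv_mul_cancel_right]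
  have hk : ∀ k, k = 1 ∨ k = ζ ∨ k = w ∨ k = w⁻¹ → Commute x k := by
    rintro _ (rfl | rfl | rfl | rfl)
    exacts [Commute.one_right x, xζ, xw, xw.inv_right]
  obtain ⟨k, k1, k2⟩ := H.cD (x * x) (mul_mem hD hD) (commute_of_conj_eq (by
    calc _ = x * (x * t * x⁻¹) * x⁻¹ := by group
      _ = _ := by rw [hx, ← conj_mul, hx, conj_eq_of_commute xζ, mul_assoc, H.ζ2, mul_one]))
  replace k2 := k2.resolve_right fun f => H.ζ1 (left_eq_mul.1 (by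
    have := (hk k k1).inv_right.mul_right ((Commute.refl x).mul_right (.refl x))
    rw [f, inv_mul_cancel_left] at this
    rw [← hx, conj_eq_of_commute this]))
  obtain ⟨j, j1, j2⟩ := H.cD (x⁻¹ * (α * x * α⁻¹)) (mul_mem (inv_mem hD)
    (mem_normalizer_conj (normalizer_le_normalizer_centralizer D H.αD) hD)) (commute_of_conj_eq (by
      calc _ = x⁻¹ * (α * (x * (α⁻¹ * t * α⁻¹⁻¹) * x⁻¹) * α⁻¹) * x := by group
        _ = _ := by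
          rw [conj_eq_of_commute H.αt.inv_left, hx, conj_eq_of_commute (H.αt.mul_right αζ), ← hx]
          group))
  replace j2 := j2.resolve_right fun f => H.nc (by
    obtain ⟨p, p1, p2⟩ : ∃ p, Commute p t ∧ p * ζ * p⁻¹ = j * α := by
      have h1 : c⁻¹ * g * ζ * (c⁻¹ * g)⁻¹ = α * w := by
        calc _ = c⁻¹ * (g * ζ * g⁻¹) * c := by group
          _ = c⁻¹ * (c * (α * w) * c⁻¹) * c := by rw [H.gζ, H.cα]
          _ = _ := by group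
      rcases j1 with rfl | rfl | rfl | rfl
      · exact ⟨g, H.gt, by rw [H.gζ, one_mul]⟩
      · exact ⟨g * g, H.gt.mul_left H.gt, by rw [← H.gα, ← H.gζ]; group⟩
      · refine ⟨j * (c⁻¹ * g), tw.symm.mul_left (H.ct.inv_left.mul_left H.gt), ?_⟩
        calc _ = j * (c⁻¹ * g * ζ * (c⁻¹ * g)⁻¹) * j⁻¹ := by group
          _ = _ := by rw [h1]; group
      · exact ⟨_, H.ct.inv_left.mul_left H.gt, h1.trans αw.symm⟩
    have jt : Commute j t := by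
      rcases j1 with rfl | rfl | rfl | rfl
      exacts [Commute.one_left t, tζ.symm, tw.symm, tw.symm.inv_left]
    refine isConj_iff.2 ⟨x * p * x, ?_⟩
    calc _ = x * (p * (x * t * x⁻¹) * p⁻¹) * x⁻¹ := by group
      _ = x * (x⁻¹ * (α * x * α⁻¹) * α) * x⁻¹ := by
        rw [hx, ← conj_mul (b := p), conj_eq_of_commute p1, p2, f, jt.eq, mul_assoc t]
      _ = _ := by group)
  rw [inv_mul_eq_iff_eq_mul] at j2
  have h1 : x * α * x⁻¹ = j⁻¹ * α := by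
    calc _ = j⁻¹ * (j * x) * α * x⁻¹ := by group
      _ = _ := by rw [← (hk j j1).eq, ← j2]; group
  have h2 : j = 1 ∨ j = ζ := by
    rcases j1 with rfl | rfl | rfl | rfl
    · exact Or.inl rfl
    · exact Or.inr rfl
    · exact absurd (h1.trans αw) (H.not_odd hD hx)
    · refine absurd ?_ (H.not_odd (mul_mem (inv_mem H.wc) hD) (by
        calc _ = w⁻¹ * (x * t * x⁻¹) * w⁻¹⁻¹ := by group
          _ = _ := by rw [hx, conj_eq_of_commute (tw.symm.mul_right wζ).inv_left]))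
      calc _ = w⁻¹ * (x * α * x⁻¹) * w := by group
        _ = _ := by rw [h1]; group
  have h3 : α * k * α⁻¹ = k := by
    rw [← k2, ← conj_mul, j2, (hk j j1).symm.mul_mul_mul_comm]
    rcases h2 with rfl | rfl
    · rw [mul_one, mul_one]
    · rw [H.ζ2, mul_one]
  have h4 : w ≠ w⁻¹ := fun f => H.ζ1 (by rw [← H.w2]; exact mul_eq_one_iff_eq_inv.2 f)
  have h5 : x * t * (x * t) = t * ζ * k * t := by rw [← hx, ← k2]; group
  have h6 : x * t * t * (x * t)⁻¹ = t * ζ := by rw [← hx]; group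
  rcases k1 with rfl | rfl | rfl | rfl
  · rcases h2 with rfl | rfl
    · exact ⟨x, k2, hx, hD, (commute_of_conj_eq (j2.trans (mul_one x))).symm⟩
    · refine ⟨w * (x * t), ?_, ?_, mul_mem H.wc (mul_mem hD H.tD), (commute_of_conj_eq ?_).symm⟩
      · rw [(xw.mul_left tw).mul_mul_mul_comm, H.w2, h5, mul_one, tζ.eq, mul_assoc _ t t, H.tt,
          mul_one, H.ζ2]
      · calc _ = w * (x * t * t * (x * t)⁻¹) * w⁻¹ := by group
          _ = _ := by rw [h6, conj_eq_of_commute (tw.symm.mul_right wζ)]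
      · rw [← conj_mul, ← conj_mul, H.αw, j2, conj_eq_of_commute H.αt, xζ.eq, ← mul_assoc,
          ← mul_assoc, w3, mul_assoc]
  · rcases h2 with rfl | rfl
    · refine ⟨x * t, ?_, h6, mul_mem hD H.tD,
        (commute_of_conj_eq (j2.trans (mul_one x))).symm.mul_left H.αt.symm⟩
      rw [h5, mul_assoc t, H.ζ2, mul_one, H.tt]
    · refine ⟨x * w, ?_, ?_, mul_mem hD H.wc, (commute_of_conj_eq ?_).symm⟩
      · rw [xw.symm.mul_mul_mul_comm, k2, H.w2, H.ζ2]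
      · calc _ = x * (w * t * w⁻¹) * x⁻¹ := by group
          _ = _ := by rw [conj_eq_of_commute tw.symm, hx]
      · rw [← conj_mul, j2, H.αw, mul_assoc, ← wζ.inv_left.eq, w3]
  · exact absurd (h3.symm.trans H.αw) h4
  · rw [← conj_inv, H.αw, inv_inv] at h3
    exact absurd h3 h4

end Q

variable {D V : Subgroup Ω} {γ m k₀ : Ω} (b : Bas Γ Γ0 T z y n) (vf : VG Γ Γ0 D V z γ m k₀)
  (h : Mdl Γ Γ0 A ρ) (hZ : A ⊓ Cs A = ⊥) (s : St A ⊥ t) {ζ k : G} (hζ : ζ ∈ A) (e : ρ ζ = z)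
include b vf h hZ s hζ e

theorem mem_der {a : G} : a ∈ ⁅C1 t ⊓ C1 ζ, C1 t ⊓ C1 ζ⁆ ↔ a ∈ A ∧ ρ a ∈ D := by
  have h1 : ⁅C1 t ⊓ C1 ζ, C1 t ⊓ C1 ζ⁆ ≤ A :=
    commutator_le.2 fun x hx w hw => V1.comm_mem b h s hx.1 hw.1
  have h2 : ∀ x ∈ C1 t ⊓ C1 ζ, ρ x ∈ Γ ⊓ C1 z := fun x hx => ⟨h.memΓ _ (s.cN hx.1),
    StdSz.mem_C1.2 (e ▸ h.commute (s.cN hx.1) (le_normalizer hζ) (StdSz.mem_C1.1 hx.2))⟩
  have h3 : ∀ x ∈ A, ρ x ∈ D → x ∈ C1 t ⊓ C1 ζ := fun x hx hD =>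
    ⟨StdSz.mem_C1.2 (StdSz.mem_Cs.1 s.tA x hx).symm, StdSz.mem_C1.2
      (comm_of h hZ (le_normalizer hx) hζ (e ▸ StdSz.mem_C1.1 (vf.D0 hD).2))⟩
  refine ⟨fun ha => ⟨h1 ha, ?_⟩, fun ha => ?_⟩
  · have h4 : ⁅C1 t ⊓ C1 ζ, C1 t ⊓ C1 ζ⁆ ≤ (D.comap h.hom).map (Ns A).subtype :=
      commutator_le.2 fun x hx w hw => ⟨⁅(⟨x, s.cN hx.1⟩ : Ns A), (⟨w, s.cN hw.1⟩ : Ns A)⁆, by
        have h5 := vf.der (commutator_mem_commutator (h2 x hx) (h2 w hw))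
        rw [← h.comm (s.cN hx.1) (s.cN hw.1)] at h5
        exact h5, rfl⟩
    obtain ⟨x, hx, rfl⟩ := h4 ha
    exact hx
  · obtain ⟨x, hx, -, h4⟩ := h.mem_img.1 ((commutator_le
      (H₃ := h.img ⁅C1 t ⊓ C1 ζ, C1 t ⊓ C1 ζ⁆)).2 (fun p hp q hq => by
        obtain ⟨p, hp', rfl⟩ := h.surj p (vf.D0 hp).1
        obtain ⟨q, hq', rfl⟩ := h.surj q (vf.D0 hq).1
        have h5 := commutator_mem_commutator (h3 p hp' hp) (h3 q hq' hq)
        exact h.mem_img.2 ⟨_, h5, le_normalizer (h1 h5),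
          h.comm (le_normalizer hp') (le_normalizer hq')⟩) (vf.perf ha.2))
    exact inj h hZ (h1 hx) ha.1 h4 ▸ hx

theorem exists_aut [Finite G] (h1 : k * t * k⁻¹ = t * ζ) (h2 : k * ζ * k⁻¹ = ζ) :
    ∃ g ∈ Γ ⊓ C1 z, ∀ a ∈ A, ρ a ∈ D → k * a * k⁻¹ ∈ A ∧ ρ (k * a * k⁻¹) = g * ρ a * g⁻¹ := by
  have hF : k ∈ Ns (C1 t ⊓ C1 ζ) := mem_normalizer_of_cj_le (cj_le_iff.2 fun x hx => by
    have h3 := commute_conj (StdSz.mem_C1.1 hx.1) k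
    have h4 := commute_conj (StdSz.mem_C1.1 hx.2) k
    rw [h1] at h3
    rw [h2] at h4
    exact ⟨StdSz.mem_C1.2 (by simpa using h3.mul_right h4.inv_right), StdSz.mem_C1.2 h4⟩)
  have hk : k ∈ Ns ⁅C1 t ⊓ C1 ζ, C1 t ⊓ C1 ζ⁆ := mem_normalizer_of_cj_le (by
    rw [cj_commutator, cj_eq_of_mem_normalizer hF])
  have md := fun {a} => mem_der b vf h hZ s hζ e (a := a)
  generalize ⁅C1 t ⊓ C1 ζ, C1 t ⊓ C1 ζ⁆ = E at hk md
  let f : E →* D := MonoidHom.mk' (fun a => ⟨ρ a, (md.1 a.2).2⟩) fun a c =>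
    Subtype.ext (h.mul _ (le_normalizer (md.1 a.2).1) _ (le_normalizer (md.1 c.2).1))
  let ψ := MulEquiv.ofBijective f ⟨fun a c e => Subtype.ext
    (inj h hZ (md.1 a.2).1 (md.1 c.2).1 (congrArg Subtype.val e)), fun d => by
      obtain ⟨a, ha, e⟩ := h.surj d (vf.D0 d.2).1
      exact ⟨⟨a, md.2 ⟨ha, e ▸ d.2⟩⟩, Subtype.ext e⟩⟩
  obtain ⟨g, hg, h3⟩ := vf.aut (ψ.symm.trans ((E.normalizerMonoidHom ⟨k, hk⟩).trans ψ))
  refine ⟨g, hg, fun a ha hD => ⟨(md.1 (mem_normalizer_conj hk (md.2 ⟨ha, hD⟩))).1, ?_⟩⟩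
  have h4 := h3 (ψ ⟨a, md.2 ⟨ha, hD⟩⟩)
  rw [MulEquiv.trans_apply, MulEquiv.symm_apply_apply] at h4
  exact h4

theorem outer (h1 : k * t * k⁻¹ = t * ζ) (h2 : k * ζ * k⁻¹ = ζ)
    (hk : ∀ a ∈ A, ρ a ∈ D → k * a * k⁻¹ ∈ A ∧ ρ (k * a * k⁻¹) = γ * ρ a * γ⁻¹) :
    ∃ u ∈ C1 t, ρ u ∉ Γ0 := by
  obtain ⟨μ, hμ, rfl⟩ := h.surj m vf.m0.1
  obtain ⟨κ, hκ, rfl⟩ := h.surj k₀ vf.k0.1
  have N : ∀ {a}, a ∈ A → a ∈ Ns A := fun ha => le_normalizer ha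
  have c : ∀ {a x}, a ∈ A → x ∈ A → a * x * a⁻¹ ∈ A := fun ha hx =>
    mul_mem (mul_mem ha hx) (inv_mem ha)
  have ζ2 : ζ * ζ = 1 := inj h hZ (mul_mem hζ hζ) (one_mem _) (by
    rw [h.mul _ (N hζ) _ (N hζ), e, b.z2, h.one])
  obtain ⟨h3, h4⟩ := hk _ (c hμ hζ) (by
    rw [h.conj (N hμ) (N hζ), e]; exact vf.VD (mem_normalizer_conj vf.m0.2 vf.zV))
  have h5 : κ * ζ * κ⁻¹ = ζ * (k * (μ * ζ * μ⁻¹) * k⁻¹) := inj h hZ (c hκ hζ) (mul_mem hζ h3) (by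
    rw [h.mul _ (N hζ) _ (N h3), h4, h.conj (N hμ) (N hζ), h.conj (N hκ) (N hζ), e, vf.mz])
  have h6 : k⁻¹ * t * k = t * ζ := by
    rw [mul_assoc, inv_mul_eq_iff_eq_mul, ← mul_inv_eq_iff_eq_mul.1 (show k * (t * ζ) * k⁻¹ = t by
      rw [← conj_mul, h1, h2, mul_assoc, ζ2, mul_one])]
  have tμ := conj_eq_of_commute (StdSz.mem_Cs.1 s.tA μ hμ).symm
  have tκ := conj_eq_of_commute (StdSz.mem_Cs.1 s.tA κ hκ).symm
  have h7 : (k * μ * k⁻¹)⁻¹ * κ * k ∈ C1 t := StdSz.mem_C1.2 (commute_of_conj_eq (by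
    calc _ = (k * μ * k⁻¹)⁻¹ * (κ * (k * t * k⁻¹) * κ⁻¹) * (k * μ * k⁻¹) := by group
      _ = (k * μ * k⁻¹)⁻¹ * (k * (μ * (k⁻¹ * t * k) * μ⁻¹) * k⁻¹) * (k * μ * k⁻¹) := by
        rw [h1, h6, ← conj_mul (b := κ), ← conj_mul (b := μ), tμ, tκ, h5, ← conj_mul (a := t), h1,
          mul_assoc t]
      _ = t := by group))
  refine ⟨_, h7, fun h8 => vf.γ1 ?_⟩
  have h9 : γ * (ρ μ)⁻¹ * γ⁻¹ * ρ κ ∈ Γ0 := mul_mem (b.conj_mem vf.γ0.1 (inv_mem vf.m0.1)) vf.k0.1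
  have h10 := vf.cV (show (γ * (ρ μ)⁻¹ * γ⁻¹ * ρ κ * γ)⁻¹ * ρ ((k * μ * k⁻¹)⁻¹ * κ * k) ∈ Γ ⊓ Cs V
    from ⟨Γ.mul_mem (Γ.inv_mem (Γ.mul_mem (b.le h9) vf.γ0.1)) (b.le h8), StdSz.mem_Cs.2 fun v hv => by
      obtain ⟨a, ha, rfl⟩ := h.surj v (vf.D0 (vf.VD hv)).1
      obtain ⟨a1, a2⟩ := hk a ha (vf.VD hv)
      have a3 := mem_cj.1 (mem_normalizer_conj vf.k0.2 (conj_mem_cj.2 hv))
      obtain ⟨a', ha', a4⟩ := h.surj _ (vf.D0 (vf.VD a3)).1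
      obtain ⟨a5, a6⟩ := hk a' ha' (a4 ▸ vf.VD a3)
      have a7 : k * a' * k⁻¹ = κ * (k * a * k⁻¹) * κ⁻¹ := inj h hZ a5 (c hκ a1) (by
        rw [a6, a4, h.conj (N hκ) (N a1), a2]; group)
      have a8 := h.conj (N (inv_mem hμ)) (N ha')
      rw [h.inv (N hμ), a4] at a8
      have a9 := (hk _ (c (inv_mem hμ) ha')
        (a8 ▸ vf.VD (mem_normalizer_conj (inv_mem vf.m0.2) a3))).2
      have a10 := h.conj (s.cN h7) (N ha)
      rw [show (k * μ * k⁻¹)⁻¹ * κ * k * a * ((k * μ * k⁻¹)⁻¹ * κ * k)⁻¹ =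
        k * (μ⁻¹ * a' * μ⁻¹⁻¹) * k⁻¹ by
          calc _ = k * (μ⁻¹ * (k⁻¹ * (κ * (k * a * k⁻¹) * κ⁻¹) * k) * μ) * k⁻¹ := by group
            _ = _ := by rw [← a7]; group, a9, a8] at a10
      refine commute_of_conj_eq ?_
      generalize ρ ((k * μ * k⁻¹)⁻¹ * κ * k) = r at a10
      calc _ = (γ * (ρ μ)⁻¹ * γ⁻¹ * ρ κ * γ)⁻¹ * (r * ρ a * r⁻¹) * (γ * (ρ μ)⁻¹ * γ⁻¹ * ρ κ * γ) := by
            group
        _ = _ := by rw [← a10]; group⟩)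
  rwa [mul_mem_cancel_right h8, inv_mem_iff, mul_mem_cancel_left h9] at h10

end V3

open V3 in
theorem exists_x3 [Finite G] [Finite Ω] {D V : Subgroup Ω} {γ m k₀ : Ω} (b : Bas Γ Γ0 T z y n)
    (vf : VG Γ Γ0 D V z γ m k₀)
    (h : Mdl Γ Γ0 A ρ) (hZ : A ⊓ Cs A = ⊥) (s : St A ⊥ t) {ζ k : G} (hζ : ζ ∈ A) (e : ρ ζ = z)
    (h1 : k * t * k⁻¹ = t * ζ) (h2 : k * ζ * k⁻¹ = ζ) :
    ∃ x, x * t * x⁻¹ = t * ζ ∧ ∀ a ∈ A, ρ a ∈ D → Commute x a := by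
  obtain ⟨g, hg, h3⟩ := exists_aut b vf h hZ s hζ e h1 h2
  have tA : ∀ {a}, a ∈ A → a ∈ C1 t := fun ha => StdSz.mem_C1.2 (StdSz.mem_Cs.1 s.tA _ ha).symm
  obtain ⟨u, hu, h4⟩ : ∃ u ∈ C1 t, ρ u = g := by
    by_cases h0 : g ∈ Γ0
    · obtain ⟨u, hu, h4⟩ := h.surj g h0
      exact ⟨u, tA hu, h4⟩
    obtain ⟨c, hc, h4⟩ := h.surj _ (b.idx _ vf.γ0.1 _ (inv_mem hg.1) vf.γ1 (mt inv_mem_iff.1 h0))
    have h5 := conj_eq_of_commute (comm_of h hZ (le_normalizer hc) hζ (by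
      rw [h4, e]; exact StdSz.mem_C1.1 (mul_mem vf.γ0.2 (inv_mem hg.2))))
    obtain ⟨u, hu, h6⟩ := outer b vf h hZ s hζ e (k := c * k) (by
        calc _ = c * (k * t * k⁻¹) * c⁻¹ := by group
          _ = _ := by rw [h1, ← conj_mul, h5, conj_eq_of_commute (StdSz.mem_C1.1 (tA hc))])
      (by
        calc _ = c * (k * ζ * k⁻¹) * c⁻¹ := by group
          _ = _ := by rw [h2, h5]) fun a ha hD => by
      obtain ⟨h6, h7⟩ := h3 a ha hD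
      rw [show c * k * a * (c * k)⁻¹ = c * (k * a * k⁻¹) * c⁻¹ by group]
      refine ⟨mul_mem (mul_mem hc h6) (inv_mem hc), ?_⟩
      rw [h.conj (le_normalizer hc) (le_normalizer h6), h7, h4]
      group
    obtain ⟨c', hc', h7⟩ := h.surj _ (b.idx _ hg.1 _ (inv_mem (h.memΓ _ (s.cN hu))) h0
      (mt inv_mem_iff.1 h6))
    exact ⟨c' * u, mul_mem (tA hc') hu, by
      rw [h.mul _ (le_normalizer hc') _ (s.cN hu), h7, inv_mul_cancel_right]⟩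
  have h5 := comm_of h hZ (s.cN hu) hζ (by rw [h4, e]; exact StdSz.mem_C1.1 hg.2)
  refine ⟨u⁻¹ * k, ?_, fun a ha hD => commute_of_conj_eq ?_⟩
  · calc _ = u⁻¹ * (k * t * k⁻¹) * u⁻¹⁻¹ := by group
      _ = _ := by
        rw [h1, conj_eq_of_commute ((StdSz.mem_C1.1 hu).mul_right h5).inv_left]
  · obtain ⟨h6, h7⟩ := h3 a ha hD
    calc _ = u⁻¹ * (k * a * k⁻¹) * u := by group
      _ = _ := by rw [← conj_of h hZ (s.cN hu) ha h6 (by rw [h4, h7])]; group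

open V2 in
theorem exists_v3 [Finite G] [Finite Ω] {D V : Subgroup Ω} {γ m k₀ : Ω} (b : Bas Γ Γ0 T z y n)
    (vf : VG Γ Γ0 D V z γ m k₀) (fn : Fn Γ Γ0 D z)
    (h : Mdl Γ Γ0 A ρ) (hZ : A ⊓ Cs A = ⊥) (s : St A ⊥ t) {ζ x : G} (hζ : ζ ∈ A) (e : ρ ζ = z)
    (h1 : x * t * x⁻¹ = t * ζ) (h2 : ∀ a ∈ A, ρ a ∈ D → Commute x a) :
    ∃ u, u * u = 1 ∧ u * t * u = t * ζ ∧ u ∈ Cs (A ⊓ C1 ζ) := by
  have N : ∀ {a}, a ∈ A → a ∈ Ns A := fun ha => le_normalizer ha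
  have M : ∀ {a c}, a ∈ A → c ∈ A → ρ (a * c) = ρ a * ρ c := fun ha hc => h.mul _ (N ha) _ (N hc)
  have c : ∀ {a x}, a ∈ A → x ∈ A → a * x * a⁻¹ ∈ A := fun ha hx =>
    mul_mem (mul_mem ha hx) (inv_mem ha)
  have ζ2 : ζ * ζ = 1 := inj h hZ (mul_mem hζ hζ) (one_mem _) (by rw [M hζ hζ, e, b.z2, h.one])
  have ζ1 : ζ ≠ 1 := fun f => b.z1 (by rw [← e, f, h.one])
  have tA := StdSz.mem_Cs.1 s.tA
  have hC : ∀ a ∈ A ⊓ C1 ζ, ρ a ∈ Γ0 ⊓ C1 z := fun a ha => ⟨h.mem a ha.1,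
    StdSz.mem_C1.2 (e ▸ h.commute (N ha.1) (N hζ) (StdSz.mem_C1.1 ha.2))⟩
  suffices ∃ u, u * u = 1 ∧ u * t * u⁻¹ = t * ζ ∧ u ∈ Cs (A ⊓ C1 ζ) by
    obtain ⟨u, u1, u2, u3⟩ := this
    exact ⟨u, u1, by rw [← u2, inv_eq_of_mul_eq_one_right u1], u3⟩
  rcases fn with hf | ⟨R, w', α', g', c', H⟩
  · have h3 : x ∈ Cs (A ⊓ C1 ζ) := StdSz.mem_Cs.2 fun a ha => h2 a ha.1 (hf (hC a ha))
    have xζ := h2 ζ hζ (e ▸ vf.VD vf.zV)
    have h4 : Commute (x * x) t := commute_of_conj_eq (by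
      calc _ = x * (x * t * x⁻¹) * x⁻¹ := by group
        _ = _ := by rw [h1, ← conj_mul, h1, conj_eq_of_commute xζ, mul_assoc, ζ2, mul_one])
    have h5 := cent h s (U := Γ0 ⊓ C1 z) inf_le_left h4 fun a ha hD =>
      (h2 a ha (hf hD)).mul_left (h2 a ha (hf hD))
    have h6 : ∀ k, Commute x k → x * x ≠ k * t := fun k hk f => ζ1 (left_eq_mul.1 (by
      have := hk.inv_right.mul_right ((Commute.refl x).mul_right (.refl x))
      rw [f, inv_mul_cancel_left] at this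
      rw [← h1, conj_eq_of_commute this]))
    rcases b.cent_cent ⟨1, one_mem _, by group⟩ h5.1 h5.2 with f | f
    · exact ⟨x, (dec h s h4 (one_mem _) (h.one.trans f.symm)).resolve_right
        (h6 1 (.one_right x)), h1, h3⟩
    · refine ⟨x * t, ?_, by rw [← h1]; group, mul_mem h3 (StdJ4.Cs_anti inf_le_left s.tA)⟩
      calc _ = x * t * x⁻¹ * (x * x) * t := by group
        _ = 1 := by
          rw [h1, (dec h s h4 hζ (e.trans f.symm)).resolve_right (h6 ζ xζ), mul_assoc t, ζ2,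
            mul_one, s.tt]
  obtain ⟨D', hD⟩ := exists_lift h D
  obtain ⟨W, hW⟩ := exists_lift h R
  have D0 : D ≤ Γ0 := vf.D0.trans inf_le_left
  obtain ⟨w, hw, rfl⟩ := h.surj w' (D0 H.wD)
  obtain ⟨α, hα, rfl⟩ := h.surj α' H.α0.1
  obtain ⟨g, hg, rfl⟩ := h.surj g' H.h0.1
  obtain ⟨q, hq, rfl⟩ := h.surj c' H.c0.1.1
  have w2 : w * w = ζ := inj h hZ (mul_mem hw hw) hζ (by rw [M hw hw, H.w2, e])
  have K : V3.Q t ζ w α g q D' W :=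
    { tt := s.tt
      ζ1 := ζ1
      ζ2 := ζ2
      tD := StdSz.mem_Cs.2 fun a ha => tA a ((hD a).1 ha).1
      αt := (tA α hα).symm
      gt := (tA g hg).symm
      ct := (tA q hq).symm
      wD := (hD w).2 ⟨hw, H.wD⟩
      w2 := w2
      wc := StdSz.mem_Cs.2 fun a ha => comm_of h hZ (N hw) ((hD a).1 ha).1
        (StdSz.mem_Cs.1 H.wc _ ((hD a).1 ha).2)
      cD := fun g hg hg1 => by
        have h3 := H.cD (cent h s D0 hg1 fun a ha hV => StdSz.mem_Cs.1 hg a ((hD a).2 ⟨ha, hV⟩))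
        have w4 : w ^ 4 = 1 := by
          rw [show w ^ 4 = w * w * (w * w) by simp only [pow_succ, pow_zero, one_mul, mul_assoc],
            w2, ζ2]
        obtain ⟨i, h4⟩ := (mem_powers_iff_mem_zpowers.2 h3 :)
        refine ⟨w ^ i, ?_, dec h s hg1 (pow_mem hw i) ((h.pow (N hw) i).trans h4)⟩
        rw [pow_eq_pow_mod i w4]
        have h5 : i % 4 < 4 := Nat.mod_lt _ (by norm_num)
        generalize i % 4 = j at h5
        interval_cases j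
        · simp
        · simp
        · simp [pow_two, w2]
        · exact Or.inr (Or.inr (Or.inr (eq_inv_of_mul_eq_one_left ((pow_succ w 3).symm.trans w4))))
      αD := norm h hD hα (mem_normalizer_of_cj_le (cj_le_iff.2 fun d hd => by
        have h4 := mul_mem (vf.der (commutator_mem_commutator ⟨b.le H.α0.1, H.α0.2⟩
          ⟨b.le (D0 hd), (vf.D0 hd).2⟩)) hd
        rwa [commutatorElement_def, inv_mul_cancel_right] at h4))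
      αw := conj_of h hZ (N hα) hw (inv_mem hw) (by rw [H.αw, h.inv (N hw)])
      RD := fun a ha => (hD a).2 ⟨((hW a).1 ha).1, H.RD ((hW a).1 ha).2⟩
      gR := StdSz.mem_Cs.2 fun a ha => comm_of h hZ (N hg) ((hW a).1 ha).1
        (StdSz.mem_Cs.1 H.h0.2 _ ((hW a).1 ha).2)
      gζ := conj_of h hZ (N hg) hζ hα (by rw [e, H.hz])
      gα := conj_of h hZ (N hg) hα (mul_mem hζ hα) (by rw [M hζ hα, e, H.hα])
      cζ := comm_of h hZ (N hq) hζ (e ▸ StdSz.mem_C1.1 H.c0.1.2)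
      cR := norm h hW hq H.c0.2
      cα := conj_of h hZ (N hq) (mul_mem hα hw) hα (by rw [M hα hw, H.cα])
      nf := fun p p1 p2 p3 => by
        have h3 := s.cN (StdSz.mem_C1.2 p1)
        obtain ⟨r, hr, h4⟩ := H.nf (ρ p) ⟨⟨h.memΓ p h3, StdSz.mem_C1.2 (e ▸ h.commute h3 (N hζ) p2)⟩,
          StdSz.mem_C1.2 (h.commute h3 (N hα) p3)⟩
        obtain ⟨r, hr', rfl⟩ := h.surj r (D0 (H.RD hr))
        refine ⟨r, (hW r).2 ⟨hr', hr⟩, fun f => h4 ?_⟩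
        rw [← h.conj h3 (N hr'), f, h.conj (N hq) (N hr')]
      nc := s.nc α hα }
  obtain ⟨u, u1, u2, u3, u4⟩ := K.main (StdSz.mem_Cs.2 fun a ha =>
    h2 a ((hD a).1 ha).1 ((hD a).1 ha).2) h1
  refine ⟨u, u1, u2, StdSz.mem_Cs.2 fun a ha => ?_⟩
  obtain ⟨p, hp, -, h3⟩ := h.mem_img.1 ((sup_le (c := h.img (A ⊓ C1 u)) (fun d hd => by
    obtain ⟨p, hp, rfl⟩ := h.surj d (D0 hd)
    exact h.mem_img.2 ⟨p, ⟨hp, StdSz.mem_C1.2 (StdSz.mem_Cs.1 u3 p ((hD p).2 ⟨hp, hd⟩)).symm⟩,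
      N hp, rfl⟩) (zpowers_le.2 (h.mem_img.2 ⟨_, ⟨hα, StdSz.mem_C1.2 u4.symm⟩, N hα, rfl⟩)))
    (H.gen (hC a ha)))
  exact inj h hZ hp.1 ha.1 h3 ▸ (StdSz.mem_C1.1 hp.2).symm

end Cfsg.Lib.StdX
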