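import Cfsg.Agent.StdX.YGen
import Cfsg.Agent.StdX.Basic
import Cfsg.Agent.StdX.Tm

/-!
# The facts on the second class of involutions from tests in a word model

Atoms: `0 y`, `1 z`, `2 e`, `3 f`, `4 f'`, `5, …, 8` the witnesses for `f`, `f'`, `9 τ`, `10 g₁`, `11 g₂`,
`12` a conjugating element, `13 w₁`, `14 w₂`, `15` the variable.
-/

set_option autoImplicit false
set_option linter.unusedSectionVars false

namespace Cfsg.Lib.StdX.YG

open Subgroup Equiv Cfsg.Lib.Gold Cfsg.Lib.Trans Cfsg.Lib.StdSz Cfsg.Lib.StdW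
open Cfsg.Lib.Spor Cfsg.Lib.Spor.WM Cfsg.Lib.Known Cfsg.Lib.Known.PC
open Cfsg.Lib.Spor.WF (upd)
open Cfsg.Lib.StdM (Cl)
open scoped commutatorElement

/-- a conjunction -/
noncomputable def andL (L : List Pf) : Pf := List.rec .tt (fun p _ q => .and p q) L

/-- membership in the four-group -/
def in4P (t : Tm) : Pf :=
  .or (.eq t .one) (.or (.eq t (.c 0)) (.or (.eq t (.c 2)) (.eq t (.mul (.c 0) (.c 2)))))

/-- a power of a product of two conjugates is conjugate to `z` -/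
def ncP (a : Tm) (i k : ℕ) : Pf :=
  .and (.inn (.c i)) (.and (.com (.c i) (.c 0)) (.and (.inn (.c (Nat.succ i)))
    (.eq (.pw (.mul a (.cj (.c i) a)) k) (.cj (.c (Nat.succ i)) (.c 1)))))

/-- `t` is one of the listed conjugates of `z` -/
noncomputable def orCl (t : Tm) (I : List ℕ) : Pf :=
  List.rec (.ne .one .one) (fun i _ p => .or (.and (.eq (.c i) t) (.and (.inn (.c (Nat.succ i)))
    (.eq (.cj (.c (Nat.succ i)) (.c 1)) (.c i)))) p) I

/-- the square of the commutator `g` -/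
def gg : Tm := .mul (.cm (.c 10) (.c 11)) (.cm (.c 10) (.c 11))

/-- the closed statements -/
noncomputable def pB (k k' : ℕ) : Pf := andL [.inn (.c 2), .eq (.mul (.c 2) (.c 2)) .one, .com (.c 2) (.c 0),
  .ne (.c 2) .one, .ne (.c 2) (.c 0), .inn (.c 3), .com (.c 3) (.c 0), .com (.c 3) (.c 2),
  .eq (.pw (.c 3) 5) .one, .ne (.c 3) .one, .inn (.c 4), .com (.c 4) (.c 0), .com (.c 4) (.c 2),
  .eq (.pw (.c 4) 7) .one, .ne (.c 4) .one, ncP (.c 3) 5 k, ncP (.c 4) 7 k', .inn (.c 9),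
  .com (.c 9) (.c 0), .eq (.mul (.c 9) (.c 9)) .one, .eq (.cm (.c 2) (.c 9)) (.c 0), .inn (.c 10),
  .com (.c 10) (.c 0), .inn (.c 11), .com (.c 11) (.c 0), .inn (.c 13), .com (.c 13) (.c 0), .inn (.c 14),
  .com (.c 14) (.c 0), .eq (.mul gg gg) .one, .inn (.c 12), .eq (.cj (.c 12) (.c 0)) (.mul (.c 0) gg),
  .ne (.cm gg (.cm (.c 13) (.c 14))) .one,
  .eq (.mul (.cm gg (.cm (.c 13) (.c 14))) (.cm gg (.cm (.c 13) (.c 14)))) .one]

/-- the action of a generator on the four-group -/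
def pA : Pf := .and (.com (.c 15) (.c 0))
  (.or (.eq (.cj (.c 15) (.c 2)) (.c 2)) (.eq (.cj (.c 15) (.c 2)) (.mul (.c 0) (.c 2))))

/-- the test on the centraliser of an element of odd order `m` -/
def pC (m : ℕ) (q : Pf) : Pf := .and (.eq (.pw (.pw (.c 15) 4) m) .one)
  (.or (.ne (.pw (.c 15) 4) .one) (.or (in4P (.c 15)) q))

/-- the test on squares -/
noncomputable def pS (I : List ℕ) : Pf := .or (.out (.c 15)) (.or (.ncom (.c 15) (.c 2))
  (.or (.ne (.mul (.mul (.c 15) (.c 15)) (.mul (.c 15) (.c 15))) .one)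
    (.or (in4P (.mul (.c 15) (.c 15))) (orCl (.mul (.c 15) (.c 15)) I))))

/-- the closed statements on the group of order nine; atoms `16 r`, `17 s`, `18, …, 25` witnesses -/
noncomputable def pN (k₁ k₂ k₃ k₄ : ℕ) : Pf := andL [.eq (.pw (.c 16) 3) .one, .eq (.pw (.c 17) 3) .one,
  .com (.c 17) (.c 16), .ne (.c 16) .one, .ne (.c 17) .one, .ne (.c 17) (.c 16),
  .ne (.c 17) (.mul (.c 16) (.c 16)), .inn (.c 16), .inn (.c 17), .com (.c 16) (.c 0), .com (.c 17) (.c 0),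
  .com (.c 16) (.c 9), .com (.c 17) (.c 9), ncP (.c 16) 18 k₁, ncP (.c 17) 20 k₂,
  ncP (.mul (.c 16) (.c 17)) 22 k₃, ncP (.mul (.c 16) (.mul (.c 17) (.c 17))) 24 k₄]

theorem andL_eq_1' : type_of% @andL.eq_1 := @andL.eq_1
theorem in4P_eq_1' : type_of% @in4P.eq_1 := @in4P.eq_1
theorem ncP_eq_1' : type_of% @ncP.eq_1 := @ncP.eq_1
theorem orCl_eq_1' : type_of% @orCl.eq_1 := @orCl.eq_1
theorem gg_eq_1' : type_of% @gg.eq_1 := @gg.eq_1
theorem pB_eq_1' : type_of% @pB.eq_1 := @pB.eq_1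
theorem pA_eq_1' : type_of% @pA.eq_1 := @pA.eq_1
theorem pC_eq_1' : type_of% @pC.eq_1 := @pC.eq_1
theorem pS_eq_1' : type_of% @pS.eq_1 := @pS.eq_1
theorem pN_eq_1' : type_of% @pN.eq_1 := @pN.eq_1

section
variable {Ω : Type*} [Group Ω] [Finite Ω] {H T P : Subgroup Ω} {g : ℕ → Ω} {n p : ℕ}

theorem ncP_sem {a : Tm} {i k : ℕ} (h : (ncP a i k).sem H g) : Nc H (g 1) (g 0) (a.val g) :=
  nc_of h.1 h.2.1 h.2.2.1 h.2.2.2

theorem orCl_sem {t : Tm} {I : List ℕ} (h : (orCl t I).sem H g) : Cl H (g 1) (t.val g) := by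
  induction I with
  | nil => exact absurd rfl h
  | cons i I ih => exact Or.elim h (fun h => ⟨_, h.2.1, h.2.2.trans h.1⟩) ih

theorem pC_sem {m : ℕ} (hm : Odd m) {q : Pf} {d : Ω} (h : (pC m q).sem H (upd g 15 d)) (t : Tw d) :
    In4 (g 0) (g 2) d ∨ q.sem H (upd g 15 d) := h.2.resolve_left fun k => k (t.four hm h.1)

theorem yd_sem (b : Bas ⊤ H T (g 1) (g 0) n) (cH : Nat.card (C1 (g 0)) = 322560) {k k' : ℕ}
    (hB : (pB k k').sem H g)
    (act : ∀ c, Commute c (g 0) → c * g 2 * c⁻¹ = g 2 ∨ c * g 2 * c⁻¹ = g 0 * g 2)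
    (nz : (Nat.card (C1 (g 1))).Coprime 5 ∨ (Nat.card (C1 (g 1))).Coprime 7) {Q : Ω → Prop}
    (hQ : ∀ c x, Commute c (g 0) → Commute x (g 0) → Q x → Q (c * x * c⁻¹))
    (c5 : ∀ d, Commute d (g 0) → Commute d (g 3) → Tw d → In4 (g 0) (g 2) d ∨ Q d)
    (c7 : ∀ d, Commute d (g 0) → Commute d (g 4) → Tw d → In4 (g 0) (g 2) d ∨ ¬ Q d)
    (pd : PD H P (g 1) (g 0) (g 2) (g 9) p) {I : List ℕ}
    (sq : ∀ d, Commute d (g 0) → Commute d (g 1) → (pS I).sem H (upd g 15 d)) :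
    YD2 ⊤ H (g 1) (g 0) := by
  obtain ⟨a1, a2, a3, a4, a5, a6, a7, a8, a9, a10, a11, a12, a13, a14, a15, a16, a17, a18, a19, a20, a21,
    a22, a23, a24, a25, a26, a27, a28, a29, a30, a31, a32, a33, a34, -⟩ := hB
  exact yd_of b cH a1 a2 a3 a4 a5 act a6 a7 a8 a9 a10 a11 a12 a13 a14 a15 (ncP_sem a16) (ncP_sem a17) nz hQ
    c5 c7 a18 a19 a20 a21 pd (cm_mem a22 a23 a24 a25) (cm_mem a26 a27 a28 a29) a30 ⟨_, a31, a32⟩ a33 a34
    fun d d0 dy dz de d4 => ((((sq d dy dz).resolve_left fun k => k d0).resolve_left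
      fun k => k de).resolve_left fun k => k d4).imp_right orCl_sem
end

variable {G : Type} [Group G] [Finite G] {n : ℕ} {ρ : G →* Perm (Fin n)} {T : FT} {b m : ℕ}
  {base : List ℕ} (h : Good ρ T b m base) {ι : ℕ → ℕ} (hι : invB T b m base ι = true)
  {H : Subgroup G} {n0 : ℕ} (hH : ∀ c, h.V c ∈ H ↔ appF T b m c 0 < n0) (hb : ∀ p ∈ base, p < n)

/-- a test for all elements commuting with `y` and the atom `i` -/
noncomputable def cenT (T : FT) (b m : ℕ) (base : List ℕ) (n : ℕ) (ι : ℕ → ℕ) (n0 : ℕ) (E cs : List ℕ)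
    (ls : List ILev) (i : ℕ) (p : Pf) : Bool :=
  cenAllB (fops T b m base n ι) cs 322560 ls (nth 0 E 0) (nth 0 E i)
    fun c => p.ev T b m base ι n0 (upd (nth 0 E) 15 c)

theorem cenT_eq_1' : type_of% @cenT.eq_1 := @cenT.eq_1

include hι hH hb

theorem act_w {E J : List ℕ} (y2 : h.V (nth 0 E 0) * h.V (nth 0 E 0) = 1)
    (hS : centralizer {h.V (nth 0 E 0)} = gn h.V J)
    (kJ : lall (fun c => pA.ev T b m base ι n0 (upd (nth 0 E) 15 c)) J = true) :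
    ∀ c, Commute c (h.V (nth 0 E 0)) → c * h.V (nth 0 E 2) * c⁻¹ = h.V (nth 0 E 2) ∨
      c * h.V (nth 0 E 2) * c⁻¹ = h.V (nth 0 E 0) * h.V (nth 0 E 2) :=
  act_of y2 hS.le fun _ ⟨l, hl, e⟩ =>
    e ▸ Pf.sem_of_ev h hι hH hb (V_upd h _ 15 _) pA (lall_iff.1 kJ l hl)

theorem yd_he {T0 : Subgroup G} {cy cz j k k' : ℕ} {E I J c5 c7 c2 : List ℕ} {l5 l7 l2 : List ILev}
    (bas : Bas ⊤ H T0 (h.V cz) (h.V cy) j) (cH : Nat.card (centralizer {h.V cy}) = 322560)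
    (cZ : (Nat.card (centralizer {h.V cz})).Coprime 5) (hS : centralizer {h.V cy} = gn h.V J)
    (k0 : ((pB k k').and (.com (.c 4) (.c 9))).ev T b m base ι n0 (nth 0 (cy :: cz :: E)) = true)
    (kJ : lall (fun c => pA.ev T b m base ι n0 (upd (nth 0 (cy :: cz :: E)) 15 c)) J = true)
    (k5 : cenT T b m base n ι n0 (cy :: cz :: E) c5 l5 3 (pC 5 (.out (.c 15))) = true)
    (k7 : cenT T b m base n ι n0 (cy :: cz :: E) c7 l7 4
      (pC 7 (.and (.inn (.c 15)) (.ncom (.c 15) (.c 2)))) = true)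
    (k2 : cenT T b m base n ι n0 (cy :: cz :: E) c2 l2 1 (pS I) = true) : YD2 ⊤ H (h.V cz) (h.V cy) := by
  obtain ⟨a, a'⟩ := holds h hι hH hb _ _ k0
  have u := fun d h1 h2 => pC_sem (by decide) (holds_cen h hι hH hb cH.le _ 4 15 _ k7 d h1 h2)
  have v := a.2.2.2.2.2.2.2.2.2.2
  exact yd_sem (g := fun i => h.V (nth 0 (cy :: cz :: E) i)) bas cH a
    (act_w h hι hH hb (E := cy :: cz :: E) bas.y2 hS kJ) (.inl cZ) (Q := fun d => d ∉ H)
    (fun c x _ _ hx k => hx (by simpa [mul_assoc] using bas.conj_mem (mem_top c⁻¹) k))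
    (fun d h1 h2 => pC_sem (by decide) (holds_cen h hι hH hb cH.le _ 3 15 _ k5 d h1 h2))
    (fun d h1 h2 t => (u d h1 h2 t).imp_right fun k e => e k.1)
    (pd7 cH v.2.2.2.1 v.2.2.2.2.1 v.1 v.2.1 a' (ncP_sem v.2.2.2.2.2.2.1)
      fun d h1 h2 h3 t => (u d h1 h2 t).resolve_right fun k => k.2 h3)
    (holds_cen h hι hH hb cH.le _ 1 15 _ k2)

theorem yd_suz {T0 : Subgroup G} {cy cz j k k' k₁ k₂ k₃ k₄ : ℕ} {E I J c5 c7 c3 c2 : List ℕ}
    {l5 l7 l3 l2 : List ILev}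
    (bas : Bas ⊤ H T0 (h.V cz) (h.V cy) j) (cH : Nat.card (centralizer {h.V cy}) = 322560)
    (cZ : (Nat.card (centralizer {h.V cz})).Coprime 7) (hS : centralizer {h.V cy} = gn h.V J)
    (k0 : ((pB k k').and (pN k₁ k₂ k₃ k₄)).ev T b m base ι n0 (nth 0 (cy :: cz :: E)) = true)
    (kJ : lall (fun c => pA.ev T b m base ι n0 (upd (nth 0 (cy :: cz :: E)) 15 c)) J = true)
    (k5 : cenT T b m base n ι n0 (cy :: cz :: E) c5 l5 3 (pC 5 (.com (.c 15) (.c 2))) = true)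
    (k7 : cenT T b m base n ι n0 (cy :: cz :: E) c7 l7 4 (pC 7 (.ncom (.c 15) (.c 2))) = true)
    (k3 : cenT T b m base n ι n0 (cy :: cz :: E) c3 l3 16
      (pC 3 (.or (.ncom (.c 15) (.c 17)) (.ncom (.c 15) (.c 2)))) = true)
    (k2 : cenT T b m base n ι n0 (cy :: cz :: E) c2 l2 1 (pS I) = true) : YD2 ⊤ H (h.V cz) (h.V cy) := by
  obtain ⟨a, a1, a2, a3, a4, a5, a6, a7, a8, a9, a10, a11, a12, a13, a14, a15, a16, a17, -⟩ :=
    holds h hι hH hb _ _ k0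
  have act := act_w h hι hH hb (E := cy :: cz :: E) bas.y2 hS kJ
  exact yd_sem (g := fun i => h.V (nth 0 (cy :: cz :: E) i)) bas cH a act (.inr cZ)
    (Q := fun d => Commute d (h.V (nth 0 (cy :: cz :: E) 2))) (com_inv act)
    (fun d h1 h2 => pC_sem (by decide) (holds_cen h hι hH hb cH.le _ 3 15 _ k5 d h1 h2))
    (fun d h1 h2 => pC_sem (by decide) (holds_cen h hι hH hb cH.le _ 4 15 _ k7 d h1 h2))
    (pd9 cH a1 a2 a3 a4 a5 a6 a7 a8 a9 a10 a11 a12 a13 (ncP_sem a14) (ncP_sem a15) (ncP_sem a16)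
      (ncP_sem a17) fun d h1 h2 h3 h4 t =>
        (pC_sem (by decide) (holds_cen h hι hH hb cH.le _ 16 15 _ k3 d h1 h2) t).resolve_right
          fun k => k.elim (fun k => k h3) fun k => k h4)
    (holds_cen h hι hH hb cH.le _ 1 15 _ k2)

end Cfsg.Lib.StdX.YG
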