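import Cfsg.Agent.StdX.Defs3

/-!
# Standard subgroups with two classes of involutions: the facts on the second class from
elementwise facts
-/

set_option autoImplicit false
set_option linter.unusedSectionVars false

namespace Cfsg.Lib.StdX

open Subgroup Cfsg.Lib.Gold Cfsg.Lib.Trans Cfsg.Lib.StdSz Cfsg.Lib.StdW
open Cfsg.Lib.StdM (Cl)
open scoped commutatorElement

variable {Ω : Type*} [Group Ω] [Finite Ω] {Γ0 T P : Subgroup Ω} {z y e f f' τ g w r s : Ω} {n p : ℕ}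

namespace YG

/-- `d` lies in the four-group generated by `y` and `e` -/
def In4 (y e d : Ω) : Prop := d = 1 ∨ d = y ∨ d = e ∨ d = y * e

/-- `d` is a 2-element -/
def Tw (d : Ω) : Prop := ∃ k, d ^ 2 ^ k = 1

theorem In4_eq_1' : type_of% @In4.eq_1 := @In4.eq_1
theorem Tw_eq_1' : type_of% @Tw.eq_1 := @Tw.eq_1

theorem Tw.conj {d : Ω} (h : Tw d) (c : Ω) : Tw (c * d * c⁻¹) :=
  h.imp fun k hk => by rw [conj_pow, hk, mul_one, mul_inv_cancel]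

theorem Tw.four {d : Ω} (h : Tw d) {m : ℕ} (hm : Odd m) (e : (d ^ 4) ^ m = 1) : d ^ 4 = 1 := by
  obtain ⟨k, hk⟩ := h
  exact eq_one_of_odd_two (hm.of_dvd_nat (orderOf_dvd_of_pow_eq_one e)) (k := k) (by
    rw [← pow_mul, mul_comm, pow_mul, hk, one_pow])

theorem zp2 (h : y * y = 1) {x : Ω} (hx : x ∈ zpowers y) : x = 1 ∨ x = y := by
  obtain ⟨k, rfl⟩ := mem_zpowers_iff.1 hx
  rw [zpow_eq_zpow_emod' k ((sq y).trans h)]
  rcases Int.emod_two_eq_zero_or_one k with e | e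
  · exact .inl (by rw [show ((2 : ℕ) : ℤ) = 2 from rfl, e, zpow_zero])
  · exact .inr (by rw [show ((2 : ℕ) : ℤ) = 2 from rfl, e, zpow_one])

theorem zp3 (h : r ^ 3 = 1) {x : Ω} (hx : x ∈ zpowers r) : x = 1 ∨ x = r ∨ x = r * r := by
  obtain ⟨k, rfl⟩ := mem_zpowers_iff.1 hx
  rw [zpow_eq_zpow_emod' k h, show ((3 : ℕ) : ℤ) = 3 from rfl]
  rcases (by omega : k % 3 = 0 ∨ k % 3 = 1 ∨ k % 3 = 2) with e | e | e <;> rw [e]
  exacts [.inl (zpow_zero r), .inr (.inl (zpow_one r)), .inr (.inr (zpow_two r))]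

theorem ns_zp (h : Commute s r) : s ∈ Ns (zpowers r) :=
  StdJ4.Cs_le_Ns _ (mem_Cs.2 fun _ ⟨k, hk⟩ => hk ▸ h.zpow_right k)

theorem mem4 (y2 : y * y = 1) (e2 : e * e = 1) (ey : Commute e y) {x : Ω} :
    x ∈ zpowers y ⊔ zpowers e ↔ In4 y e x := by
  refine ⟨fun h => ?_, ?_⟩
  · obtain ⟨a, ha, k, rfl⟩ := (Solv.PG.mem_sup_zpowers_iff (ns_zp ey)).1 h
    rcases zp2 y2 ha with rfl | rfl <;> rcases zp2 e2 (zpow_mem_zpowers e k) with h | h <;>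
      simp [h, In4]
  · rintro (rfl | rfl | rfl | rfl)
    exacts [one_mem _, mem_sup_left (mem_zpowers _), mem_sup_right (mem_zpowers _),
      mul_mem (mem_sup_left (mem_zpowers _)) (mem_sup_right (mem_zpowers _))]

theorem cs2 {x : Ω} : x ∈ Cs (zpowers y ⊔ zpowers e) ↔ Commute x y ∧ Commute x e :=
  ⟨fun h => ⟨mem_Cs.1 h _ (mem_sup_left (mem_zpowers _)), mem_Cs.1 h _ (mem_sup_right (mem_zpowers _))⟩,
    fun h => mem_Cs.2 fun _ ha => (mem_C1.1 ((sup_le (zpowers_le.2 (mem_C1.2 h.1.symm))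
      (zpowers_le.2 (mem_C1.2 h.2.symm)) : _ ≤ C1 x) ha)).symm⟩

theorem nc_of {c h : Ω} {k : ℕ} (c0 : c ∈ Γ0) (cy : Commute c y) (h0 : h ∈ Γ0)
    (e : (f * (c * f * c⁻¹)) ^ k = h * z * h⁻¹) : Nc Γ0 z y f := fun _ hf hJ =>
  ⟨_, pow_mem (mul_mem hf (mem_normalizer_conj (hJ ⟨c0, mem_C1.2 cy⟩) hf)) k, h, h0, e.symm⟩

theorem nc_zp {a : Ω} (h : Nc Γ0 z y f) (ha : f ∈ zpowers a) : Nc Γ0 z y a := fun J hf =>
  h J (zpowers_le.2 hf ha)

theorem syl_of {q k m : ℕ} (cH : Nat.card (C1 y) = q ^ k * m) (hq : q.Prime) (hm : ¬ q ∣ m)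
    (hP : P ≤ C1 y) (hc : Nat.card P = q ^ k) : IsSylowIn q P (C1 y) := by
  refine ⟨hP, IsPGroup.of_card hc, fun h => hm ?_⟩
  have := card_mul_relIndex hP
  rw [cH, hc] at this
  exact Nat.eq_of_mul_eq_mul_left (pow_pos hq.pos k) this ▸ h

theorem card_zp {q : ℕ} (hq : q.Prime) (h : r ^ q = 1) (h1 : r ≠ 1) : Nat.card (zpowers r) = q := by
  have := Fact.mk hq
  rw [Nat.card_zpowers, orderOf_eq_prime h h1]

theorem gen_zp {q : ℕ} (hq : q.Prime) (h : r ^ q = 1) (h1 : r ≠ 1) {a : Ω} (ha : a ∈ zpowers r)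
    (a1 : a ≠ 1) : r ∈ zpowers a := by
  have e : a ^ q = 1 := by
    obtain ⟨k, rfl⟩ := mem_zpowers_iff.1 ha
    rw [← zpow_natCast, ← zpow_mul, mul_comm, zpow_mul, zpow_natCast, h, one_zpow]
  rw [Solv.PG.eq_of_le_of_card_eq (zpowers_le.2 ha) ((card_zp hq e a1).trans (card_zp hq h h1).symm)]
  exact mem_zpowers r

theorem move {q m : ℕ} (cH : Nat.card (C1 y) = q ^ 1 * m) (hq : q.Prime) (hm : ¬ q ∣ m)
    (h : r ^ q = 1) (h1 : r ≠ 1) (ry : Commute r y) {a x : Ω} (ay : Commute a y) (aq : a ^ q = 1)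
    (a1 : a ≠ 1) (ax : Commute a x) : ∃ c, Commute c y ∧ Commute (c * x * c⁻¹) r := by
  have := Fact.mk hq
  obtain ⟨c, hc, k⟩ := (syl_of cH hq hm (zpowers_le.2 (mem_C1.2 ry))
    ((card_zp hq h h1).trans (pow_one q).symm)).exists_cj_le
      (Solv.PG.isPGroup_zpowers (k := 1) ((congrArg _ (pow_one q)).trans aq)) (zpowers_le.2 (mem_C1.2 ay))
  obtain ⟨j, hj⟩ := mem_zpowers_iff.1 (gen_zp hq h h1 (cj_le_iff.1 k a (mem_zpowers a))
    (by simpa using a1))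
  exact ⟨c, mem_C1.1 hc, hj ▸ (ax.symm.map (MulAut.conj c)).zpow_right j⟩

/-- facts on the `p`-group `P` -/
structure PD (Γ0 P : Subgroup Ω) (z y e τ : Ω) (p : ℕ) : Prop where
  prime : p.Prime
  syl : IsSylowIn p P (C1 y)
  P0 : P ≤ Γ0 ⊓ C1 y ⊓ C1 τ
  nP : ∀ a ∈ P, a ≠ 1 → Nc Γ0 z y a
  fx : ∀ d, Commute d y → Commute d e → d ∈ Cs P → Tw d → In4 y e d

theorem pd7 (cH : Nat.card (C1 y) = 322560) (r7 : r ^ 7 = 1) (r1 : r ≠ 1) (r0 : r ∈ Γ0)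
    (ry : Commute r y) (rτ : Commute r τ) (nr : Nc Γ0 z y r)
    (fx : ∀ d, Commute d y → Commute d r → Commute d e → Tw d → In4 y e d) :
    PD Γ0 (zpowers r) z y e τ 7 :=
  ⟨by norm_num, syl_of (k := 1) (m := 46080) cH (by norm_num) (by norm_num)
    (zpowers_le.2 (mem_C1.2 ry)) (card_zp (by norm_num) r7 r1),
    zpowers_le.2 ⟨⟨r0, mem_C1.2 ry⟩, mem_C1.2 rτ⟩,
    fun _ ha a1 => nc_zp nr (gen_zp (by norm_num) r7 r1 ha a1),
    fun d h1 h2 h3 => fx d h1 (mem_Cs.1 h3 r (mem_zpowers r)) h2⟩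

theorem pd9 (cH : Nat.card (C1 y) = 322560) (r3 : r ^ 3 = 1) (s3 : s ^ 3 = 1) (rs : Commute s r)
    (r1 : r ≠ 1) (s1 : s ≠ 1) (s2 : s ≠ r) (s4 : s ≠ r * r) (r0 : r ∈ Γ0) (s0 : s ∈ Γ0)
    (ry : Commute r y) (sy : Commute s y) (rτ : Commute r τ) (sτ : Commute s τ)
    (n1 : Nc Γ0 z y r) (n2 : Nc Γ0 z y s) (n3 : Nc Γ0 z y (r * s)) (n4 : Nc Γ0 z y (r * (s * s)))
    (fx : ∀ d, Commute d y → Commute d r → Commute d s → Commute d e → Tw d → In4 y e d) :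
    PD Γ0 (zpowers r ⊔ zpowers s) z y e τ 3 := by
  have hle : zpowers r ⊔ zpowers s ≤ Γ0 ⊓ C1 y ⊓ C1 τ := sup_le
    (zpowers_le.2 ⟨⟨r0, mem_C1.2 ry⟩, mem_C1.2 rτ⟩) (zpowers_le.2 ⟨⟨s0, mem_C1.2 sy⟩, mem_C1.2 sτ⟩)
  have k : ∀ {a : Ω}, a ^ 3 = 1 → a * a * (a * a) = a := fun {a} h => by
    rw [show a * a * (a * a) = a ^ 3 * a by simp only [pow_succ, pow_zero, one_mul, mul_assoc], h, one_mul]
  have sq : ∀ {a b : Ω}, Nc Γ0 z y b → a * a = b → Nc Γ0 z y a := fun h e =>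
    nc_zp h (e ▸ mul_mem (mem_zpowers _) (mem_zpowers _))
  have cm : ∀ {a b : Ω}, Commute b a → a * b * (a * b) = a * a * (b * b) := fun h =>
    h.mul_mul_mul_comm _ _
  refine ⟨by norm_num, syl_of (k := 2) (m := 35840) cH (by norm_num) (by norm_num)
    (hle.trans (inf_le_left.trans inf_le_right)) ?_, hle, fun a ha a1 => ?_,
    fun d h1 h2 h3 => fx d h1 (cs2.1 h3).1 (cs2.1 h3).2 h2⟩
  · rw [Solv.PG.card_sup_zpowers Nat.prime_three (ns_zp rs) (fun h => by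
      rcases zp3 r3 h with h | h | h; exacts [s1 h, s2 h, s4 h]) (s3 ▸ one_mem _),
      card_zp Nat.prime_three r3 r1]
    rfl
  obtain ⟨b, hb, j, rfl⟩ := (Solv.PG.mem_sup_zpowers_iff (ns_zp rs)).1 ha
  rcases zp3 r3 hb with rfl | rfl | rfl <;> rcases zp3 s3 (zpow_mem_zpowers s j) with h | h | h <;>
    rw [h] at a1 ⊢
  · exact absurd (mul_one 1) a1
  · rwa [one_mul]
  · exact sq n2 (by rw [one_mul, k s3])
  · rwa [mul_one]
  · exact n3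
  · exact n4
  · exact sq n1 (by rw [mul_one, k r3])
  · exact sq n4 (by rw [cm (rs.mul_right rs), k r3])
  · exact sq n3 (by rw [cm ((rs.mul_right rs).mul_left (rs.mul_right rs)), k r3, k s3])

theorem act_of {S : Set Ω} (y2 : y * y = 1) (hS : C1 y ≤ closure S)
    (h : ∀ c ∈ S, Commute c y ∧ (c * e * c⁻¹ = e ∨ c * e * c⁻¹ = y * e)) :
    ∀ c, Commute c y → c * e * c⁻¹ = e ∨ c * e * c⁻¹ = y * e := by
  have k : ∀ c ∈ closure S, Commute c y ∧ (c * e * c⁻¹ = e ∨ c * e * c⁻¹ = y * e) := fun c hc => by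
    refine closure_induction_left (p := fun c _ => Commute c y ∧ (c * e * c⁻¹ = e ∨ c * e * c⁻¹ = y * e))
      ⟨Commute.one_left y, .inl (by simp)⟩ (fun a ha b _ hb => ?_) (fun a ha b _ hb => ?_) hc
    · obtain ⟨a1, a2⟩ := h a ha
      refine ⟨a1.mul_left hb.1, ?_⟩
      rw [show a * b * e * (a * b)⁻¹ = a * (b * e * b⁻¹) * a⁻¹ by group]
      rcases hb.2 with h | h <;> rw [h]
      · exact a2
      · rw [← conj_mul, conj_eq_of_commute a1]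
        rcases a2 with h | h <;> rw [h]
        exacts [.inr rfl, .inl (by rw [← mul_assoc, y2, one_mul])]
    · obtain ⟨a1, a2⟩ := h a ha
      refine ⟨a1.inv_left.mul_left hb.1, ?_⟩
      have a3 : a⁻¹ * e * a⁻¹⁻¹ = e ∨ a⁻¹ * e * a⁻¹⁻¹ = y * e := by
        refine a2.imp (fun h => ?_) fun h => ?_
        · conv_lhs => rw [← h]
          group
        · have : e = y * (a * e * a⁻¹) := by rw [h, ← mul_assoc, y2, one_mul]
          conv_lhs => rw [this, ← conj_mul, conj_eq_of_commute a1.inv_left]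
          group
      rw [show a⁻¹ * b * e * (a⁻¹ * b)⁻¹ = a⁻¹ * (b * e * b⁻¹) * a⁻¹⁻¹ by group]
      rcases hb.2 with h | h <;> rw [h]
      · exact a3
      · rw [← conj_mul, conj_eq_of_commute a1.inv_left]
        rcases a3 with h | h <;> rw [h]
        exacts [.inr rfl, .inl (by rw [← mul_assoc, y2, one_mul])]
  exact fun c hc => (k c (hS (mem_C1.2 hc))).2

theorem nz_of {q : ℕ} (hq : (Nat.card (C1 z)).Coprime q) : ∀ x ∈ ⊤ ⊓ C1 z, x ^ q = 1 → x = 1 :=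
  fun _ hx e => orderOf_eq_one_iff.1 (Nat.eq_one_of_dvd_coprimes hq (orderOf_dvd_natCard _ hx.2)
    (orderOf_dvd_of_pow_eq_one e))

theorem cm_mem {a b : Ω} (a0 : a ∈ Γ0) (ay : Commute a y) (b0 : b ∈ Γ0) (by' : Commute b y) :
    ⁅a, b⁆ ∈ ⁅Γ0 ⊓ C1 y, Γ0 ⊓ C1 y⁆ :=
  commutator_mem_commutator ⟨a0, mem_C1.2 ay⟩ ⟨b0, mem_C1.2 by'⟩

theorem com_inv (act : ∀ c, Commute c y → c * e * c⁻¹ = e ∨ c * e * c⁻¹ = y * e) (c x : Ω)
    (cy : Commute c y) (xy : Commute x y) (xe : Commute x e) : Commute (c * x * c⁻¹) e := by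
  have k : Commute x (c⁻¹ * e * c⁻¹⁻¹) := by
    rcases act _ cy.inv_left with h | h <;> rw [h]
    exacts [xe, xy.mul_right xe]
  simpa [mul_assoc] using k.map (MulAut.conj c)

end YG

open YG in
theorem yd_of (b : Bas ⊤ Γ0 T z y n) (cH : Nat.card (C1 y) = 322560)
    (e0 : e ∈ Γ0) (e2 : e * e = 1) (ey : Commute e y) (e1 : e ≠ 1) (e3 : e ≠ y)
    (act : ∀ c, Commute c y → c * e * c⁻¹ = e ∨ c * e * c⁻¹ = y * e)
    (f0 : f ∈ Γ0) (fy : Commute f y) (fe : Commute f e) (f5 : f ^ 5 = 1) (f1 : f ≠ 1)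
    (f0' : f' ∈ Γ0) (fy' : Commute f' y) (fe' : Commute f' e) (f7 : f' ^ 7 = 1) (f1' : f' ≠ 1)
    (nf : Nc Γ0 z y f) (nf' : Nc Γ0 z y f')
    (nz : (Nat.card (C1 z)).Coprime 5 ∨ (Nat.card (C1 z)).Coprime 7) {Q : Ω → Prop}
    (hQ : ∀ c x, Commute c y → Commute x y → Q x → Q (c * x * c⁻¹))
    (c5 : ∀ d, Commute d y → Commute d f → Tw d → In4 y e d ∨ Q d)
    (c7 : ∀ d, Commute d y → Commute d f' → Tw d → In4 y e d ∨ ¬ Q d)
    (τ0 : τ ∈ Γ0) (τy : Commute τ y) (τ2 : τ * τ = 1) (eτ : ⁅e, τ⁆ = y)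
    (pd : PD Γ0 P z y e τ p)
    (g0 : g ∈ ⁅Γ0 ⊓ C1 y, Γ0 ⊓ C1 y⁆) (w0 : w ∈ ⁅Γ0 ⊓ C1 y, Γ0 ⊓ C1 y⁆) (g4 : g * g * (g * g) = 1)
    (yg : Cl Γ0 y (y * (g * g))) (gw : ⁅g * g, w⁆ ≠ 1) (gw2 : ⁅g * g, w⁆ * ⁅g * g, w⁆ = 1)
    (sq : ∀ d ∈ Γ0, Commute d y → Commute d z → Commute d e → d * d * (d * d) = 1 →
      In4 y e (d * d) ∨ Cl Γ0 z (d * d)) : YD2 ⊤ Γ0 z y := by
  have m4 := @mem4 _ _ _ _ _ b.y2 e2 ey
  have hN : ∀ c, Commute c y → c ∈ Ns (zpowers y ⊔ zpowers e) := fun c hc =>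
    mem_normalizer_of_cj_le (by
      rw [cj_sup, cj_zpowers, cj_zpowers, conj_eq_of_commute hc]
      refine sup_le le_sup_left (zpowers_le.2 (m4.2 ?_))
      rcases act c hc with h | h <;> simp [h, In4])
  have back : ∀ {c x}, Commute c y → In4 y e (c * x * c⁻¹) → x ∈ zpowers y ⊔ zpowers e :=
    fun {c x} hc h => by simpa [mul_assoc] using mem_normalizer_conj' (hN c hc) (m4.2 h)
  have cy : ∀ {c x}, Commute c y → Commute x y → Commute (c * x * c⁻¹) y := fun h1 h2 =>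
    (h1.mul_left h2).mul_left h1.inv_left
  have dE : ⁅⊤ ⊓ C1 y, ⊤ ⊓ C1 y⁆ ≤ Cs (zpowers y ⊔ zpowers e) := commutator_le.2 fun a ha c hc => by
    have h1 := mem_C1.1 ha.2
    have h2 := mem_C1.1 hc.2
    refine cs2.2 ⟨(cy h1 h2).mul_left h2.inv_left, commute_of_conj_eq ?_⟩
    have k : a * c * e * (a * c)⁻¹ = c * a * e * (c * a)⁻¹ := by
      rw [show a * c * e * (a * c)⁻¹ = a * (c * e * c⁻¹) * a⁻¹ by group,
        show c * a * e * (c * a)⁻¹ = c * (a * e * a⁻¹) * c⁻¹ by group]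
      rcases act a h1 with k1 | k1 <;> rcases act c h2 with k2 | k2 <;>
        simp only [k1, k2, ← conj_mul, conj_eq_of_commute h1, conj_eq_of_commute h2]
    have k' := com_inv act (c * a) ((c * a)⁻¹ * (a * c)) (h2.mul_left h1)
      ((h2.mul_left h1).inv_left.mul_left (h1.mul_left h2)) (commute_of_conj_eq (by
        rw [show (c * a)⁻¹ * (a * c) * e * ((c * a)⁻¹ * (a * c))⁻¹ =
          (c * a)⁻¹ * (a * c * e * (a * c)⁻¹) * (c * a) by group, k]; group))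
    rw [show ⁅a, c⁆ = c * a * ((c * a)⁻¹ * (a * c)) * (c * a)⁻¹ by rw [commutatorElement_def]; group]
    exact conj_eq_of_commute k'
  have := Fact.mk pd.prime
  have := Fact.mk Nat.prime_two
  refine .inr ⟨zpowers y ⊔ zpowers e, P, f, f', e, τ, g, w, ⟨?_, sup_le (zpowers_le.2
    ⟨b.y0, mem_C1.2 (Commute.refl y)⟩) (zpowers_le.2 ⟨e0, mem_C1.2 ey⟩), m4.2 (.inr (.inl rfl)),
    fun a ha => ?_, dE, ⟨f0, cs2.2 ⟨fy, fe⟩⟩, ⟨f0', cs2.2 ⟨fy', fe'⟩⟩, f5, f7, nf, nf',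
    nz.imp nz_of nz_of, fun x hx x2 a ha c hc a5 a1 c7' c1 => ?_, m4.2 (.inr (.inr (.inl rfl))),
    ⟨⟨τ0, mem_C1.2 τy⟩, hN τ τy⟩, τ2, eτ, pd.P0, pd.nP, fun P' hP' hc x hx x2 => ?_, g0, w0, g4, yg,
    gw, gw2, fun x hx x4 => ?_⟩, p, pd.prime, pd.syl.isPGroup⟩
  · rw [Solv.PG.card_sup_zpowers Nat.prime_two (ns_zp ey) (fun h => (zp2 b.y2 h).elim e1 e3)
      (by rw [pow_two, e2]; exact one_mem _), card_zp Nat.prime_two ((pow_two y).trans b.y2) b.y1]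
  · rcases m4.1 ha with rfl | rfl | rfl | rfl
    exacts [one_mul 1, b.y2, e2, by
      rw [mul_assoc, ← mul_assoc e, ey.eq, mul_assoc, e2, mul_one, b.y2]]
  · have xy := mem_C1.1 hx.2
    obtain ⟨k, k1, k2⟩ := move (m := 64512) cH (by norm_num) (by norm_num) f5 f1 fy
      (mem_C1.1 ha.1.2) a5 a1 (mem_C1.1 ha.2)
    obtain ⟨l, l1, l2⟩ := move (m := 46080) cH (by norm_num) (by norm_num) f7 f1' fy'
      (mem_C1.1 hc.1.2) c7' c1 (mem_C1.1 hc.2)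
    rcases c5 _ (cy k1 xy) k2 (Tw.conj x2 k) with h | h
    · exact back k1 h
    refine back l1 ((c7 _ (cy l1 xy) l2 (Tw.conj x2 l)).resolve_right fun h' => h' ?_)
    have := hQ (l * k⁻¹) _ (l1.mul_left k1.inv_left) (cy k1 xy) h
    rwa [show l * k⁻¹ * (k * x * k⁻¹) * (l * k⁻¹)⁻¹ = l * x * l⁻¹ by group] at this
  · obtain ⟨j, hj⟩ := IsPGroup.iff_card.1 pd.syl.isPGroup
    obtain ⟨c, hc', k⟩ := pd.syl.exists_cj_le (IsPGroup.of_card (hc.trans hj))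
      fun a ha => mem_C1.2 (cs2.1 (hP' ha).2).1
    have c1 := mem_C1.1 hc'
    obtain ⟨x1, x3⟩ := cs2.1 hx.1.2
    refine back c1 (pd.fx _ (cy c1 x1) (com_inv act c x c1 x1 x3) ?_ (Tw.conj x2 c))
    rw [← Solv.PG.eq_of_le_of_card_eq k ((card_cj c P').trans hc), ← StdJ4.cj_Cs]
    exact conj_mem_cj.2 hx.2
  · obtain ⟨x1, x3⟩ := cs2.1 (dE hx)
    have x0 : x ∈ Γ0 := (commutator_le.2 fun a _ c _ => b.cmm_mem (mem_top a) (mem_top c) :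
      ⁅⊤ ⊓ C1 y, ⊤ ⊓ C1 y⁆ ≤ Γ0) hx
    have two : IsPGroup 2 ↥(T ⊓ C1 y) := b.twoT.to_le inf_le_left
    have hS : IsSylowIn 2 (T ⊓ C1 y) (Γ0 ⊓ C1 y) := by
      obtain ⟨S, hS⟩ := exists_isSylowIn (p := 2) (Γ0 ⊓ C1 y)
      exact hS.of_card_ge two (inf_le_inf_right _ b.T0) (b.cardR ▸ b.sylR S hS.le hS.isPGroup)
    obtain ⟨c, hc, k⟩ := hS.exists_cj_le (two_zpowers (x := x) (k := 2) (by
      rw [pow_two, pow_mul, pow_two, pow_two, x4])) (zpowers_le.2 ⟨x0, mem_C1.2 x1⟩)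
    have c1 := mem_C1.1 hc.2
    have k1 := cj_le_iff.1 k x (mem_zpowers x)
    have := sq _ (b.T0 k1.1) (cy c1 x1) (mem_Cs.1 b.zc _ k1.1).symm (com_inv act c x c1 x1 x3)
      (by simp only [conj_mul]; rw [x4, mul_one, mul_inv_cancel])
    rw [conj_mul] at this
    refine this.imp (back c1) fun h => ?_
    simpa [mul_assoc] using h.conj (inv_mem hc.1)

end Cfsg.Lib.StdX
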